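/- Tower SIM, chapter D: unitary quasi-reflections. -/
import Cfsg.Agent.H11.SimDSpec

set_option autoImplicit false

namespace H17.SimUR

open Cfsg Matrix H0.Sim H11.SimD

theorem jobD_UR : JobUR := by
  intro hf n F _ _ q hq y z hc hz
  obtain ⟨h1, -, h3, h4, -⟩ := hf n F q hq
  obtain ⟨a, ha⟩ : ∃ a, a = (z - 1) / hermForm n F q y y := ⟨_, rfl⟩
  rw [← ha]
  have e1 : a * hermForm n F q y y = z - 1 := by rw [ha, div_mul_cancel₀ _ hc]
  have e2 : a ^ q * hermForm n F q y y = z ^ q - 1 := by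
    have := h1 (z - 1) 1
    rw [sub_add_cancel, one_pow, ← e1, mul_pow, ← h3] at this
    rw [this, add_sub_cancel_right]
  have e3 : a ^ q + a + a * a ^ q * hermForm n F q y y = 0 := by
    apply mul_right_cancel₀ hc
    linear_combination (1 + a * hermForm n F q y y) * e2 + z ^ q * e1 + hz
  have hd : (1 + vecMulVec (a • y) fun i => y i ^ q : Mt n F).det = z := by
    rw [vecMulVec_eq Unit, det_one_add_replicateCol_mul_replicateRow, dotProduct_smul,
      dotProduct_comm, smul_eq_mul]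
    exact add_eq_of_eq_sub' e1
  have hm : ∀ x, (1 + vecMulVec (a • y) fun i => y i ^ q : Mt n F) *ᵥ x =
      x + (a * hermForm n F q x y) • y := fun x => by
    rw [add_mulVec, one_mulVec, vecMulVec_mulVec, op_smul_eq_smul, smul_smul, dotProduct_comm,
      mul_comm]
    rfl
  have z0 : z ≠ 0 := left_ne_zero_of_mul_eq_one hz
  refine ⟨GeneralLinearGroup.mkOfDetNeZero _ (hd ▸ z0), fun u v => ?_, hd, hm⟩
  show hermForm n F q ((1 + vecMulVec (a • y) fun i => y i ^ q : Mt n F) *ᵥ u)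
    ((1 + vecMulVec (a • y) fun i => y i ^ q : Mt n F) *ᵥ v) = _
  rw [hm, hm, (h4 1 _ _ _).1, (h4 1 _ _ _).2.1, (h4 1 _ _ _).2.1, (h4 _ _ 0 _).2.2.1,
    (h4 _ _ 0 _).2.2.1, (h4 _ _ 0 _).2.2.2, (h4 _ _ 0 _).2.2.2, mul_pow, ← h3]
  linear_combination hermForm n F q u y * hermForm n F q y v * e3

end H17.SimUR
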