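/- S4161: the case in which the class sizes of `p`-elements are powers of `q`. -/
import Cfsg.Agent.H40.CSSpec

set_option autoImplicit false

namespace H17.CSBe

open Cfsg H40.CS Subgroup

universe u

theorem mul_of_coprime {G : Type*} [Group G] [Finite G] (H K : Subgroup G)
    (h : H.index.Coprime K.index) (g : G) : ∃ a ∈ H, ∃ b ∈ K, g = a * b := by
  have h1 : K.index ∣ K.relIndex H := by
    refine h.symm.dvd_of_dvd_mul_right ?_
    rw [← inf_relIndex_right, relIndex_mul_index inf_le_right]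
    exact index_dvd_of_le inf_le_left
  let f : H ⧸ K.subgroupOf H → G ⧸ K := Quotient.map' (fun a => (a : G)) fun a b hab => by
    rw [QuotientGroup.leftRel_apply] at hab ⊢
    exact hab
  have hf : Function.Injective f := fun a b => Quotient.inductionOn₂' a b fun a b hab =>
    Quotient.sound' (QuotientGroup.leftRel_apply.2
      ((QuotientGroup.eq (s := K) (a := (a : G)) (b := (b : G))).1 hab))
  have hb : Function.Bijective f := (Nat.bijective_iff_injective_and_card f).2 ⟨hf,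
    le_antisymm (Nat.card_le_card_of_injective f hf) (Nat.le_of_dvd Nat.card_pos h1)⟩
  obtain ⟨a, ha⟩ := hb.2 (g : G ⧸ K)
  induction a using Quotient.inductionOn' with
  | h a => exact ⟨a, a.2, (a : G)⁻¹ * g, QuotientGroup.eq.1 ha, by group⟩

theorem prim_of_mem {G : Type u} [Group G] {r : ℕ} [Fact r.Prime] (T : Sylow r G) {t : G}
    (ht : t ∈ T) : IsPrim r t := by
  obtain ⟨k, hk⟩ := (IsPGroup.iff_orderOf.1 T.isPGroup') ⟨t, ht⟩
  exact ⟨k, by rw [← hk, ← orderOf_coe]⟩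

theorem not_dvd_order {G : Type u} [Group G] {r s : ℕ} (hr : r.Prime) (hs : s.Prime) (h : r ≠ s)
    {b : G} (hb : IsPrim s b) : ¬ r ∣ orderOf b := fun h1 => by
  obtain ⟨k, hk⟩ := hb
  exact h ((Nat.prime_dvd_prime_iff_eq hr hs).1 (hr.dvd_of_dvd_pow (hk ▸ h1)))

theorem exists_norm {G : Type u} [Group G] [Finite G] {p q : ℕ} [Fact p.Prime] [Fact q.Prime]
    (h : p ≠ q) (hc : HasNormalPComplement p G) (T : Sylow q G) :
    ∃ P : Sylow p G, (P : Subgroup G) ≤ normalizer ((T : Subgroup G) : Set G) := by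
  obtain ⟨P₀, K, hK, hc⟩ := hc
  have hTK : (T : Subgroup G) ≤ K := fun t ht => by
    obtain ⟨k, hk⟩ := prim_of_mem T ht
    obtain ⟨n, hn⟩ := P₀.isPGroup'.exists_card_eq
    rw [← QuotientGroup.eq_one_iff, ← orderOf_eq_one_iff]
    refine Nat.eq_one_of_dvd_coprimes (Nat.coprime_pow_primes n k Fact.out Fact.out h) ?_ ?_
    · rw [← hn, ← hc.symm.index_eq_card]; exact orderOf_dvd_natCard _
    · rw [← hk]; exact orderOf_map_dvd (QuotientGroup.mk' K) t
  have h1 := T.normalizer_sup_eq_top' hTK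
  generalize hN : normalizer ((T : Subgroup G) : Set G) = N
  have h1' : N ⊔ K = ⊤ := hN ▸ h1
  have h2 : K.relIndex N = K.index := by rw [← relIndex_sup_right, h1', relIndex_top_right]
  have h3 : N.index ∣ Nat.card K := by
    refine ⟨Nat.card (K.subgroupOf N), Nat.eq_of_mul_eq_mul_left (Nat.pos_of_ne_zero
      (FiniteIndex.index_ne_zero (H := K))) ?_⟩
    rw [K.index_mul_card, ← N.index_mul_card, ← (K.subgroupOf N).index_mul_card, ← h2, relIndex]
    ring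
  obtain ⟨P⟩ : Nonempty (Sylow p N) := inferInstance
  refine ⟨(P.isPGroup'.map N.subtype).toSylow fun h4 => ?_, map_subtype_le _⟩
  rw [index_map_subtype] at h4
  rcases (Nat.Prime.dvd_mul Fact.out).1 h4 with h5 | h5
  · exact P.not_dvd_index h5
  · exact P₀.not_dvd_index (hc.index_eq_card ▸ h5.trans h3)

theorem job : JobBe.{u} := by
  intro hB hV G _ _ p q h hc hX b s hs hsp hb hpb a ha hqa hl
  have B := hB G
  have := Fact.mk h.hp
  have := Fact.mk h.hq
  have k1 : ∀ a₁ : G, IsPrim p a₁ → ∀ r : ℕ, r.Prime → r ∣ cs a₁ → r = s := by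
    intro a₁ h1 r hr hd
    by_contra hrs
    have := Fact.mk hr
    have hrb : ¬ r ∣ cs b := fun h2 =>
      hr.ne_one (Nat.eq_one_of_dvd_coprimes (h.cop' (XS.self hpb) (hX a₁ h1)) h2 hd)
    obtain ⟨T⟩ : Nonempty (Sylow r G) := inferInstance
    refine (B.f3 r a₁).2 ⟨T, fun d hd' => ?_⟩ hd
    obtain ⟨x, x1, x2⟩ := B.f5 r hr b d hrb (not_dvd_order hr hs hrs hb) (prim_of_mem T hd')
    exact (B.f6 p h.hp a₁ d h1 (hl d (not_dvd_order hs hr (Ne.symm hrs) (prim_of_mem T hd')))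
      (h.cop' ⟨x, hpb.trans x1, x2⟩ (hX a₁ h1)).symm).symm
  obtain rfl := k1 a ha q h.hq hqa
  obtain ⟨T⟩ : Nonempty (Sylow q G) := inferInstance
  obtain ⟨P, hP⟩ := exists_norm h.ne hc T
  have k2 : ∀ a₁ ∈ P, ∀ g : G, g * a₁ * g⁻¹ * a₁⁻¹ ∈ (T : Subgroup G) := by
    intro a₁ h1 g
    obtain ⟨t, ht, c, hc', rfl⟩ := mul_of_coprime (T : Subgroup G) (centralizer {a₁})
      (Nat.coprime_of_dvd fun r hr h2 h3 =>
        T.not_dvd_index (k1 a₁ (prim_of_mem P h1) r hr h3 ▸ h2)) g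
    have e : t * c * a₁ * (t * c)⁻¹ * a₁⁻¹ = t * (a₁ * t⁻¹ * a₁⁻¹) := by
      rw [mul_assoc t c, mem_centralizer_singleton_iff.1 hc']; group
    rw [e]
    exact mul_mem ht ((mem_normalizer_iff.1 (hP h1) _).1 (inv_mem ht))
  have k3 : ∀ a₁ ∈ P, ∀ g : G, g * a₁ * g⁻¹ * a₁⁻¹ ∈ (T : Subgroup G).normalCore := by
    intro a₁ h1 g k
    have e : k * (g * a₁ * g⁻¹ * a₁⁻¹) * k⁻¹ =
        (k * g * a₁ * (k * g)⁻¹ * a₁⁻¹) * (k * a₁ * k⁻¹ * a₁⁻¹)⁻¹ := by group
    rw [e]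
    exact mul_mem (k2 a₁ h1 _) (inv_mem (k2 a₁ h1 _))
  refine hV G p q h (centralizer ((T : Subgroup G).normalCore : Set G)) inferInstance
    (fun hU => ?_) fun g hg => ?_
  · obtain ⟨x, hx⟩ := h.exX
    refine (B.f3 p x).2 ⟨P, fun a₁ h1 => ?_⟩ hx
    obtain ⟨k, hk⟩ := prim_of_mem P h1
    obtain ⟨n, hn⟩ := prim_of_mem T (normalCore_le _ (k3 a₁ h1 x))
    have c : Commute (x * a₁ * x⁻¹ * a₁⁻¹) a₁ :=
      (hU ▸ mem_top a₁ : a₁ ∈ centralizer ((T : Subgroup G).normalCore : Set G)) _ (k3 a₁ h1 x)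
    have h2 : (x * a₁ * x⁻¹ * a₁⁻¹) ^ p ^ k = 1 := by
      have h3 := c.mul_pow (p ^ k)
      rw [inv_mul_cancel_right, conj_pow, ← hk, pow_orderOf_eq_one, mul_one, mul_inv_cancel,
        mul_one, hk] at h3
      exact h3.symm
    have h4 : x * a₁ * x⁻¹ * a₁⁻¹ = 1 := orderOf_eq_one_iff.1 (Nat.eq_one_of_dvd_coprimes
      (Nat.coprime_pow_primes k n h.hp h.hq h.ne) (orderOf_dvd_of_pow_eq_one h2) hn.dvd)
    exact (commutatorElement_eq_one_iff_commute.1 h4).symm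
  · by_contra h1
    obtain ⟨T', hT'⟩ := (B.f3 q g).1 h1
    exact hg fun t ht => (hT' t ((T.isPGroup'.to_le (normalCore_le _)).le_sylow_of_normal T' ht)).eq

end H17.CSBe
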