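/- Tower DG (S5732): the job Core. -/
import Cfsg.Agent.H56.DgSpec
import Cfsg.Agent.H3.NormalRankOne
import Cfsg.Agent.H9.PBasic

set_option autoImplicit false

namespace H17.DgCore

open Subgroup H56.DG
open scoped commutatorElement

universe u

/-- The elements of `Q` that are central of exponent `q` modulo `Z`. -/
def mid {H : Type u} [Group H] (Q Z : Subgroup H) [Z.Normal] (q : ℕ) : Subgroup H where
  carrier := {g | g ∈ Q ∧ (QuotientGroup.mk' Z g) ^ q = 1 ∧
    ∀ y ∈ Q, Commute (QuotientGroup.mk' Z g) (QuotientGroup.mk' Z y)}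
  one_mem' := ⟨one_mem _, by simp, fun y _ => by simp⟩
  mul_mem' := fun {a b} ha hb => ⟨mul_mem ha.1 hb.1, by
    rw [map_mul, (ha.2.2 b hb.1).mul_pow, ha.2.1, hb.2.1, one_mul],
    fun y hy => by rw [map_mul]; exact (ha.2.2 y hy).mul_left (hb.2.2 y hy)⟩
  inv_mem' := fun {a} ha => ⟨inv_mem ha.1, by rw [map_inv, inv_pow, ha.2.1, inv_one],
    fun y hy => by rw [map_inv]; exact (ha.2.2 y hy).inv_left⟩

theorem mem_mid {H : Type u} [Group H] {Q Z : Subgroup H} [Z.Normal] {q : ℕ} {g : H} :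
    g ∈ mid Q Z q ↔ g ∈ Q ∧ g ^ q ∈ Z ∧ ∀ y ∈ Q, ⁅g, y⁆ ∈ Z := by
  refine and_congr_right fun _ => and_congr ?_ (forall₂_congr fun y _ => ?_)
  · rw [← map_pow, QuotientGroup.mk'_apply, QuotientGroup.eq_one_iff]
  · rw [← commutatorElement_eq_one_iff_commute, ← map_commutatorElement, QuotientGroup.mk'_apply,
      QuotientGroup.eq_one_iff]

theorem mid_normal {H : Type u} [Group H] (Q Z : Subgroup H) [hQ : Q.Normal] [hZ : Z.Normal]
    (q : ℕ) : (mid Q Z q).Normal := by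
  refine ⟨fun n hn g => ?_⟩
  rw [mem_mid] at hn ⊢
  refine ⟨hQ.conj_mem _ hn.1 g, by rw [conj_pow]; exact hZ.conj_mem _ hn.2.1 g, fun y hy => ?_⟩
  have h := hZ.conj_mem _ (hn.2.2 _ (hQ.conj_mem' y hy g)) g
  have e : g * ⁅n, g⁻¹ * y * g⁆ * g⁻¹ = ⁅g * n * g⁻¹, y⁆ := by
    simp only [commutatorElement_def]; group
  rwa [e] at h

/-- The solutions of `w ^ q = 1` in an abelian normal subgroup. -/
def om {P : Type u} [Group P] (A : Subgroup P) (hA : IsMulCommutative A) (q : ℕ) : Subgroup P where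
  carrier := {w | w ∈ A ∧ w ^ q = 1}
  one_mem' := ⟨one_mem _, one_pow _⟩
  mul_mem' := fun {a b} ha hb => ⟨mul_mem ha.1 hb.1, by
    have : Commute a b := congrArg Subtype.val (hA.is_comm.comm (⟨a, ha.1⟩ : A) ⟨b, hb.1⟩)
    rw [this.mul_pow, ha.2, hb.2, one_mul]⟩
  inv_mem' := fun {a} ha => ⟨inv_mem ha.1, by rw [inv_pow, ha.2, inv_one]⟩

theorem jobCore (ab : JobAb.{u}) (fpf : JobFpf.{u}) (cl2 : JobCl2.{u}) : JobCore.{u} := by
  intro H V _ _ _ _ _ R Q q S I hQn hQR hq hQ ⟨x, hxQ, hx1, hx⟩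
  classical
  by_contra hC
  have hG : ¬ Good V R := fun h => hC (Or.inl h)
  have := Fact.mk hq
  obtain ⟨v, hxv, hv⟩ : ∃ v : V, x • v = v ∧ v ≠ 1 := by simpa [Fpf] using hx
  have hQb : Q ≠ ⊥ := fun h => hx1 (mem_bot.1 (h ▸ hxQ))
  have hcv := cv_normal S I Q hQb
  have hco : q.Coprime (Nat.card V) := by
    have h1 := hQ.card_modEq_card_fixedPoints V
    have h2 : Nat.card (MulAction.fixedPoints Q V) = 1 := by
      refine Nat.card_eq_one_iff_exists.2 ⟨⟨1, fun g => smul_one g⟩, fun w => Subtype.ext ?_⟩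
      exact mem_bot.1 (hcv ▸ (fun s hs => w.2 ⟨s, hs⟩ : w.1 ∈ cv V (Q : Set H)))
    rw [h2] at h1
    rw [hq.coprime_iff_not_dvd]
    exact fun h => hq.one_lt.ne' (Nat.dvd_one.1 ((h1.dvd_iff dvd_rfl).1 h))
  have free : ∀ E : Subgroup H, E.Normal → E ≤ Q → (∀ a ∈ E, ∀ b ∈ E, Commute a b) →
      ∀ e ∈ E, e ≠ 1 → Fpf V e := fun E hE hEQ hc => by
    obtain ⟨k, hk⟩ := IsPGroup.iff_card.1 (hQ.to_le hEQ)
    exact (ab H V R E S I hE (hEQ.trans hQR) hc (hk ▸ hco.pow_left k)).resolve_right hG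
  have star : ∀ a b : H, Commute a b → a ^ q = 1 → b ^ q = 1 → Fpf V a → b ∉ zpowers a →
      ∃ i : ℕ, b * a ^ i ≠ 1 ∧ ¬ Fpf V (b * a ^ i) := fun a b hab ha hb hf hn => by
    obtain ⟨i, w, -, hw1, hw⟩ := fpf H V q a b ⊤ hq hco hab ha hb hf
      (fun e => hv (mem_bot.1 (e ▸ mem_top v))) (fun _ _ => mem_top _) (fun _ _ => mem_top _)
    refine ⟨i, fun e => hn ?_, fun f => hw1 (f w hw)⟩
    rw [mul_eq_one_iff_eq_inv.1 e]
    exact inv_mem (pow_mem (mem_zpowers a) i)
  -- the centre of `Q`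
  have fZ := free (Q ⊓ centralizer (Q : Set H)) inferInstance inf_le_left
    fun a ha b hb => hb.2 a ha.1
  obtain ⟨z', -, hz'c, hz'⟩ := H9.exists_mem_center_orderOf_eq hQ (K := ⊤) fun h => hx1 (by
    have : (⟨x, hxQ⟩ : Q) ∈ (⊥ : Subgroup Q) := h ▸ mem_top _
    exact Subtype.ext_iff.1 (mem_bot.1 this))
  obtain ⟨z, hzQ⟩ := z'
  have hz : orderOf z = q := by rw [← hz', orderOf_mk]
  have hzc : ∀ g ∈ Q, Commute g z := fun g hg =>
    congrArg Subtype.val (mem_center_iff.1 hz'c ⟨g, hg⟩)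
  have hzZ : z ∈ Q ⊓ centralizer (Q : Set H) := ⟨hzQ, hzc⟩
  have hzq : z ^ q = 1 := hz ▸ pow_orderOf_eq_one z
  have hz1 : z ≠ 1 := fun e => hq.one_lt.ne' (by rw [← hz, e, orderOf_one])
  have fz : Fpf V z := fZ z hzZ hz1
  -- a free subgroup containing `z` has only one subgroup of order `q`
  have uniq : ∀ E : Subgroup H, E ≤ Q → z ∈ E → (∀ e ∈ E, e ≠ 1 → Fpf V e) →
      ∀ b ∈ E, b ^ q = 1 → b ∈ zpowers z := fun E hEQ hzE hf b hb hbq => by
    by_contra hn
    obtain ⟨i, h1, h2⟩ := star z b (hzc b (hEQ hb)).symm hzq hbq fz hn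
    exact h2 (hf _ (mul_mem hb (pow_mem hzE i)) h1)
  have hZn : (zpowers z).Normal := ⟨fun n hn g => by
    obtain ⟨k, rfl⟩ := mem_zpowers_iff.1 hn
    rw [← conj_zpow]
    exact zpow_mem (uniq _ inf_le_left hzZ fZ _ (Normal.conj_mem inferInstance _ hzZ g)
      (by rw [conj_pow, hzq]; group)) k⟩
  have hMn := mid_normal Q (zpowers z) q
  have hMQ : mid Q (zpowers z) q ≤ Q := fun g hg => hg.1
  have hzM : z ∈ mid Q (zpowers z) q := mem_mid.2 ⟨hzQ, pow_mem (mem_zpowers z) q, fun y hy => by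
    rw [(hzc y hy).symm.commutator_eq]; exact one_mem _⟩
  have fM := (cl2 H V R (mid Q (zpowers z) q) q z S hMn (hMQ.trans hQR) hq hco hzM hz
    (fun g hg => hzc g (hMQ hg)) (fun g hg y hy => (mem_mid.1 hg).2.2 y (hMQ hy))
    (fun g hg => (mem_mid.1 hg).2.1) fun c hc hcc => free
      (mid Q (zpowers z) q ⊓ centralizer (mid Q (zpowers z) q : Set H)) inferInstance
      (inf_le_left.trans hMQ) (fun a ha b hb => hb.2 a ha.1) c
      ⟨hc, fun g hg => (hcc g hg).symm⟩).resolve_right hC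
  -- every abelian normal subgroup of `Q` is cyclic
  have hn : ∀ A : Subgroup Q, A.Normal → IsMulCommutative A → IsCyclic A := fun A hA hAc => by
    have key : ∀ w ∈ A, w ^ q = 1 → (w : H) ∈ zpowers z := fun w hw hwq => by
      by_contra hne
      have : (om A hAc q).Normal := ⟨fun n hn g => ⟨hA.conj_mem _ hn.1 g, by
        rw [conj_pow, hn.2]; group⟩⟩
      obtain ⟨y, hy, hyZ, h1, h2⟩ := H9.exists_central_step hQ (N := (zpowers z).subgroupOf Q)
        (K := om A hAc q) fun h => hne (h (⟨hw, hwq⟩ : w ∈ om A hAc q))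
      exact hyZ (uniq _ hMQ hzM fM y (mem_mid.2 ⟨y.2, h1, fun g hg => h2 ⟨g, hg⟩⟩)
        (congrArg Subtype.val hy.2))
    have hinj : Function.Injective (Q.subtype.comp A.subtype) :=
      Q.subtype_injective.comp A.subtype_injective
    have k2 : ∀ K : Subgroup A, Nat.card K = q → K.map (Q.subtype.comp A.subtype) = zpowers z :=
      fun K hK => by
        refine eq_of_le_of_card_ge ?_ ?_
        · rintro _ ⟨w, hw, rfl⟩
          refine key w w.2 ?_
          have := congrArg (fun t : K => ((t : A) : Q)) (pow_card_eq_one' (x := (⟨w, hw⟩ : K)))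
          simpa [hK] using this
        · rw [card_map_of_injective hinj, hK, Nat.card_zpowers, hz]
    exact H3.isCyclic_of_comm_pgroup_of_unique (hQ.to_subgroup A) hAc fun K L hK hL =>
      map_injective hinj ((k2 K hK).trans (k2 L hL).symm)
  have hnc : ¬ IsCyclic Q := fun hc => hx (free Q hQn le_rfl (fun a ha b hb =>
    congrArg Subtype.val (hc.isMulCommutative.is_comm.comm (⟨a, ha⟩ : Q) ⟨b, hb⟩)) x hxQ hx1)
  obtain rfl : q = 2 := by_contra fun h => hnc (H3.isCyclic_of_normal_abelian_cyclic_odd h hQ hn)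
  obtain ⟨a, hi, hself⟩ := H3.exists_zpowers_index_two_of_normal_abelian_cyclic hQ hn hnc
  -- the cyclic subgroup of index two is free
  have fU : ∀ u ∈ zpowers a, u ≠ 1 → Fpf V (u : H) := fun u hu hu1 => by
    obtain ⟨j, h1, h2⟩ := H3.exists_pow_notMem_pow_succ_mem hQ (H := ⊥) (y := u)
      (by rwa [mem_bot])
    rw [mem_bot] at h1 h2
    have h3 := H3.mem_zpowers_of_isCyclic_subgroup (H := zpowers a) inferInstance
      (x := ⟨z, hzQ⟩) (hself _ (Subtype.ext (hzc a a.2).symm)) (pow_mem hu _)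
      (Subtype.ext hzq) (orderOf_eq_prime h2 h1)
    obtain ⟨k, hk⟩ := mem_zpowers_iff.1 (zpowers_le.2 (pow_mem (mem_zpowers u) _) h3)
    exact fz.of_mem_zpowers (mem_zpowers_iff.2 ⟨k, congrArg Subtype.val hk⟩)
  have hout : ∀ g : H, (⟨g * x * g⁻¹, hQn.conj_mem x hxQ g⟩ : Q) ∉ zpowers a := fun g h => by
    have := (fU _ h fun e => hx1 (by simpa using congrArg Subtype.val e)).conj g⁻¹
    exact hx (by simpa [mul_assoc] using this)
  obtain ⟨g, hg⟩ : ∃ g : H, g * x * g⁻¹ ≠ x := by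
    by_contra h
    push Not at h
    have : (zpowers x).Normal := ⟨fun n hn g => by
      obtain ⟨k, rfl⟩ := mem_zpowers_iff.1 hn
      rw [← conj_zpow, h g]; exact zpow_mem (mem_zpowers x) k⟩
    exact hv (mem_bot.1 (cv_normal S I (zpowers x) (by rwa [Ne, zpowers_eq_bot]) ▸
      (fun s hs => zpowers_le.2 (MulAction.mem_stabilizer_iff.2 hxv) hs :
        v ∈ cv V (zpowers x : Set H))))
  have hxU : (⟨x, hxQ⟩ : Q) ∉ zpowers a := by simpa using hout 1
  have hm : (⟨x, hxQ⟩ : Q)⁻¹ * ⟨g * x * g⁻¹, hQn.conj_mem x hxQ g⟩ ∈ zpowers a :=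
    (mul_mem_iff_of_index_two hi).2 ⟨fun h => absurd (inv_mem_iff.1 h) hxU,
      fun h => absurd h (hout g)⟩
  have hf := fU _ hm fun e => hg (congrArg Subtype.val (inv_mul_eq_one.1 e)).symm
  have := Fintype.ofFinite Q
  refine hG (half S (M := (zpowers a).map Q.subtype) ((map_subtype_le _).trans hQR) hv hxv
    (g := g) (fun u h1 h2 => hf u ?_)
    ((Finset.univ.filter fun t : Q => t ∉ zpowers a).image Subtype.val)
    (fun g => Finset.mem_image.2 ⟨_, Finset.mem_filter.2 ⟨Finset.mem_univ _, hout g⟩, rfl⟩) ?_)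
  · change (x⁻¹ * (g * x * g⁻¹)) • u = u
    rw [mul_smul, h2, inv_smul_eq_iff, h1]
  · have e1 : (MulAction.stabilizer H v).subgroupOf ((zpowers a).map Q.subtype) = ⊥ := by
      rw [eq_bot_iff]
      rintro ⟨_, u, hu, rfl⟩ h
      by_contra c
      exact hv (fU u hu (fun e => c (by subst e; exact mem_bot.2 rfl)) v h)
    rw [relIndex, e1, index_bot, card_map_of_injective Q.subtype_injective]
    refine Finset.card_image_le.trans ?_
    have e2 := Finset.card_filter_add_card_filter_not (s := (Finset.univ : Finset Q))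
      (fun t => t ∈ zpowers a)
    have e3 := (zpowers a).index_mul_card
    have e4 : Nat.card (zpowers a) = (Finset.univ.filter fun t : Q => t ∈ zpowers a).card := by
      rw [Nat.card_eq_fintype_card, Fintype.card_subtype]
    rw [hi, Nat.card_eq_fintype_card (α := Q), ← Finset.card_univ] at e3
    omega

end H17.DgCore
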