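/- E7MAX (S5934): the slot A1. -/
import Cfsg.Agent.H36.E7MSpec

set_option autoImplicit false

namespace H17.E7MA1
open H36.E7M Subgroup
open scoped commutatorElement

theorem braid {Γ : Type*} [Group Γ] {H : Subgroup Γ} {a b : H} (h : a * b * a = b * a * b) :
    a = b * a * b * (b * a)⁻¹ ∧ b = a * b * a * (a * b)⁻¹ :=
  ⟨by rw [← h]; group, by rw [h]; group⟩

theorem braid_cj {Γ : Type*} [Group Γ] {H : Subgroup Γ} {a b g s t : H}
    (h : s * t * s = t * s * t)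
    (h1 : a = g * s * g⁻¹) (h2 : b = g * t * g⁻¹) : a * b * a = b * a * b := by
  subst h1 h2
  calc _ = g * (s * t * s) * g⁻¹ := by group
    _ = _ := by rw [h]; group

theorem opp (p : P1) {a b : G} (h : Rel (-2) a b) : a = cj (b * a) b ∧ b = cj (a * b) a := by
  obtain ⟨g, h1, h2⟩ := rel_opp.1 h
  exact braid (braid_cj p.s3 h1 h2)

theorem flip {Γ : Type*} [Group Γ] {H : Subgroup Γ} {b w z : H}
    (h : ⁅b, w⁆ = z) (h2 : z * z = 1)
    (h3 : Commute b z) : b = w⁻¹ * (b * z) * w⁻¹⁻¹ := by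
  rw [h3.eq, ← inv_eq_of_mul_eq_one_right h2, ← h, commutatorElement_def]
  group

theorem a0 (p : P1) : A0 := by
  intro M s b hb h
  obtain ⟨hD, hQ, hz⟩ := (p.col b).1 h
  have kz : z ∈ Subgroup.closure ({z, y} ∪ (M ⊓ Q : Subgroup G) : Set G) :=
    Subgroup.subset_closure (Or.inl (Or.inl rfl))
  have ky : y ∈ Subgroup.closure ({z, y} ∪ (M ⊓ Q : Subgroup G) : Set G) :=
    Subgroup.subset_closure (Or.inl (Or.inr rfl))
  have kq : ∀ a ∈ M, a ∈ Q → a ∈ Subgroup.closure ({z, y} ∪ (M ⊓ Q : Subgroup G) : Set G) :=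
    fun a h1 h2 => Subgroup.subset_closure (Or.inr ⟨h1, h2⟩)
  have key : ∀ a ∈ Subgroup.closure ({z, y} ∪ (M ⊓ Q : Subgroup G) : Set G), Rel (-2) a y →
      ∃ u ∈ Subgroup.closure ({z, y} ∪ (M ⊓ Q : Subgroup G) : Set G), a = cj u z := fun a ha h =>
    ⟨y * a * (z * y), mul_mem (mul_mem ky ha) (mul_mem kz ky), by
      have e : y = cj (z * y) z := (braid p.s3).2
      exact ((opp p h).1.trans (congrArg (cj (y * a)) e)).trans (cj_cj _ _ _)⟩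
  rcases (p.line b h).2 with ⟨-, h1⟩ | ⟨h1, -⟩
  · obtain ⟨u, hu, e⟩ := key _ (mul_mem (kq b hb hQ) kz) h1
    obtain ⟨w, hw, hwQ, e'⟩ := s.nondeg b hb hQ (fun c => p.one (c ▸ hD)) hz
    refine ⟨w⁻¹ * u, mul_mem (inv_mem (kq w hw hwQ)) hu, ?_⟩
    rw [← cj_cj, ← e]
    exact flip e' p.zz (p.Qz b hQ)
  · exact key _ (kq b hb hQ) h1

theorem orb_cj {M : Subgroup G} {m b : G} (hm : m ∈ M) (h : cj m⁻¹ b ∈ orb M) : b ∈ orb M := by
  obtain ⟨u, hu, e⟩ := h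
  exact ⟨m * u, mul_mem hm hu, by rw [← cj_cj, ← e, cj_cj_inv]⟩

theorem a1 (p : P1) : A1 := by
  intro M s
  have k1 : ∀ b ∈ M, Rel 1 z b → b ∈ orb M := fun b hb h => by
    obtain ⟨u, hu, e⟩ := a0 p M s b hb h
    refine ⟨u, (closure_le M).2 ?_ hu, e⟩
    rintro _ ((rfl | rfl) | h)
    exacts [s.z_mem, s.y_mem, h.1]
  have k2 : ∀ a ∈ orb M, ∀ b ∈ M, Rel 1 a b → b ∈ orb M := by
    rintro _ ⟨m, hm, rfl⟩ b hb h
    exact orb_cj hm (k1 _ (cj_mem (inv_mem hm) hb) (by simpa only [cj_inv_cj] using h.cj m⁻¹))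
  have k3 : ∀ b ∈ M, ∀ k, k ≠ 0 → Rel k z b → b ∈ orb M := fun b hb k hk h => by
    rcases h.cases with rfl | rfl | rfl | rfl | rfl
    · exact ⟨z * b, mul_mem s.z_mem hb, (opp p h).2⟩
    · obtain ⟨h1, h2⟩ := p.spe _ _ h
      refine k2 _ (k1 _ ?_ h1) b hb (p.sym _ _ _ h2)
      exact mul_mem (mul_mem (mul_mem s.z_mem hb) (inv_mem s.z_mem)) (inv_mem hb)
    · exact absurd rfl hk
    · exact k1 b hb h
    · exact ⟨1, one_mem _, by rw [cj_one, rel_two h]⟩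
  rintro _ ⟨m, hm, rfl⟩ b hb k hk h
  exact orb_cj hm (k3 _ (cj_mem (inv_mem hm) hb) k hk (by simpa only [cj_inv_cj] using h.cj m⁻¹))

theorem jobA1 : JobA1 := fun p => ⟨a0 p, a1 p⟩

end H17.E7MA1
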