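import Cfsg.Agent.H40.E7TSpec
import Cfsg.Agent.H61.E7Mod
import Cfsg.Agent.H58.E7Lin

/-! Tower E7T, jobs MA and MG3: counting fixed spaces for `A₁₃` and `G₂(3)`. -/

set_option autoImplicit false

namespace H17.E7T

open Module H40.E7S H40.E7T H61.E7M Finset

universe u

variable {G : Type*} [Group G] {ρ : Representation (ZMod 2) G V56}

theorem fd_one : fd ρ 1 = 56 := by
  rw [fd, show kf (ρ 1) = ⊤ from eq_top_iff.2 fun v _ => by simp [mem_kf], dm_top]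

theorem sum_cls {a : Fin 4 → G} {c : E4 → ℕ} (h : Cls a c) (cl : E4 → ℕ) (rep : ℕ → E4) (n : ℕ)
    (hr : ∀ v, cl v < n ∧ (rep (cl v) = v ∨ v ≠ 0 ∧ rep (cl v) ≠ 0 ∧ c v = c (rep (cl v))))
    (φ : E4 → E4) (l : List ℕ) (hl : ∀ k < n, #(univ.filter fun v => cl (φ v) = k) = l.getD k 0) :
    ∑ v, fd ρ (ev a (φ v)) = ∑ k ∈ range n, l.getD k 0 * fd ρ (ev a (rep k)) := by
  rw [← sum_fiberwise_of_maps_to (s := univ) (t := range n) (g := fun v => cl (φ v))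
    fun v _ => mem_range.2 (hr _).1]
  refine sum_congr rfl fun k hk => ?_
  rw [← hl k (mem_range.1 hk), ← smul_eq_mul, ← sum_const]
  refine sum_congr rfl fun v hv => ?_
  rw [← (mem_filter.1 hv).2]
  rcases (hr (φ v)).2 with e | ⟨e1, e2, e3⟩
  · rw [e]
  · exact fd_conj ρ (h.cj _ _ e1 e2 e3)

theorem scott2 {u x : G} (h : Subgroup.closure {u, x} = ⊤)
    (h1 : 56 < fd ρ u + fd ρ x + fd ρ (u * x)) : HasFix ρ := by
  by_contra hn
  simp only [HasFix, not_or, not_exists, not_and] at hn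
  obtain ⟨-, b⟩ := H58.E7.jobScott V56 (ρ u) (ρ x) ((Group.isUnit u).map ρ) ((Group.isUnit x).map ρ)
  have ind : ∀ p : G → Prop, p 1 → p u → p x → (∀ g k, p g → p k → p (g * k)) →
      (∀ g, p g → p g⁻¹) → ∀ g, p g := fun p h0 h1 h2 h3 h4 g => by
    have hg : g ∈ Subgroup.closure {u, x} := h ▸ Subgroup.mem_top g
    induction hg using Subgroup.closure_induction with
    | mem g hg => rcases hg with rfl | rfl <;> assumption
    | one => exact h0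
    | mul g k _ _ a b => exact h3 g k a b
    | inv g _ a => exact h4 g a
  have b := b (fun v e e' => by
    by_contra h0
    refine hn.1 v h0 (ind _ (by simp) e e' (fun g k a b => by rw [mul_ap, b, a]) fun g a => ?_)
    conv_lhs => rw [← a, ← mul_ap]
    simp) fun f e e' => by
    by_contra h0
    refine hn.2 f h0 (ind (fun g => ∀ v, f (ρ g v) = f v) (by simp) e e'
      (fun g k a b v => by rw [mul_ap, a, b]) fun g a v => ?_)
    rw [← a, ← mul_ap]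
    simp
  rw [← map_mul, dim56] at b
  change fd ρ u + fd ρ x + fd ρ (u * x) ≤ 56 at b
  omega

/-- representatives of the classes -/
def repA (k : ℕ) : E4 :=
  [0, ![1, 0, 0, 0], ![1, 1, 0, 0], ![1, 1, 1, 0], ![1, 1, 1, 1]].getD k 0

theorem jobMA (hS : JobSum.{u}) (hC : JobCong) : JobMA.{u} := by
  rintro G _ ρ hg ⟨a, h, h5, x, y, hx, hy, h13, gen⟩
  obtain ⟨s1, s2⟩ := hS G ρ a h.el
  obtain ⟨f, -, s2⟩ := s2 ![![1, 1, 0, 0], ![0, 0, 1, 0], ![0, 0, 0, 1], 0]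
  have k := sum_cls (ρ := ρ) h cA repA 5 (by decide +kernel)
  rw [k _ [3, 12, 18, 24, 24] (by decide +kernel)] at s2
  have s1 := (k id [1, 8, 24, 32, 16] (by decide +kernel)).symm.trans s1
  have lo : ∀ v ∈ ({![1, 0, 0, 0], ![1, 1, 0, 0], ![1, 1, 1, 1]} : Set E4), v ≠ 0 →
      16 ≤ fd ρ (ev a v) := fun v hv v0 => by
    obtain ⟨t, z, c, oz, e⟩ := h5 v hv
    have ot : t ^ 3 = 1 := by
      obtain ⟨k, hk⟩ := isConj_iff.1 c.symm
      rw [← hk, conj_pow, h.el.ev_cube]; simp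
    have t1 := tri (ρ := ρ) H58.E7.jobTri (Commute.one_left t) ot (po oz) e
    have one : ∀ g : G, f2 ρ 1 g = fd ρ g := fun g => by
      rw [f2, show kf (ρ 1) = ⊤ from eq_top_iff.2 fun v _ => by simp [mem_kf], top_inf_eq]; rfl
    rwa [one, one, hg.five _ oz, fd_conj ρ c] at t1
  have l1 := lo ![1, 0, 0, 0] (by simp) (by decide)
  have l2 := lo ![1, 1, 0, 0] (by simp) (by decide)
  have l4 := lo ![1, 1, 1, 1] (by simp) (by decide)
  have d1 := hg.three _ (h.ord ![1, 0, 0, 0] (by decide))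
  have d2 := hg.three _ (h.ord ![1, 1, 0, 0] (by decide))
  have d3 := hg.three _ (h.ord ![1, 1, 1, 0] (by decide))
  have d4 := hg.three _ (h.ord ![1, 1, 1, 1] (by decide))
  have c := (hC ⊤ (ρ (x * y)) fun _ _ => trivial).1 13 (by norm_num) fun v _ => by rw [pw h13]; rfl
  rw [dm_top, top_inf_eq] at c
  have l8 : 8 ≤ fd ρ (x * y) := by
    by_contra b
    exact (by decide : ∀ k < 8, ¬ 2 ^ 56 ≡ 2 ^ k [MOD 13]) _ (not_le.1 b) c
  refine scott2 gen ?_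
  rw [fd_conj ρ hx, fd_conj ρ hy]
  simp only [sum_range_succ, sum_range_zero, repA, List.getD_cons_succ, List.getD_cons_zero,
    ev_zero, fd_one] at s1 s2
  omega

/-- representatives of the classes -/
def repG (k : ℕ) : E4 :=
  [![1, 0, 0, 0], ![0, 0, 1, 0], ![1, 0, 1, 0], ![0, 1, 0, 1], ![0, 1, 0, 2], 0].getD k 0

theorem num3 {A B C D E F f1 f2 f3 f4 f5 : ℕ} (d0 : A = 2 ∨ A = 14 ∨ A = 20 ∨ A = 32)
    (d1 : B = 2 ∨ B = 14 ∨ B = 20 ∨ B = 32) (d2 : C = 2 ∨ C = 14 ∨ C = 20 ∨ C = 32)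
    (d3 : D = 2 ∨ D = 14 ∨ D = 20 ∨ D = 32) (d4 : E = 2 ∨ E = 14 ∨ E = 20 ∨ E = 32)
    (s0 : 8 * A + 8 * B + 28 * C + 18 * D + 18 * E + 56 = 27 * (56 + 2 * F)) (l1 : F ≤ f1)
    (s1 : A + B + D + E + 28 = 84 + 3 * f1) (s2 : 8 * A + 2 * B + 16 * C + 56 = 9 * (56 + 2 * f2))
    (s3 : 2 * A + 8 * B + 4 * C + 6 * D + 6 * E + 56 = 9 * (56 + 2 * f3)) (l4 : F ≤ f4)
    (s4 : B + 3 * C + 28 = 84 + 3 * f4) (s5 : 4 * A + 28 = 84 + 3 * f5) : False := by
  rcases d0 with rfl | rfl | rfl | rfl <;> rcases d1 with rfl | rfl | rfl | rfl <;>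
    rcases d2 with rfl | rfl | rfl | rfl <;> first
      | (clear d3 d4 s0 s1 s3; omega)
      | (rcases d3 with rfl | rfl | rfl | rfl <;> rcases d4 with rfl | rfl | rfl | rfl <;> omega)

theorem jobMG3 (hS : JobSum.{u}) : JobMG3.{u} := by
  rintro G _ ρ hg ⟨a, h⟩
  obtain ⟨s0, s⟩ := hS G ρ a h.el
  have k := sum_cls (ρ := ρ) h (fun v => if v = 0 then 5 else cG v) repG 6 (by decide +kernel)
  have s0 := (k id [8, 8, 28, 18, 18, 1] (by decide +kernel)).symm.trans s0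
  obtain ⟨f1, l1, s1⟩ := s ![![0, 0, 0, 1], ![0, 1, 0, 0], 0, 0]
  obtain ⟨f2, -, s2⟩ := s ![![0, 0, 1, 0], ![0, 1, 0, 0], ![1, 0, 0, 0], 0]
  obtain ⟨f3, -, s3⟩ := s ![![0, 0, 0, 1], ![0, 0, 1, 0], ![0, 1, 0, 0], 0]
  obtain ⟨f4, l4, s4⟩ := s ![![0, 0, 0, 1], ![1, 0, 1, 0], 0, 0]
  obtain ⟨f5, -, s5⟩ := s ![![0, 1, 0, 0], ![1, 0, 0, 0], 0, 0]
  rw [k _ [18, 18, 0, 18, 18, 9] (by decide +kernel)] at s1
  rw [k _ [24, 6, 48, 0, 0, 3] (by decide +kernel)] at s2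
  rw [k _ [6, 24, 12, 18, 18, 3] (by decide +kernel)] at s3
  rw [k _ [0, 18, 54, 0, 0, 9] (by decide +kernel)] at s4
  rw [k _ [72, 0, 0, 0, 0, 9] (by decide +kernel)] at s5
  have d0 := hg.three _ (h.ord ![1, 0, 0, 0] (by decide))
  have d1 := hg.three _ (h.ord ![0, 0, 1, 0] (by decide))
  have d2 := hg.three _ (h.ord ![1, 0, 1, 0] (by decide))
  have d3 := hg.three _ (h.ord ![0, 1, 0, 1] (by decide))
  have d4 := hg.three _ (h.ord ![0, 1, 0, 2] (by decide))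
  simp only [sum_range_succ, sum_range_zero, repG, List.getD_cons_succ, List.getD_cons_zero,
    ev_zero, fd_one] at s0 s1 s2 s3 s4 s5
  refine num3 d0 d1 d2 d3 d4 ?_ l1 ?_ (f2 := f2) ?_ (f3 := f3) ?_ l4 ?_ (f5 := f5) ?_ <;>
    clear d0 d1 d2 d3 d4 <;> omega

end H17.E7T
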