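/- Tower E82 (S5915): the refined pressure bound. -/
import Cfsg.Agent.H40.E82Spec

set_option autoImplicit false
set_option linter.unusedSectionVars false

namespace H17.E82R

open H40.E82 H40.E8F H56.SL2M Module Finset
open scoped MatrixGroups Classical

universe u

section gen
variable {k V : Type} [Field k] [AddCommGroup V] [Module k V] {h a w : End k V} {b c : k} {y : V}
  {n : ℕ}

theorem wtA (ha : h * a = b • (a * h)) (hy : h y = c • y) : h (a y) = (b * c) • a y := by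
  have := LinearMap.congr_fun ha y
  simp only [End.mul_apply, LinearMap.smul_apply] at this
  rw [this, hy, map_smul, smul_smul]

theorem wtw (hw : h * w * h = w) (hc : c ≠ 0) (hy : h y = c • y) : h (w y) = c⁻¹ • w y := by
  have := LinearMap.congr_fun hw y
  simp only [End.mul_apply] at this
  rw [hy, map_smul, map_smul] at this
  rw [eq_inv_smul_iff₀ hc, this]

theorem geo (hg : h ^ n = 1) : h * ∑ l ∈ range n, h ^ l = ∑ l ∈ range n, h ^ l := by
  have := mul_geom_sum h n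
  rwa [hg, sub_self, sub_mul, one_mul, sub_eq_zero] at this

theorem geo' (hg : h ^ n = 1) : (∑ l ∈ range n, h ^ l) * h = ∑ l ∈ range n, h ^ l := by
  have := geom_sum_mul h n
  rwa [hg, sub_self, mul_sub, mul_one, sub_eq_zero] at this

theorem geo_pow (hg : h ^ n = 1) (m : ℕ) :
    (∑ l ∈ range n, h ^ l) * h ^ m = ∑ l ∈ range n, h ^ l := by
  induction m with
  | zero => simp
  | succ m ih => rw [pow_succ', ← mul_assoc, geo' hg, ih]

theorem pow_fix (hy : h y = y) (m : ℕ) : (h ^ m) y = y := by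
  induction m with
  | zero => simp
  | succ m ih => rw [pow_succ, End.mul_apply, hy, ih]

theorem e0_wt [CharP k 2] (hn : Odd n) (hc : c ^ n = 1) (hy : h y = c • y) :
    (∑ l ∈ range n, h ^ l) y = if c = 1 then y else 0 := by
  have k1 : ∀ l, (h ^ l) y = c ^ l • y := fun l => by
    induction l with
    | zero => simp
    | succ l ih => rw [pow_succ', End.mul_apply, ih, map_smul, hy, smul_smul, pow_succ]
  rw [LinearMap.sum_apply, sum_congr rfl fun l _ => k1 l, ← sum_smul]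
  split_ifs with e
  · obtain ⟨m, rfl⟩ := hn
    simp [e, CharTwo.two_eq_zero]
  · have := mul_geom_sum c n
    rw [hc, sub_self, mul_eq_zero, sub_eq_zero] at this
    rw [this.resolve_left e, zero_smul]

theorem pow_mul_eq (ha : h * a = b • (a * h)) (l : ℕ) : h ^ l * a = a * (b • h) ^ l := by
  induction l with
  | zero => simp
  | succ l ih => rw [pow_succ, mul_assoc, ha, ← mul_smul_comm, ← mul_assoc, ih, mul_assoc, pow_succ]

theorem dim_le [FiniteDimensional k V] {ι : Type} [Fintype ι] (T : ι → Submodule k V)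
    (P W : Submodule k V) (d e : ι → End k V) (h1 : ∀ i, ∀ v ∈ P, d i v ∈ T i)
    (h2 : ∀ v ∈ P, (∀ i, d i v = 0) → v = 0) (h3 : ∀ v ∈ P, ∑ i, e i (d i v) = 0)
    (h4 : ∀ φ : Dual k V, (∀ i, ∀ v ∈ T i, φ (e i v) = 0) → ∀ v ∈ W, φ v = 0) :
    finrank k P + finrank k W ≤ ∑ i, finrank k (T i) := by
  let Ep : ((i : ι) → T i) →ₗ[k] V := ∑ i, e i ∘ₗ (T i).subtype ∘ₗ LinearMap.proj i
  have k0 : ∀ z, Ep z = ∑ i, e i (z i) := fun z => by simp [Ep]
  let D : P →ₗ[k] (i : ι) → T i :=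
    LinearMap.pi fun i => (d i ∘ₗ P.subtype).codRestrict (T i) fun v => h1 i v v.2
  have k1 : finrank k P ≤ finrank k (LinearMap.ker Ep) :=
    LinearMap.finrank_le_finrank_of_injective (f := D.codRestrict _ fun v => by
      rw [LinearMap.mem_ker, k0]; exact h3 v v.2) ((injective_iff_map_eq_zero _).2 fun v hv =>
        Subtype.ext (h2 v v.2 fun i => congrArg (fun z : LinearMap.ker Ep => (z.1 i).1) hv))
  have k2 : W ≤ LinearMap.range Ep := fun v hv => by
    by_contra hc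
    obtain ⟨φ, p1, p2⟩ := (LinearMap.range Ep).exists_dual_map_eq_bot_of_notMem hc inferInstance
    refine p1 (h4 φ (fun i z hz => ?_) v hv)
    have : φ (Ep (Pi.single i ⟨z, hz⟩)) ∈ (⊥ : Submodule k k) :=
      p2 ▸ Submodule.mem_map_of_mem (LinearMap.mem_range_self _ _)
    rwa [Submodule.mem_bot, k0, sum_eq_single i (fun j _ hj => by simp [Pi.single_eq_of_ne hj])
      (by simp), Pi.single_eq_same] at this
  have k3 := LinearMap.finrank_range_add_finrank_ker Ep
  have k4 := Submodule.finrank_mono k2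
  rw [Module.finrank_pi_fintype] at k3
  omega

end gen

/-- The position of the leading binary digit. -/
def lg (r : ℕ) : ℕ :=
  if r < 2 then 0 else if r < 4 then 1 else if r < 8 then 2 else if r < 16 then 3 else
    if r < 32 then 4 else 5

theorem lg_spec : ∀ r < 64, r ≠ 0 → 2 ^ lg r ≤ r ∧ 2 ^ lg r &&& (r - 2 ^ lg r) = 0 ∧
    (r - 2 ^ lg r) &&& 2 ^ lg r = 0 ∧ (r < 16 → lg r < 4) ∧ lg r < 6 := by decide

theorem lg_pow : ∀ i < 6, lg (2 ^ i) = i := by decide

theorem top4 : ∀ i < 4, ∀ r < 64, r &&& 2 ^ ((i + 1) % 4) = r →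
    (2 * r + (2 ^ 4 - 1 - 1) * 2 ^ ((i + 1) % 4)) % (2 ^ 4 - 1) = 2 ^ (i + 1) % (2 ^ 4 - 1) →
    r = 2 ^ ((i + 1) % 4) := by decide

theorem top6 : ∀ i < 6, ∀ r < 64, r &&& 2 ^ ((i + 1) % 6) = r →
    (2 * r + (2 ^ 6 - 1 - 1) * 2 ^ ((i + 1) % 6)) % (2 ^ 6 - 1) = 2 ^ (i + 1) % (2 ^ 6 - 1) →
    r = 2 ^ ((i + 1) % 6) := by decide

section rep
variable {F : Type u} [Field F] [Fintype F] {k V : Type} [Field k] [CharP k 2] [AddCommGroup V]
  [Module k V] {ι : F →+* k} {ρ : Representation k SL(2, F) V}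

theorem fac_inv {M : Submodule k V} {J : Multiset ℕ} (h : Fac ι ρ M J) : Inv ρ M := by
  cases h with
  | bot => exact fun g v hv => by rw [(Submodule.mem_bot k).1 hv, map_zero]; exact zero_mem _
  | step _ h => exact h.2.2.2.1

theorem pow_iff {s : Fˣ} {a b : ℕ} : ι s ^ a = ι s ^ b ↔ a ≡ b [MOD orderOf s] := by
  rw [← map_pow, ← map_pow, ι.injective.eq_iff, ← Units.val_pow_eq_pow_val,
    ← Units.val_pow_eq_pow_val, Units.val_inj, pow_eq_pow_iff_modEq]

theorem hh_pow (s : Fˣ) (n : ℕ) : hh (s ^ n) = hh s ^ n := by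
  induction n with
  | zero => simp [hh_one]
  | succ n ih => rw [pow_succ, hh_mul, ih, pow_succ]

theorem hwh (s : Fˣ) : hh s * ww * hh s = ww := by
  ext i j; fin_cases i <;> fin_cases j <;> simp [hh_coe, ww_coe]

theorem braid [CharP F 2] : (xx 1 * ww * xx 1 : SL(2, F)) = ww * xx 1 * ww := by
  ext i j; fin_cases i <;> fin_cases j <;> simp [xx_coe, ww_coe, CharTwo.neg_eq, CharTwo.add_self_eq_zero]

/-- A weight vector that is a highest weight vector of the factor is killed by the `A r`. -/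
theorem step_top (ja : JobA.{u}) (hq : Fintype.card F ≤ 64) {W W' : Submodule k V} {j n m : ℕ}
    (st : Step ι ρ W W' j) {s : Fˣ} (hn : orderOf s = n) (h0 : n ≠ 0)
    (hj : ∀ r ∈ sb j, (2 * r + (n - 1) * j) % n = m % n → r = j) {v : V} (hv : v ∈ W')
    (hw : ρ (hh s) v = ι s ^ m • v) {t : ℕ} (ht : t ≠ 0) : A ι ρ t v ∈ W := by
  obtain ⟨-, a2, a3, -, -, -, -, a8⟩ := ja ι ρ hq
  obtain ⟨-, -, iW, -, z, -, s1, s2, s3, s4, -⟩ := st
  obtain ⟨c, hc⟩ := s1 v hv
  have k1 : ∀ r ∈ sb j, c r * (ι s ^ (2 * r) - ι s ^ (m + j)) = 0 := by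
    refine s2 (fun r => c r * (ι s ^ (2 * r) - ι s ^ (m + j))) ?_
    have e1 := sub_mem (W.smul_mem (ι s ^ (m + j)) hc) (W.smul_mem (ι s ^ j) (iW (hh s) _ hc))
    have e2 : ∑ r ∈ sb j, (c r * ι s ^ (2 * r)) • A ι ρ r (ι s ^ j • ρ (hh s) z - z) ∈ W :=
      sum_mem fun r _ => W.smul_mem _ (a8 W iW r _ (s4 s))
    convert sub_mem e1 e2 using 1
    have e3 : ∀ r, ρ (hh s) (A ι ρ r z) = ι s ^ (2 * r) • A ι ρ r (ρ (hh s) z) := fun r =>
      LinearMap.congr_fun (a3 s r) z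
    simp only [map_sub, map_sum, map_smul, hw, e3, smul_sub, smul_sum, smul_smul, ← pow_add,
      add_comm j m, mul_sub, sub_smul, sum_sub_distrib]
    simp only [mul_comm, mul_left_comm]
    abel
  have k2 : A ι ρ t (∑ r ∈ sb j, c r • A ι ρ r z) ∈ W := by
    rw [map_sum]
    refine sum_mem fun r hr => ?_
    rcases mul_eq_zero.1 (k1 r hr) with e | e
    · simp [e]
    · rw [sub_eq_zero, pow_iff, hn] at e
      obtain rfl := hj r hr (by
        obtain ⟨n, rfl⟩ := Nat.exists_eq_succ_of_ne_zero h0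
        have := e.add_right (n * j)
        rw [show m + j + n * j = m + (n + 1) * j by ring] at this
        exact this.trans (Nat.add_mul_mod_self_left _ _ _))
      rw [map_smul, ← End.mul_apply, a2]
      refine W.smul_mem _ ?_
      split_ifs
      · refine s3 _ fun e => ?_
        have := (mem_filter.1 e).2
        have := Nat.and_le_right (n := t + r) (m := r)
        omega
      · simp
  simpa using add_mem (a8 W iW t _ hc) k2

variable (ι ρ) in
/-- The operator `1 + N i`. -/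
noncomputable def Gi (i : ℕ) : End k V := ∑ r ∈ (Ico 1 (Fintype.card F)).filter (lg · = i),
  ρ ww * A ι ρ (r - 2 ^ i) * ρ ww * A ι ρ (r - 2 ^ i)

theorem Gi_inj (ja : JobA.{u}) (hq : Fintype.card F ≤ 64) {i n m : ℕ} (hi : i < 6)
    (hi' : 2 ^ i < Fintype.card F) {s : Fˣ} (hn : orderOf s = n) (h0 : n ≠ 0) {M : Submodule k V}
    {J : Multiset ℕ} (h : Fac ι ρ M J)
    (hj : ∀ j ∈ J, ∀ r ∈ sb j, (2 * r + (n - 1) * j) % n = m % n → r = j) {v : V} (hv : v ∈ M)
    (hw : ρ (hh s) v = ι s ^ m • v) (e : Gi ι ρ i v = 0) : v = 0 := by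
  obtain ⟨-, -, -, -, -, -, a7, a8⟩ := ja ι ρ hq
  induction h with
  | bot => exact hv
  | @step W W' J j _ st ih =>
    refine ih (fun j h => hj j (Multiset.mem_cons_of_mem h)) ?_
    have iW := st.2.2.1
    have m1 : 2 ^ i ∈ (Ico 1 (Fintype.card F)).filter (lg · = i) :=
      mem_filter.2 ⟨mem_Ico.2 ⟨Nat.one_le_two_pow, hi'⟩, lg_pow i hi⟩
    rw [Gi, ← add_sum_erase _ _ m1, LinearMap.add_apply, Nat.sub_self, A, if_pos rfl, mul_one,
      mul_one, ← map_mul, a7, map_one, End.one_apply, add_eq_zero_iff_eq_neg] at e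
    rw [e, LinearMap.sum_apply]
    refine neg_mem (sum_mem fun r hr => iW _ _ (a8 W iW _ _ (iW _ _ (step_top ja hq st hn h0
      (hj j (Multiset.mem_cons_self _ _)) hv hw ?_))))
    obtain ⟨r1, r2⟩ := mem_erase.1 hr
    obtain ⟨r3, r4⟩ := mem_filter.1 r2
    have := mem_Ico.1 r3
    have := (lg_spec r (by omega) (by omega)).1
    rw [r4] at this
    omega

end rep

theorem jobR (ja : JobA.{u}) (jb : JobB0.{u}) : JobR.{u} := by
  intro F _ _ k V _ _ _ _ _ ι ρ f hf hF s hs M J hM hJ1 hJ h1 h2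
  have hq : Fintype.card F ≤ 64 := by rcases hf with rfl | rfl <;> omega
  obtain ⟨a1, a2, a3, a4, -, -, a7, a8⟩ := ja ι ρ hq
  obtain ⟨b1, b2, -, b4⟩ := jb ι ρ hq
  have := ι.charP ι.injective 2
  have iM := fac_inv hM
  obtain ⟨n, hn⟩ : ∃ n, n = 2 ^ f - 1 := ⟨_, rfl⟩
  have n1 : Fintype.card F = n + 1 := by rcases hf with rfl | rfl <;> omega
  have n0 : n ≠ 0 := by rcases hf with rfl | rfl <;> omega
  have nodd : Odd n := by rcases hf with rfl | rfl <;> (subst hn; decide)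
  rw [← hn] at hs
  have hE := b4 M J hM (by rwa [hF])
  have σ0 : ι s ≠ 0 := (map_ne_zero ι).2 s.ne_zero
  have σn : ∀ m, (ι s ^ m) ^ n = 1 := fun m => by
    rw [← pow_mul, ← pow_zero (ι s), pow_iff, hs]
    exact (Nat.modEq_zero_iff_dvd).2 (dvd_mul_left n m)
  have hn1 : ρ (hh s) ^ n = 1 := by rw [← map_pow, ← hh_pow, ← hs, pow_orderOf_eq_one, hh_one, map_one]
  have hw : ρ (hh s) * ρ ww * ρ (hh s) = ρ ww := by rw [← map_mul, ← map_mul, hwh]
  have ww2 : ∀ v, ρ ww (ρ ww v) = v := fun v => by rw [← End.mul_apply, ← map_mul, a7, map_one]; rfl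
  have gen : ∀ t : Fˣ, ∃ l : ℕ, ρ (hh t) = ρ (hh s) ^ l := fun t => by
    have : Subgroup.zpowers s = ⊤ := Subgroup.eq_top_of_card_eq _ (by
      rw [Nat.card_zpowers, hs, Nat.card_units, Nat.card_eq_fintype_card, n1]; rfl)
    obtain ⟨l, rfl⟩ := (mem_powers_iff_mem_zpowers).2 (this ▸ Subgroup.mem_top t : t ∈ Subgroup.zpowers s)
    exact ⟨l, by rw [← map_pow, ← hh_pow]⟩
  have A0 : A ι ρ 0 = 1 := if_pos rfl
  have sp : ∀ r, 1 ≤ r → r < n + 1 → lg r < f ∧ A ι ρ r = A ι ρ (2 ^ lg r) * A ι ρ (r - 2 ^ lg r) ∧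
      A ι ρ r = A ι ρ (r - 2 ^ lg r) * A ι ρ (2 ^ lg r) := fun r r1 r2 => by
    obtain ⟨p1, p2, p3, p4, p5⟩ := lg_spec r (by omega) (by omega)
    rw [a2, a2, if_pos p2, if_pos p3, Nat.add_sub_cancel' p1, Nat.sub_add_cancel p1]
    refine ⟨?_, rfl, rfl⟩
    rcases hf with rfl | rfl
    exacts [p4 (by omega), p5]
  have xs : ∀ t, ρ (xx t) = 1 + ∑ r ∈ Ico 1 (n + 1), ι t ^ r • A ι ρ r := fun t => by
    rw [a1, n1, range_eq_Ico, sum_eq_sum_Ico_succ_bot n.succ_pos, A0, pow_zero, one_smul]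
  have mB : ∀ v ∈ M, (∀ t, ρ (xx t) v = v) → ρ (hh s) v = v → v = 0 := fun v hv p1 p2 =>
    h1 v hv (b1 v p1 (fun t => by
      obtain ⟨l, e⟩ := gen t
      rw [e]
      exact pow_fix p2 l) (hE.imp fun _ h => h v hv))
  have hN : ∀ v ∈ M, ρ (hh s) v = v → A ι ρ n v = 0 := fun v hv p => by
    refine mB _ (a8 M iM _ _ hv) (fun t => ?_) ?_
    · rw [show n = Fintype.card F - 1 by omega, a4, ← End.mul_apply, mul_sum]
      simp only [← map_mul, ← xx_add]
      rw [← Equiv.sum_comp (Equiv.addLeft t) fun a => ρ (xx a)]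
      rfl
    · rw [wtA (a3 s n) (p.trans (one_smul k v).symm), mul_one, pow_mul, σn, one_smul]
  rw [← Fin.sum_univ_eq_sum_range (fun i => finrank k
    ↥(M ⊓ End.eigenspace (ρ (hh s)) (ι s ^ 2 ^ (i + 1))))]
  refine dim_le (fun i : Fin f => M ⊓ End.eigenspace (ρ (hh s)) (ι s ^ 2 ^ (i.1 + 1))) _ _
    (fun i => Gi ι ρ i * A ι ρ (2 ^ i.1)) (fun i => A ι ρ (2 ^ i.1) * ρ ww)
    (fun i v hv => ?_) (fun v hv e => ?_) (fun v hv => ?_) fun φ hφ v hv => ?_
  · have p := wtA (a3 s (2 ^ i.1)) (End.mem_eigenspace_iff.1 hv.2.1)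
    rw [mul_one, ← pow_succ'] at p
    rw [End.mul_apply, Gi, LinearMap.sum_apply]
    refine sum_mem fun r _ => ⟨iM _ _ (a8 M iM _ _ (iM _ _ (a8 M iM _ _ (a8 M iM _ _ hv.1)))),
      End.mem_eigenspace_iff.2 ?_⟩
    have q := wtw hw (mul_ne_zero (pow_ne_zero _ σ0)
      (inv_ne_zero (mul_ne_zero (pow_ne_zero _ σ0) (pow_ne_zero _ σ0)))) (wtA (a3 s (r - 2 ^ i.1)) (wtw hw
      (mul_ne_zero (pow_ne_zero _ σ0) (pow_ne_zero _ σ0)) (wtA (a3 s (r - 2 ^ i.1)) p)))
    rwa [mul_inv (ι s ^ (2 * (r - 2 ^ i.1))) (ι s ^ 2 ^ (i.1 + 1)),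
      mul_inv_cancel_left₀ (pow_ne_zero _ σ0), inv_inv] at q
  · have p0 := End.mem_eigenspace_iff.1 hv.2.1
    have k1 : ∀ i < f, A ι ρ (2 ^ i) v = 0 := fun i hi => by
      have p := wtA (a3 s (2 ^ i)) p0
      rw [mul_one, ← pow_succ'] at p
      refine Gi_inj ja hq (i := i) (by omega) (hF ▸ Nat.pow_lt_pow_right one_lt_two hi) hs n0 hM
        (fun j hj r hr e => ?_) (a8 M iM _ _ hv.1) p (e ⟨i, hi⟩)
      rcases hJ j hj i hi with c | rfl
      · rw [← hn, cw, card_eq_zero, filter_eq_empty_iff] at c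
        exact absurd e (c hr)
      · obtain ⟨r1, r2⟩ := mem_filter.1 hr
        subst hn
        rcases hf with rfl | rfl
        exacts [top4 i hi r (mem_range.1 r1) r2 e, top6 i hi r (mem_range.1 r1) r2 e]
    refine mB v hv.1 (fun t => ?_) (p0.trans (one_smul k v))
    rw [xs, LinearMap.add_apply, LinearMap.sum_apply, sum_eq_zero fun r hr => ?_, add_zero]
    · rfl
    obtain ⟨p1, -, p2⟩ := sp r (mem_Ico.1 hr).1 (mem_Ico.1 hr).2
    rw [LinearMap.smul_apply, p2, End.mul_apply, k1 _ p1, map_zero, smul_zero]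
  · have p0 := End.mem_eigenspace_iff.1 hv.2.1
    have pw : ρ ww v = v := (End.mem_eigenspace_iff.1 hv.2.2).trans (one_smul k v)
    have k1 : ρ (xx 1) (ρ ww (ρ (xx 1) v)) = ρ ww (ρ (xx 1) v) := by
      have := congrArg (fun g => ρ g v) (braid (F := F))
      simpa only [map_mul, End.mul_apply, pw] using this
    have k2 : ∑ r ∈ Ico 1 (n + 1), ∑ t ∈ range (n + 1), A ι ρ r (ρ ww (A ι ρ t v)) = 0 := by
      nth_rewrite 1 [xs] at k1
      rw [LinearMap.add_apply, End.one_apply, add_eq_left, a1, n1] at k1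
      rw [sum_comm]
      simpa only [map_one, one_pow, one_smul, LinearMap.sum_apply, map_sum] using k1
    have k3 : ∑ r ∈ Ico 1 (n + 1), A ι ρ r (ρ ww (A ι ρ r v)) = 0 := by
      have := congrArg (fun y => (∑ l ∈ range n, ρ (hh s) ^ l : End k V) y) k2
      beta_reduce at this
      rw [map_zero, map_sum] at this
      rw [← this]
      refine sum_congr rfl fun r hr => ?_
      obtain ⟨r1, r2⟩ := mem_Ico.1 hr
      have q : ∀ t, (∑ l ∈ range n, ρ (hh s) ^ l) (A ι ρ r (ρ ww (A ι ρ t v))) =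
          if r ≡ t [MOD n] then A ι ρ r (ρ ww (A ι ρ t v)) else 0 := fun t => by
        rw [e0_wt nodd (by rw [mul_one, mul_pow, inv_pow, σn, σn, inv_one, mul_one])
          (wtA (a3 s r) (wtw hw (by rw [mul_one]; exact pow_ne_zero _ σ0) (wtA (a3 s t) p0)))]
        refine if_congr ?_ rfl rfl
        rw [mul_one, mul_inv_eq_one₀ (pow_ne_zero _ σ0), pow_iff, hs]
        exact ⟨Nat.ModEq.cancel_left_of_coprime nodd.coprime_two_right, Nat.ModEq.mul_left 2⟩
      rw [map_sum, sum_eq_single r (fun t ht ne => ?_) (fun c => absurd (mem_range.2 r2) c), q,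
        if_pos (Nat.ModEq.refl r)]
      rw [q]
      split_ifs with c
      · have t1 := mem_range.1 ht
        have : r = n ∧ t = 0 := by
          by_cases c1 : r = n
          · refine ⟨c1, ?_⟩
            rw [c1, Nat.ModEq, Nat.mod_self, Nat.mod_eq_of_lt (by omega)] at c
            exact c.symm
          · by_cases c2 : t = n
            · rw [c2, Nat.ModEq, Nat.mod_self, Nat.mod_eq_of_lt (by omega)] at c
              omega
            · exact absurd (c.eq_of_lt_of_lt (by omega) (by omega)).symm ne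
        rw [this.1, this.2, A0, End.one_apply, pw, hN v hv.1 (p0.trans (one_smul k v))]
      · rfl
    rw [← k3, ← sum_fiberwise_of_maps_to (g := lg) (t := range f)
      fun r hr => mem_range.2 (sp r (mem_Ico.1 hr).1 (mem_Ico.1 hr).2).1,
      ← Fin.sum_univ_eq_sum_range (fun i => ∑ r ∈ (Ico 1 (n + 1)).filter (lg · = i),
        A ι ρ r (ρ ww (A ι ρ r v)))]
    refine sum_congr rfl fun i _ => ?_
    rw [End.mul_apply, End.mul_apply, Gi, n1, LinearMap.sum_apply, map_sum, map_sum]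
    refine sum_congr rfl fun r hr => ?_
    obtain ⟨r1, r2⟩ := mem_filter.1 hr
    obtain ⟨-, p1, p2⟩ := sp r (mem_Ico.1 r1).1 (mem_Ico.1 r1).2
    rw [r2] at p1 p2
    nth_rewrite 1 [p1]
    rw [p2]
    simp only [End.mul_apply, ww2]
  · have k1 : ∀ i < f, ∀ u ∈ M, φ ((∑ l ∈ range n, ρ (hh s) ^ l) (A ι ρ (2 ^ i) u)) = 0 :=
      fun i hi u hu => by
        have e : (∑ l ∈ range n, ρ (hh s) ^ l) * A ι ρ (2 ^ i) =
            A ι ρ (2 ^ i) * ∑ l ∈ range n, (ι s ^ (2 * 2 ^ i) • ρ (hh s)) ^ l := by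
          rw [sum_mul, mul_sum]
          exact sum_congr rfl fun l _ => pow_mul_eq (a3 s _) l
        have g := LinearMap.congr_fun (geo (h := ι s ^ (2 * 2 ^ i) • ρ (hh s)) (n := n)
          (by rw [smul_pow, σn, hn1, one_smul])) u
        rw [End.mul_apply, LinearMap.smul_apply, ← eq_inv_smul_iff₀ (pow_ne_zero _ σ0)] at g
        have g2 := wtw hw (inv_ne_zero (pow_ne_zero _ σ0)) g
        rw [inv_inv, ← pow_succ'] at g2
        have := hφ ⟨i, hi⟩ _ ⟨iM _ _ (by
          rw [LinearMap.sum_apply]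
          refine sum_mem fun l _ => ?_
          rw [smul_pow, ← map_pow ρ]
          exact M.smul_mem _ (iM _ _ hu)), End.mem_eigenspace_iff.2 g2⟩
        rw [← pow_succ'] at e
        rwa [End.mul_apply, ww2, ← End.mul_apply, ← e] at this
    have k2 := h2 (φ ∘ₗ ∑ l ∈ range n, ρ (hh s) ^ l) (b2 M iM hE _ (fun t u hu => ?_)
      fun t u _ => ?_) v hv.1
    · rwa [LinearMap.comp_apply, e0_wt nodd (one_pow n) (End.mem_eigenspace_iff.1 hv.2),
        if_pos rfl] at k2
    · rw [xs, LinearMap.add_apply, End.one_apply, map_add, add_eq_left, LinearMap.sum_apply, map_sum]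
      refine sum_eq_zero fun r hr => ?_
      obtain ⟨p1, p2, -⟩ := sp r (mem_Ico.1 hr).1 (mem_Ico.1 hr).2
      rw [LinearMap.smul_apply, map_smul, p2, End.mul_apply, LinearMap.comp_apply,
        k1 _ p1 _ (a8 M iM _ _ hu), smul_zero]
    · obtain ⟨l, e⟩ := gen t
      rw [e, LinearMap.comp_apply, LinearMap.comp_apply, ← End.mul_apply, geo_pow hn1]

end H17.E82R
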