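import Cfsg.Agent.H57.F2Spec

/-! S3817, tower F2: the induction (`JobRB`). -/

set_option autoImplicit false

namespace H17.F2RB

open Subgroup Cfsg H98 H57.F2

universe u

variable {G H : Type u} [Group G] [Group H] {p : ℕ} {x : G} {X : Subgroup G}

theorem good_map [Finite G] (f : G →* H) (h : Good p X x) : Good p (X.map f) (f x) := by
  intro q hq y hy ⟨k, hk⟩
  have := hq.fact
  rw [← MonoidHom.map_zpowers, ← map_ncl] at hy
  have h1 := mem_pcl hq.1 hy hk
  rw [← map_pcl] at h1
  exact map_pCoreOf_le f X (map_mono (pcl_le_of_forall fun z hz j hj => h q hq z hz ⟨j, hj⟩) h1)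

theorem good_of_map {f : G →* H} (hf : Function.Injective f) (h : Good p (X.map f) (f x)) :
    Good p X x := by
  intro q hq y hy ⟨k, hk⟩
  have := hq.fact
  have h1 := h q hq (f y) (by rw [← MonoidHom.map_zpowers, ← map_ncl]; exact mem_map_of_mem f hy)
    ⟨k, by rw [← map_pow, hk, map_one]⟩
  rwa [← map_pCoreOf_of_injective hf, mem_map_iff_mem hf] at h1

theorem map_two (f : G →* H) (x y : G) :
    (closure ({x, y} : Set G)).map f = closure ({f x, f y} : Set H) := by
  rw [MonoidHom.map_closure, Set.image_pair]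

theorem jobRB : JobRB.{u} := by
  intro ra core G _ _ p x hp hx h
  induction hn : Nat.card G using Nat.strong_induction_on generalizing G with
  | _ n ih =>
  subst hn
  have sub : ∀ x : G, (∃ k : ℕ, x ^ p ^ k = 1) → (∀ y, Good p (closure ({x, y} : Set G)) x) →
      ∀ X : Subgroup G, X ≠ ⊤ → x ∈ X → Good p X x := fun x ⟨k, hk⟩ h X hX hm => by
    obtain ⟨g, hg⟩ : ∃ g, g ∉ X := by
      by_contra! e
      exact hX (eq_top_iff.2 fun g _ => e g)
    have := good_map X.subtype (ih _ (Finite.card_subtype_lt hg) X ⟨x, hm⟩ ⟨k, Subtype.ext hk⟩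
      (fun y => good_of_map X.subtype_injective (by rw [map_two]; exact h y)) rfl)
    rwa [← MonoidHom.range_eq_map, range_subtype] at this
  by_cases h2 : ∃ y, closure ({x, y} : Set G) = ⊤
  · obtain ⟨y, e⟩ := h2
    exact e ▸ h y
  push Not at h2
  by_cases h3 : ∃ r : ℕ, r.Prime ∧ pCore r G ≠ ⊥
  · refine ra G p x hp hx h3 (fun N _ hN => ih _ ?_ (G ⧸ N) _ ?_ (fun y => ?_) rfl) (sub x hx h) h2
    · rw [card_eq_card_quotient_mul_card_subgroup N]
      exact lt_mul_of_one_lt_right Nat.card_pos ((one_lt_card_iff_ne_bot N).2 hN)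
    · obtain ⟨k, hk⟩ := hx
      exact ⟨k, by rw [← QuotientGroup.mk_pow, hk, QuotientGroup.mk_one]⟩
    · obtain ⟨y, rfl⟩ := QuotientGroup.mk_surjective y
      have := good_map (QuotientGroup.mk' N) (h y)
      rwa [map_two] at this
  push Not at h3
  rcases eq_or_ne x 1 with rfl | h1
  · intro q _ y hy _
    rw [zpowers_one_eq_bot, ncl_eq_bot_iff.2 rfl, mem_bot] at hy
    exact hy ▸ one_mem _
  obtain ⟨k, hk⟩ := hx
  obtain ⟨j, -, hj⟩ := (Nat.dvd_prime_pow hp).1 (orderOf_dvd_of_pow_eq_one hk)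
  have hd : p ∣ orderOf x := hj ▸ dvd_pow_self p fun e => h1 (orderOf_eq_one_iff.1 (by rw [hj, e, pow_zero]))
  have o := orderOf_pow_orderOf_div (orderOf_pos x).ne' hd
  generalize orderOf x / p = m at o
  have le : ∀ y, closure ({x ^ m, y} : Set G) ≤ closure ({x, y} : Set G) := fun y => (closure_le _).2 (by
    rintro z (rfl | rfl)
    exacts [pow_mem (subset_closure (by simp)) m, subset_closure (by simp)])
  refine (core G p (x ^ m) ⟨hp, o, h3, sub _ ⟨1, by rw [pow_one, ← o, pow_orderOf_eq_one]⟩ fun y =>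
    Good.mono (fun q hq z hz => h y q hq z (ncl_mono le_rfl (zpowers_le.2 (pow_mem (mem_zpowers x) m)) hz))
      (le y) (subset_closure (by simp)), fun y e => h2 y (top_le_iff.1 (e.ge.trans (le y)))⟩).elim

end H17.F2RB
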