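/- Tower IV: the centralizer of `a` acts on the non-trivial elements of odd order inverted by `a`. -/
import Cfsg.Agent.H42.IVSpec

set_option autoImplicit false

namespace H17.IVEmb

open Subgroup H42.IV

universe u

theorem conj_mem {H : Type*} [Group H] {a x g : H} (hx : x * a = a * x) (hg : g ∈ J a \ {1}) :
    x * g * x⁻¹ ∈ J a \ {1} := by
  obtain ⟨⟨h1, h2⟩, h3⟩ := hg
  refine ⟨⟨?_, ?_⟩, fun h => h3 ?_⟩
  · have := (MulAut.conj x).orderOf_eq g
    rw [MulAut.conj_apply] at this
    rwa [this]
  · calc a * (x * g * x⁻¹) * a⁻¹ = (a * x) * g * (a * x)⁻¹ := by group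
      _ = x * (a * g * a⁻¹) * x⁻¹ := by rw [← hx]; group
      _ = _ := by rw [h2]; group
  · have h' : x * g * x⁻¹ = 1 := h
    calc g = x⁻¹ * (x * g * x⁻¹) * x := by group
      _ = 1 := by rw [h']; group

/-- The conjugation action. -/
@[reducible] def act {H : Type*} [Group H] (a : H) :
    MulAction (centralizer ({a} : Set H)) (J a \ {1} : Set H) where
  smul x g := ⟨x * g * (x : H)⁻¹, conj_mem (mem_centralizer_singleton_iff.1 x.2) g.2⟩
  one_smul g := Subtype.ext (by
    change ((1 : centralizer ({a} : Set H)) : H) * g * ((1 : centralizer ({a} : Set H)) : H)⁻¹ = g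
    simp)
  mul_smul x y g := Subtype.ext (by
    change ((x * y : centralizer ({a} : Set H)) : H) * g * ((x * y : centralizer ({a} : Set H)) : H)⁻¹ =
      x * (y * g * (y : H)⁻¹) * (x : H)⁻¹
    rw [coe_mul]
    group)

theorem jobEmb : JobEmb.{u} := by
  intro H _ _ a h hs hc
  classical
  have h1 : (1 : H) ∈ J a := ⟨by simp, by simp⟩
  have h2 : Nat.card (J a \ {1} : Set H) ≤ 2 * h := by
    rw [Nat.card_coe_set_eq, Set.ncard_diff_singleton_of_mem h1]
    omega
  have := Fintype.ofFinite (J a \ {1} : Set H)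
  obtain ⟨ι⟩ : Nonempty ((J a \ {1} : Set H) ↪ Fin (2 * h)) :=
    Function.Embedding.nonempty_of_card_le (by rwa [Fintype.card_fin, ← Nat.card_eq_fintype_card])
  letI := act a
  refine ⟨(Equiv.Perm.viaEmbeddingHom ι).comp (MulAction.toPermHom _ _), fun x hx => ?_⟩
  have h3 : MulAction.toPermHom (centralizer ({a} : Set H)) (J a \ {1} : Set H) x = 1 :=
    Equiv.Perm.viaEmbeddingHom_injective ι (by rw [map_one]; exact hx)
  have h4 : closure (insert a (J a)) ≤ centralizer ({(x : H)} : Set H) := by
    rw [closure_le]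
    rintro g (rfl | hg)
    · exact mem_centralizer_singleton_iff.2 (mem_centralizer_singleton_iff.1 x.2).symm
    · refine mem_centralizer_singleton_iff.2 ?_
      by_cases h5 : g = 1
      · rw [h5, one_mul, mul_one]
      · have h6 : (x : H) * g * (x : H)⁻¹ = g :=
          congrArg Subtype.val (Equiv.congr_fun h3 ⟨g, hg, h5⟩)
        exact (mul_inv_eq_iff_eq_mul.1 h6).symm
  rw [hs.gen] at h4
  exact mem_center_iff.2 fun g => mem_centralizer_singleton_iff.1 (h4 (mem_top g))

end H17.IVEmb
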