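import Cfsg.Agent.H51.KLSpec

/-! Tower KL: job MOM (orbits on hyperplanes off a point, second moments). -/

set_option autoImplicit false

namespace H17.KLM

open Module Submodule H53.CK H51.KL MulAction

universe u v

variable {F : Type u} [Field F] [Finite F] {V : Type v} [AddCommGroup V] [Module F V]
  [FiniteDimensional F V]

theorem part1 {x : V} (hx : x ≠ 0) (X : Subgroup (V ≃ₗ[F] V)) (m₁ m₂ d : ℕ) (hs : Sc X)
    (hX : ∀ g ∈ X, g x ∈ F ∙ x) (hd : m₁ + d = m₂ + 1)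
    (h1 : ∃ f : Fin m₁ → V, (∀ i, f i ∉ F ∙ x) ∧
      ∀ i j, ∀ g ∈ X, g (f i) ∈ span F {x, f j} → i = j)
    (h2 : ∃ f : Fin m₂ → V, ∀ y, y ∉ F ∙ x → ∃ i, ∃ g ∈ X, g (f i) = y) :
    ∃ f : Fin d → Dual F V, (∀ i, f i x = 1) ∧ ∀ φ : Dual F V, φ x = 1 →
      ∃ i, ∃ g ∈ X, g x = x ∧ ∀ v, f i (g v) = φ v := by
  classical
  have := finV F V
  have := finV F (Dual F V)
  have := finV F (V ⧸ F ∙ x)
  have := finV F (Dual F (V ⧸ F ∙ x))
  obtain ⟨f₁, a1, a2⟩ := h1
  obtain ⟨f₂, b⟩ := h2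
  have hc : ∀ g ∈ X, ∃ c : F, c ≠ 0 ∧ g x = c • x := fun g hg => by
    obtain ⟨c, hc⟩ := mem_span_singleton.1 (hX g hg)
    exact ⟨c, fun e => hx (g.injective (by rw [← hc, e, zero_smul, map_zero])), hc.symm⟩
  have hq : ∀ g ∈ X, ∃ e ∈ quo X (F ∙ x), ∀ v, e ((F ∙ x).mkQ v) = (F ∙ x).mkQ (g v) :=
    fun g hg => exists_quo hg fun w hw => by
      obtain ⟨c, rfl⟩ := mem_span_singleton.1 hw
      rw [map_smul]
      exact smul_mem _ c (hX g hg)
  have n1 : norb X ≤ m₂ + 2 := by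
    have := Nat.card_le_card_of_surjective (fun o : Option (Option (Fin m₂)) =>
      cls X (o.elim 0 fun o => o.elim x f₂)) fun o => by
        induction o using Quotient.inductionOn' with
        | h v =>
          by_cases h0 : v = 0
          · exact ⟨none, by rw [h0]; rfl⟩
          by_cases h : v ∈ F ∙ x
          · obtain ⟨c, rfl⟩ := mem_span_singleton.1 h
            obtain ⟨g, hg, e⟩ := hs c (left_ne_zero_of_smul h0)
            exact ⟨some none, (cls_eq.2 ⟨g, hg, e x⟩).symm⟩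
          · obtain ⟨i, g, hg, e⟩ := b v h
            exact ⟨some (some i), (cls_eq.2 ⟨g, hg, e⟩).symm⟩
    simpa [norb] using this
  have n2 : m₁ + 1 ≤ norb (quo X (F ∙ x)) := by
    have z : ∀ i, (F ∙ x).mkQ (f₁ i) ≠ 0 := fun i e => a1 i ((Quotient.mk_eq_zero _).1 e)
    have := Nat.card_le_card_of_injective (fun o : Option (Fin m₁) =>
      cls (quo X (F ∙ x)) (o.elim 0 fun i => (F ∙ x).mkQ (f₁ i))) fun o o' e => by
        obtain ⟨ε, ⟨g, hg, he⟩, h⟩ := cls_eq.1 e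
        rcases o with _ | i <;> rcases o' with _ | j
        · rfl
        · exact absurd (ε.map_eq_zero_iff.1 h) (z j)
        · exact absurd (h.symm.trans ε.map_zero) (z i)
        · obtain ⟨c, hc⟩ := mem_span_singleton.1 ((Submodule.Quotient.eq _).1 ((he _).symm.trans h))
          exact congrArg some (a2 j i g hg (mem_span_pair.2 ⟨c, 1, by rw [hc]; module⟩)).symm
    simpa [norb] using this
  let T := {o : orbitRel.Quotient (dua X) (Dual F V) // ∃ φ : Dual F V, φ x = 1 ∧ cls _ φ = o}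
  have n3 : norb (dua (quo X (F ∙ x))) + Nat.card T ≤ norb (dua X) := by
    rw [norb, ← Nat.card_sum]
    have k : ∀ (ψ : Dual F (V ⧸ F ∙ x)) (t : T), cls (dua X) (ψ ∘ₗ (F ∙ x).mkQ) ≠ t.1 := by
      rintro ψ ⟨_, φ, h, rfl⟩ e
      obtain ⟨e, ⟨g, hg, he⟩, h'⟩ := cls_eq.1 e
      obtain ⟨c, c0, hc⟩ := hc g hg
      have := he φ x
      rw [h', hc, map_smul, h, LinearMap.comp_apply, mkQ_apply,
        (Quotient.mk_eq_zero _).2 (mem_span_singleton_self x), map_zero] at this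
      exact c0 (by simpa using this.symm)
    refine Nat.card_le_card_of_injective (Sum.elim (fun o => cls (dua X) (o.out ∘ₗ (F ∙ x).mkQ))
      Subtype.val) ?_
    rintro (o | t) (o' | t') e
    · obtain ⟨e, ⟨g, hg, he⟩, h⟩ := cls_eq.1 e
      obtain ⟨e1, h1, h2⟩ := hq g hg
      obtain ⟨e2, h3, h4⟩ := exists_dua h1
      have : cls _ o.out = cls _ o'.out := cls_eq.2 ⟨e2, h3, LinearMap.ext fun v => by
        obtain ⟨v, rfl⟩ := (F ∙ x).mkQ_surjective v
        rw [h4, h2]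
        exact (he _ v).symm.trans (LinearMap.congr_fun h v)⟩
      simpa [cls] using this
    · exact absurd e (k _ _)
    · exact absurd e.symm (k _ _)
    · exact congrArg _ (Subtype.ext e)
  rw [norb_dua, norb_dua] at n3
  obtain ⟨φ₀, h₀⟩ := H62.exists_dual_of_ne_zero (F := F) hx
  have : Nonempty T := ⟨⟨_, φ₀, h₀, rfl⟩⟩
  obtain ⟨ι⟩ : Nonempty (T ↪ Fin d) := by
    have := Fintype.ofFinite T
    exact Function.Embedding.nonempty_of_card_le (by
      rw [Fintype.card_fin, ← Nat.card_eq_fintype_card]; omega)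
  choose r r1 r2 using fun t : T => t.2
  refine ⟨fun i => r (Function.invFun ι i), fun i => r1 _, fun φ h => ⟨ι ⟨_, φ, h, rfl⟩, ?_⟩⟩
  beta_reduce
  rw [Function.leftInverse_invFun ι.injective]
  obtain ⟨e, ⟨g, hg, he⟩, h'⟩ := cls_eq.1 (r2 ⟨_, φ, h, rfl⟩).symm
  obtain ⟨c, -, hc⟩ := hc g hg
  have := he (r ⟨_, φ, h, rfl⟩) x
  rw [h', hc, map_smul, r1, smul_eq_mul, mul_one, h] at this
  exact ⟨g, hg, by rw [hc, ← this, one_smul], fun v => (he _ v).symm.trans (by rw [h'])⟩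

omit [Finite F] in
theorem card_dual {x : V} {W : Submodule F V} (hx : x ∉ W) :
    {φ : Dual F V | φ x = 1 ∧ ∀ w ∈ W, φ w = 0}.ncard =
      Nat.card F ^ (finrank F V - finrank F W - 1) := by
  rw [← W.finrank_quotient, ← card_dual_one (x := W.mkQ x) fun e => hx ((Quotient.mk_eq_zero _).1 e),
    ← Set.ncard_image_of_injective _ (LinearMap.dualMap_injective_of_surjective W.mkQ_surjective)]
  congr 1
  ext φ
  constructor
  · rintro ⟨h1, h2⟩
    exact ⟨W.liftQ φ h2, h1, rfl⟩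
  · rintro ⟨ψ, h, rfl⟩
    exact ⟨h, fun w hw => by
      rw [LinearMap.dualMap_apply, mkQ_apply, (Quotient.mk_eq_zero _).2 hw, map_zero]⟩

omit [Finite F] [FiniteDimensional F V] in
theorem dvd_ncard (S : Set V) (h0 : 0 ∉ S) (h : ∀ y ∈ S, ∀ c : F, c ≠ 0 → c • y ∈ S) :
    Nat.card F - 1 ∣ S.ncard := by
  let _ : MulAction Fˣ S :=
    { smul := fun c y => ⟨(c : F) • y.1, h _ y.2 c c.ne_zero⟩
      one_smul := fun y => Subtype.ext (one_smul F y.1)
      mul_smul := fun c d y => Subtype.ext (mul_smul (c : F) d y.1) }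
  have e := MulAction.selfEquivOrbitsQuotientProd (G := Fˣ) (X := S) fun y =>
    (Subgroup.eq_bot_iff_forall _).2 fun c hc => Units.ext
      (smul_left_injective F (fun e => h0 (e ▸ y.2))
        ((congrArg Subtype.val hc).trans (one_smul F y.1).symm))
  rw [← Nat.card_coe_set_eq, Nat.card_congr e, Nat.card_prod, Nat.card_units]
  exact Dvd.intro_left _ rfl

omit [Finite F] [FiniteDimensional F V] in
theorem finrank_pair {x y : V} (h : Ind F x y) : finrank F (span F ({x, y} : Set V)) = 2 := by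
  have := finrank_span_eq_card (H62.linearIndependent_pair_of_notMem h.1 h.2)
  rwa [Matrix.range_cons, Matrix.range_cons, Matrix.range_empty, Set.union_empty,
    Set.singleton_union, Fintype.card_fin] at this

omit [Finite F] [FiniteDimensional F V] in
theorem ind_eq {x y : V} (h : y ∉ F ∙ x) {c d s t : F} (hx : x ≠ 0)
    (e : c • y + s • x = d • y + t • x) : c = d ∧ s = t := by
  have : c = d := by
    by_contra hn
    refine h (mem_span_singleton.2 ⟨(c - d)⁻¹ * (t - s), ?_⟩)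
    rw [mul_smul, inv_smul_eq_iff₀ (sub_ne_zero.2 hn)]
    linear_combination (norm := module) -e
  subst this
  exact ⟨rfl, smul_left_injective F hx (add_left_cancel e)⟩

theorem part2 {x : V} (hx : x ≠ 0) (B : Set V) (a k m : ℕ) (φ₁ φ₂ : Dual F V)
    (hm : finrank F V = m + 3) (h1 : ∀ y ∈ B, y ∉ F ∙ x)
    (h2 : ∀ y ∈ B, ∀ c : F, c ≠ 0 → c • y ∈ B) (h3 : ∀ y ∈ B, {t : F | y + t • x ∈ B}.ncard = a)
    (h4 : B.ncard = (Nat.card F - 1) * k)
    (h5 : ∀ φ : Dual F V, φ x = 1 → {y ∈ B | φ y = 0}.ncard = {y ∈ B | φ₁ y = 0}.ncard ∨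
      {y ∈ B | φ y = 0}.ncard = {y ∈ B | φ₂ y = 0}.ncard) :
    ∃ n₁ n₂ α₁ α₂ : ℕ, n₁ + n₂ = Nat.card F ^ (m + 2) ∧
      n₁ * α₁ + n₂ * α₂ = k * Nat.card F ^ (m + 1) ∧
      n₁ * α₁ ^ 2 + n₂ * α₂ ^ 2 + k * a * Nat.card F ^ m =
        k * Nat.card F ^ (m + 1) + k ^ 2 * Nat.card F ^ m := by
  classical
  have := finV F V
  have := finV F (Dual F V)
  have := Fintype.ofFinite V
  have := Fintype.ofFinite (Dual F V)
  have y0 : ∀ y ∈ B, y ≠ 0 := fun y hy e => h1 y hy (e ▸ zero_mem _)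
  have dv : ∀ φ : Dual F V, Nat.card F - 1 ∣ {y ∈ B | φ y = 0}.ncard := fun φ =>
    dvd_ncard _ (fun h => y0 0 h.1 rfl) fun y hy c hc => ⟨h2 y hy.1 c hc, by simp [hy.2]⟩
  obtain ⟨α₁, e₁⟩ := dv φ₁
  obtain ⟨α₂, e₂⟩ := dv φ₂
  have r0 : 0 < Nat.card F - 1 := Nat.sub_pos_of_lt Finite.one_lt_card
  let A : Finset (Dual F V) := Finset.univ.filter fun φ => φ x = 1
  let s : Dual F V → ℕ := fun φ => ∑ y ∈ B.toFinset, if φ y = 0 then 1 else 0
  have hs : ∀ φ, s φ = {y ∈ B | φ y = 0}.ncard := fun φ => by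
    rw [Set.ncard_eq_toFinset_card']
    simp only [s, Finset.sum_boole, Nat.cast_id]
    congr 1; ext; simp
  have cA : ∀ W : Submodule F V, x ∉ W → ∀ (p : Dual F V → Prop) [DecidablePred p],
      (∀ φ, p φ ↔ ∀ w ∈ W, φ w = 0) →
      ∑ φ ∈ A, (if p φ then 1 else 0) = Nat.card F ^ (m + 3 - finrank F W - 1) :=
    fun W hW p _ hp => by
      rw [← hm, ← card_dual hW, Set.ncard_eq_toFinset_card']
      simp only [A, Finset.sum_boole, Nat.cast_id]
      congr 1; ext; simp [hp]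
  have sp1 : ∀ (y : V) (φ : Dual F V), φ y = 0 ↔ ∀ w ∈ F ∙ y, φ w = 0 := fun y φ =>
    ⟨fun h w hw => by obtain ⟨c, rfl⟩ := mem_span_singleton.1 hw; simp [h],
      fun h => h y (mem_span_singleton_self y)⟩
  have c0 : A.card = Nat.card F ^ (m + 2) := by
    have := cA ⊥ (by simpa using hx) (fun _ => True) (by simp)
    simpa using this
  have c1 : ∀ y ∈ B, ∀ (p : Dual F V → Prop) [DecidablePred p], (∀ φ, p φ ↔ φ y = 0) →
      ∑ φ ∈ A, (if p φ then 1 else 0) = Nat.card F ^ (m + 1) := fun y hy p _ hp => by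
    rw [cA (F ∙ y) (H62.notMem_span_symm hx (h1 y hy)) p fun φ => (hp φ).trans (sp1 y φ),
      finrank_span_singleton (y0 y hy)]
    rfl
  have s1 : ∑ φ ∈ A, s φ = B.ncard * Nat.card F ^ (m + 1) := by
    rw [Finset.sum_comm, Finset.sum_congr rfl fun y hy => c1 y (Set.mem_toFinset.1 hy) _
      fun _ => Iff.rfl, Finset.sum_const, Set.ncard_eq_toFinset_card', smul_eq_mul]
  have c2 : ∀ y ∈ B, ∀ y' ∈ B, ∑ φ ∈ A, (if φ y = 0 ∧ φ y' = 0 then 1 else 0) =
      (if y' ∈ F ∙ y then Nat.card F ^ (m + 1) else 0) +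
        if y' ∈ span F {x, y} then 0 else Nat.card F ^ m := fun y hy y' hy' => by
    by_cases b1 : y' ∈ F ∙ y
    · rw [if_pos b1, if_pos (span_mono (by simp) b1), add_zero]
      exact c1 y hy _ fun φ => ⟨fun h => h.1, fun h => ⟨h, (sp1 y φ).1 h y' b1⟩⟩
    by_cases b2 : y' ∈ span F {x, y}
    · rw [if_neg b1, if_pos b2]
      refine Finset.sum_eq_zero fun φ hφ => if_neg fun h => b1 ?_
      obtain ⟨t, c, rfl⟩ := mem_span_pair.1 b2
      have : t = 0 := by simpa [h.1, (Finset.mem_filter.1 hφ).2] using h.2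
      exact mem_span_singleton.2 ⟨c, by simp [this]⟩
    rw [if_neg b1, if_neg b2, zero_add, cA (span F {y, y'}) (fun h => ?_) _ fun φ =>
      ⟨fun h w hw => ?_, fun h => ⟨h y (subset_span (by simp)), h y' (subset_span (by simp))⟩⟩,
      finrank_pair ⟨y0 y hy, b1⟩]
    · rfl
    · obtain ⟨c, d, e⟩ := mem_span_pair.1 h
      have d0 : d ≠ 0 := by
        rintro rfl
        exact H62.notMem_span_symm hx (h1 y hy) (mem_span_singleton.2 ⟨c, by simpa using e⟩)
      refine b2 (mem_span_pair.2 ⟨d⁻¹, -(d⁻¹ * c), ?_⟩)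
      rw [← e, smul_add, inv_smul_smul₀ d0]
      module
    · obtain ⟨c, d, rfl⟩ := mem_span_pair.1 hw
      simp [h.1, h.2]
  have u0 : {c : F | c ≠ 0}.ncard = Nat.card F - 1 := by
    rw [← Set.ncard_univ, ← Set.ncard_sdiff_singleton_of_mem (Set.mem_univ (0 : F))]
    congr 1; ext; simp
  have k1 : ∀ y ∈ B, (B.toFinset.filter (· ∈ F ∙ y)).card = Nat.card F - 1 := fun y hy => by
    rw [← u0, ← Set.ncard_image_of_injective _ (smul_left_injective F (y0 y hy)),
      ← Set.ncard_coe_finset]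
    congr 1
    ext z
    simp only [Finset.coe_filter, Set.mem_toFinset, Set.mem_ofPred_eq, Set.mem_image]
    constructor
    · rintro ⟨hz, h⟩
      obtain ⟨c, rfl⟩ := mem_span_singleton.1 h
      exact ⟨c, left_ne_zero_of_smul (y0 _ hz), rfl⟩
    · rintro ⟨c, hc, rfl⟩
      exact ⟨h2 y hy c hc, smul_mem _ c (mem_span_singleton_self y)⟩
  have k2 : ∀ y ∈ B, (B.toFinset.filter (· ∈ span F {x, y})).card = (Nat.card F - 1) * a :=
    fun y hy => by
    rw [← u0, ← h3 y hy, ← Set.ncard_prod, ← Set.ncard_coe_finset]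
    refine (Set.ncard_congr (fun p _ => p.1 • (y + p.2 • x)) ?_ ?_ ?_).symm
    · rintro ⟨c, t⟩ ⟨hc, ht⟩
      simp only [Finset.coe_filter, Set.mem_toFinset, Set.mem_ofPred_eq]
      exact ⟨h2 _ ht c hc, mem_span_pair.2 ⟨c * t, c, by module⟩⟩
    · rintro ⟨c, t⟩ ⟨d, t'⟩ ⟨hc, -⟩ - e
      simp only [smul_add, smul_smul] at e
      obtain ⟨rfl, e'⟩ := ind_eq (h1 y hy) hx e
      exact Prod.ext rfl (mul_left_cancel₀ hc e')
    · intro z hz
      simp only [Finset.coe_filter, Set.mem_toFinset, Set.mem_ofPred_eq] at hz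
      obtain ⟨t, c, rfl⟩ := mem_span_pair.1 hz.2
      have hc : c ≠ 0 := by
        rintro rfl
        exact h1 _ hz.1 (mem_span_singleton.2 ⟨t, by simp⟩)
      refine ⟨(c, c⁻¹ * t), ⟨hc, ?_⟩, ?_⟩
      · have := h2 _ hz.1 c⁻¹ (inv_ne_zero hc)
        rwa [smul_add, inv_smul_smul₀ hc, smul_smul, add_comm] at this
      · simp only [smul_add, smul_smul, mul_inv_cancel_left₀ hc, add_comm]
  have s2 : ∑ φ ∈ A, s φ ^ 2 + B.ncard * ((Nat.card F - 1) * a * Nat.card F ^ m) =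
      B.ncard * ((Nat.card F - 1) * Nat.card F ^ (m + 1) + B.ncard * Nat.card F ^ m) := by
    have e : ∀ φ, s φ ^ 2 = ∑ y ∈ B.toFinset, ∑ y' ∈ B.toFinset,
        if φ y = 0 ∧ φ y' = 0 then 1 else 0 := fun φ => by
      rw [sq, Finset.sum_mul_sum]
      simp only [ite_and, ite_mul, one_mul, zero_mul]
    rw [Finset.sum_congr rfl fun φ _ => e φ, Finset.sum_comm, Set.ncard_eq_toFinset_card',
      ← smul_eq_mul, ← smul_eq_mul B.toFinset.card, ← Finset.sum_const, ← Finset.sum_const,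
      ← Finset.sum_add_distrib]
    refine Finset.sum_congr rfl fun y hy => ?_
    have hy := Set.mem_toFinset.1 hy
    rw [Finset.sum_comm, Finset.sum_congr rfl fun y' hy' => c2 y hy y' (Set.mem_toFinset.1 hy'),
      Finset.sum_add_distrib, Finset.sum_ite, Finset.sum_ite, ← k2 y hy,
      ← Finset.card_filter_add_card_filter_not (s := B.toFinset) (· ∈ span F {x, y})]
    simp only [Finset.sum_const, smul_eq_mul, k1 y hy]
    ring
  have pt : ∀ g : ℕ → ℕ, ∑ φ ∈ A, g (s φ) =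
      (A.filter fun φ => s φ = s φ₁).card * g ((Nat.card F - 1) * α₁) +
        (A.filter fun φ => ¬ s φ = s φ₁).card * g ((Nat.card F - 1) * α₂) := fun g => by
    rw [← Finset.sum_filter_add_sum_filter_not A fun φ => s φ = s φ₁, ← e₁, ← e₂]
    congr 1 <;> refine Finset.sum_const_nat fun φ hφ => congrArg g ?_
    · exact (Finset.mem_filter.1 hφ).2.trans (hs φ₁)
    · obtain ⟨b1, b2⟩ := Finset.mem_filter.1 hφ
      rw [hs, hs] at b2
      exact (hs φ).trans ((h5 φ (Finset.mem_filter.1 b1).2).resolve_left b2)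
  refine ⟨_, _, α₁, α₂, (Finset.card_filter_add_card_filter_not fun φ => s φ = s φ₁).trans c0,
    Nat.eq_of_mul_eq_mul_left r0 ?_, Nat.eq_of_mul_eq_mul_left (Nat.mul_pos r0 r0) ?_⟩
  · have := pt id
    simp only [id] at this
    rw [s1, h4] at this
    linear_combination -this
  · rw [pt (· ^ 2), h4] at s2
    linear_combination s2

theorem jobMom : JobMom.{u, v} := fun _ _ _ _ _ _ _ _ hx =>
  ⟨part1 hx, part2 hx⟩

end H17.KLM
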