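import Cfsg.Agent.H51.KLKit
import Cfsg.Agent.H17.KLMom

/-! Tower KL: job BOR (every line has a centre). -/

set_option autoImplicit false

namespace H17.KLB

open Module Submodule H53.CK H51.KL

universe u v

theorem bor_ar {m : ℕ} {q n₁ n₂ α₁ α₂ k : ℤ} (hq : 2 ≤ q)
    (hk : (q - 1) * k * (q + 1) + q = q ^ (m + 3)) (h0 : n₁ + n₂ = q ^ (m + 2))
    (h1 : n₁ * α₁ + n₂ * α₂ = k * q ^ (m + 1))
    (h2 : n₁ * α₁ ^ 2 + n₂ * α₂ ^ 2 + k * 1 * q ^ m = k * q ^ (m + 1) + k ^ 2 * q ^ m) : False := by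
  obtain ⟨Q, hQ⟩ : ∃ Q : ℤ, Q = q ^ m := ⟨_, rfl⟩
  have Q0 : 0 < Q := hQ ▸ by positivity
  rw [pow_add, ← hQ] at hk h0 h1 h2
  obtain ⟨j, rfl⟩ : ∃ j, k = q * j := ⟨q * k + 1 - Q * q ^ 2, by linear_combination -hk⟩
  have e1 : (q ^ 2 - 1) * j + 1 = Q * q ^ 2 :=
    mul_left_cancel₀ (by omega : q ≠ 0) (by linear_combination hk)
  have e2 : j = q * (j + j ^ 2 - (α₁ + α₂) * j + α₁ * α₂) :=
    mul_left_cancel₀ (by positivity : Q * q ≠ 0)
      (by linear_combination h2 - (α₁ + α₂) * h1 + α₁ * α₂ * h0)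
  have := Int.le_of_dvd one_pos
    (⟨Q * q - q * j + (j + j ^ 2 - (α₁ + α₂) * j + α₁ * α₂), by linear_combination e1 + e2⟩ : q ∣ 1)
  omega

theorem jobBor : JobBor.{u, v} := by
  intro hM F _ _ V _ _ _ K hs hp hn hl x y₀ h₀ hf hT hC
  have := finV F V
  have hx := h₀.1
  obtain ⟨m, hm⟩ : ∃ m, finrank F V = m + 3 := ⟨finrank F V - 3, by omega⟩
  let C : V → V → Prop := fun a b => ∃ g ∈ K, g x = a ∧ g y₀ = b
  have Ci : ∀ {a b}, C a b → Ind F a b := by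
    rintro _ _ ⟨g, -, rfl, rfl⟩
    exact h₀.map g
  have Cm : ∀ g ∈ K, ∀ {a b}, C a b → C (g a) (g b) := by
    rintro g hg _ _ ⟨k, hk, rfl, rfl⟩
    exact ⟨g * k, K.mul_mem hg hk, rfl, rfl⟩
  have Ct : ∀ {a b a' b'}, C a b → C a' b' → ∃ g ∈ K, g a = a' ∧ g b = b' := by
    rintro _ _ _ _ ⟨g, hg, rfl, rfl⟩ ⟨k, hk, rfl, rfl⟩
    exact ⟨k * g⁻¹, K.mul_mem hk (K.inv_mem hg), by simp, by simp⟩
  have Cc : ∀ {a b a' b'}, C a b → Ind F a' b' → a' ∈ F ∙ a → b' ∈ span F {a, b} → C a' b' := by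
    rintro _ _ _ _ ⟨g, hg, rfl, rfl⟩ hi h1 h2
    obtain ⟨s, rfl⟩ := mem_span_singleton.1 h1
    obtain ⟨t, c, rfl⟩ := mem_span_pair.1 h2
    have s0 : s ≠ 0 := left_ne_zero_of_smul hi.1
    have c0 : c ≠ 0 := by
      rintro rfl
      exact hi.2 (mem_span_singleton.2 ⟨t * s⁻¹, by simp [smul_smul, s0]⟩)
    obtain ⟨k, hk, r, k1, k2⟩ : Units.mk0 (s⁻¹ * c) (by simp [s0, c0]) ∈ Cl K x y₀ := by
      rw [hC]; trivial
    obtain ⟨l, hl, l1, l2⟩ : c⁻¹ * (t - s * r) ∈ Tl K x y₀ := by rw [hT]; trivial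
    obtain ⟨h, hh, e⟩ := sc_mul hs (K.mul_mem hg (K.mul_mem hl hk)) s0
    refine ⟨h, hh, by simp [e, k1, l1], ?_⟩
    simp only [e, LinearEquiv.mul_apply, k2, map_add, map_smul, l1, l2, Units.val_mk0]
    match_scalars <;> field_simp
    ring
  have Cu : ∀ {a b a' b'}, C a b → C a' b' → a' ∈ span F {a, b} → b' ∈ span F {a, b} →
      a' ∈ F ∙ a := by
    rintro _ _ _ _ ⟨g, hg, rfl, rfl⟩ ⟨k, hk, rfl, rfl⟩ h1 h2
    rw [← Set.image_pair, ← symm_mem_span] at h1 h2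
    have := hf _ (K.mul_mem (K.inv_mem hg) hk) h1 h2
    rwa [LinearEquiv.mul_apply, symm_mem_span, Set.image_singleton] at this
  have l1 : ∀ a b : V, a ∈ span F ({a, b} : Set V) := fun a b => subset_span (by simp)
  have l2 : ∀ a b : V, b ∈ span F ({a, b} : Set V) := fun a b => subset_span (by simp)
  have tri : ∀ y, y ∉ F ∙ x → C x y ∨ ∃ t : F, C (y + t • x) x := fun y hy => by
    obtain ⟨g, hg, h1, h2⟩ := hl x y₀ x y h₀ ⟨hx, hy⟩
    have e := span_eq_of_ind (h₀.map g) h1 h2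
    have c : C (g x) (g y₀) := ⟨g, hg, rfl, rfl⟩
    obtain ⟨a, b, h⟩ := mem_span_pair.1 h1
    by_cases hb : b = 0
    · refine .inl (Cc c ⟨hx, hy⟩ ?_ (e ▸ l2 _ _))
      by_contra h'
      exact H62.notMem_span_symm (h₀.map g).1 h' (mem_span_singleton.2 ⟨a, by simp [← h, hb]⟩)
    · refine .inr ⟨b⁻¹ * a, Cc c (Ind.symm ⟨hx, add_smul_notMem hy _⟩)
        (mem_span_singleton.2 ⟨b⁻¹, ?_⟩) (e ▸ l1 _ _)⟩
      rw [← h, smul_add, inv_smul_smul₀ hb, smul_smul, add_comm]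
  have c₀ : C x y₀ := ⟨1, K.one_mem, rfl, rfl⟩
  obtain ⟨y₁, c₁⟩ : ∃ y₁, C y₁ x := by
    obtain ⟨g, hg, e⟩ := hp y₀ x h₀.symm.1 hx
    exact ⟨_, g, hg, rfl, e⟩
  obtain ⟨M1, M2⟩ := hM F V x hx
  obtain ⟨f, -, hf⟩ := M1 (stab K x) 2 3 2 (hs.stab x) (fun g hg => (mem_stab.1 hg).2) rfl
    ⟨![y₀, y₁], fun i => by
      fin_cases i
      exacts [h₀.2, (Ci c₁).symm.2], fun i j g hg h => by
      obtain ⟨g1, g2⟩ := mem_stab.1 hg
      fin_cases i <;> fin_cases j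
      · rfl
      · obtain ⟨c, c0, hc⟩ := exists_coef hx g2
        have := Cu c₁ (Cm g g1 c₀) (span_mono (by simp) g2) (Set.pair_comm x y₁ ▸ h)
        exact absurd (hc ▸ this) (smul_notMem (Ci c₁).2 c0)
      · exact absurd (Cu c₀ (Cm g g1 c₁) h (span_mono (by simp) g2))
          (notMem_of_map (Ci c₁).symm g2)
      · rfl⟩
    ⟨![y₀, y₁, y₁ + x], fun y hy => by
      rcases tri y hy with h | ⟨t, h⟩
      · obtain ⟨g, hg, e1, e2⟩ := Ct c₀ h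
        exact ⟨0, g, mem_stab.2 ⟨hg, e1.symm ▸ mem_span_singleton_self x⟩, e2⟩
      by_cases ht : t = 0
      · obtain ⟨g, hg, e1, e2⟩ := Ct c₁ h
        exact ⟨1, g, mem_stab.2 ⟨hg, e2.symm ▸ mem_span_singleton_self x⟩, by simpa [ht] using e1⟩
      · obtain ⟨g, hg, e1, e2⟩ := Ct c₁ (Cc (b' := (-t) • x) h
          ⟨(Ci h).1, smul_notMem (Ci h).2 (neg_ne_zero.2 ht)⟩ (mem_span_singleton_self _)
          (smul_mem _ _ (l2 _ _)))
        exact ⟨2, g, mem_stab.2 ⟨hg, e2.symm ▸ smul_mem _ _ (mem_span_singleton_self x)⟩, by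
          simp [e1, e2]⟩⟩
  let B : Set V := {y | C y x}
  have Bn : ∀ y ∈ B, y ∉ F ∙ x := fun y hy => (Ci hy).symm.2
  have Bs : ∀ y ∈ B, ∀ c : F, c ≠ 0 → c • y ∈ B := fun y hy c hc =>
    Cc hy (Ind.symm ⟨hx, smul_notMem (Bn y hy) hc⟩) (smul_mem _ _ (mem_span_singleton_self _))
      (l2 _ _)
  have Bm : ∀ g ∈ stab K x, ∀ y ∈ B, g y ∈ B := fun g hg y hy => by
    obtain ⟨g1, g2⟩ := mem_stab.1 hg
    refine Cc (Cm g g1 hy) (Ind.symm ⟨hx, notMem_of_map (Ci hy).symm g2⟩)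
      (mem_span_singleton_self _) ?_
    obtain ⟨c, c0, hc⟩ := exists_coef hx g2
    exact mem_span_pair.2 ⟨0, c⁻¹, by simp [hc, c0]⟩
  have Bt : ∀ (y : V) (t₀ : F), y + t₀ • x ∈ B → {t : F | y + t • x ∈ B}.ncard = 1 := by
    refine fun y t₀ h => Set.ncard_eq_one.2 ⟨t₀, Set.eq_singleton_iff_unique_mem.2 ⟨h, ?_⟩⟩
    intro t ht
    by_contra hn
    have := Cu h ht (mem_span_pair.2 ⟨1, t - t₀, by module⟩) (l2 _ _)
    refine smul_notMem (Ci h).2 (sub_ne_zero.2 hn) ?_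
    convert sub_mem this (mem_span_singleton_self _) using 1
    module
  have tr : ∀ (P : V → V → Prop), (∀ g ∈ K, ∀ a b, P a b → P (g a) (g b)) → ∀ a, a ≠ 0 →
      {b | b ∈ {b : V | b ≠ 0} ∧ P a b}.ncard = {b | b ∈ {b : V | b ≠ 0} ∧ P x b}.ncard :=
    fun P hP a ha => by
    obtain ⟨g, hg, rfl⟩ := hp x a hx ha
    symm
    exact Set.ncard_congr (fun b _ => g b) (fun b hb => ⟨by simpa using hb.1, hP g hg _ _ hb.2⟩)
      (fun _ _ _ _ e => g.injective e) fun b hb => ⟨g⁻¹ b, ⟨by simpa using hb.1, by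
        simpa using hP _ (K.inv_mem hg) _ _ hb.2⟩, by simp⟩
  have c1 : {y | C x y}.ncard = B.ncard := by
    have := Nat.eq_of_mul_eq_mul_left ((Set.ncard_pos (Set.toFinite _)).2 ⟨x, hx⟩)
      (dcount {b : V | b ≠ 0} {b : V | b ≠ 0} C (tr C fun g hg _ _ => Cm g hg)
        (tr (fun a b => C b a) fun g hg _ _ => Cm g hg))
    convert this using 2 <;> ext y
    · exact ⟨fun h => And.intro (Ci h).symm.1 h, fun h => h.2⟩
    · exact ⟨fun h => And.intro (Ci h).1 h, fun h => h.2⟩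
  have c2 := dcount ({y | y ∉ F ∙ x} \ {y | C x y}) B (fun y z => z - y ∈ F ∙ x) (m := 1)
    (n := Nat.card F) (fun y hy => (ncard_line hx y (· ∈ B)).trans
      (((tri y hy.1).resolve_left hy.2).elim (Bt y))) fun z hz => by
      rw [← Set.ncard_univ F, ← Set.eq_univ_of_forall
        (s := {t : F | z + t • x ∈ {y | y ∉ F ∙ x} \ {y | C x y}}) fun t =>
          ⟨add_smul_notMem (Bn z hz) t, fun h => (Ci hz).2
            (Cu hz h (l2 _ _) (mem_span_pair.2 ⟨1, t, by simp⟩))⟩,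
        ← ncard_line hx z (· ∈ {y | y ∉ F ∙ x} \ {y | C x y})]
      congr 1
      ext a
      exact and_congr_right fun _ => sub_mem_comm_iff
  have c3 := ncard_compl (F ∙ x)
  rw [finrank_span_singleton hx, hm, pow_one, ← Set.ncard_sdiff_add_ncard_of_subset
    (s := {y | C x y}) (t := {y | y ∉ F ∙ x}) fun y hy => (Ci hy).2,
    ← mul_one (Set.ncard (_ \ _)), c2, c1] at c3
  obtain ⟨k, hk⟩ := KLM.dvd_ncard (F := F) B (fun h => (Ci h).1 rfl) Bs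
  obtain ⟨n₁, n₂, α₁, α₂, e0, e1, e2⟩ := M2 B 1 k m (f 0) (f 1) hm Bn Bs
    (fun y hy => Bt y 0 (by simpa using hy)) hk fun φ hφ => by
    obtain ⟨i, g, hg, -, h⟩ := hf φ hφ
    have := ncard_ker_eq (iff_of_map Bm hg) h
    fin_cases i
    · exact .inl this
    · exact .inr this
  have hq := two_le_card F
  rw [hk] at c3
  zify [(by omega : 1 ≤ Nat.card F)] at c3 e0 e1 e2 hq
  exact bor_ar hq (by linear_combination c3) e0 e1 (by linear_combination e2)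

end H17.KLB
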