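import Cfsg.Agent.H51.KSSpec

/-! Tower KS: jobs T1B and INT. -/

set_option autoImplicit false
set_option linter.unusedSectionVars false

namespace H17.KS

open Module Submodule H53.CK H51.KL H54 H26.MS H51.KS

universe u v

theorem split {α : Type*} [Finite α] (s : Set α) (p : α → Prop) :
    {a | a ∈ s ∧ p a}.ncard + {a | a ∈ s ∧ ¬ p a}.ncard = s.ncard :=
  Set.ncard_inter_add_ncard_sdiff_eq_ncard s {a | p a}

theorem sum_two {α : Type*} [Finite α] (s : Set α) (p : α → Prop) (f : α → ℕ) {m₁ m₂ : ℕ}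
    (h₁ : ∀ a ∈ s, p a → f a = m₁) (h₂ : ∀ a ∈ s, ¬ p a → f a = m₂) :
    ∑ a ∈ s.toFinite.toFinset, f a =
      {a | a ∈ s ∧ p a}.ncard * m₁ + {a | a ∈ s ∧ ¬ p a}.ncard * m₂ := by
  classical
  rw [← Finset.sum_filter_add_sum_filter_not _ p,
    Finset.sum_const_nat (m := m₁) fun a ha => h₁ a (by simpa using (Finset.mem_filter.1 ha).1)
      (Finset.mem_filter.1 ha).2,
    Finset.sum_const_nat (m := m₂) fun a ha => h₂ a (by simpa using (Finset.mem_filter.1 ha).1)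
      (Finset.mem_filter.1 ha).2, ← Set.ncard_coe_finset, ← Set.ncard_coe_finset]
  congr 3 <;> ext <;> simp

theorem dcount2 {α β : Type*} [Finite α] [Finite β] (s : Set α) (t : Set β) (r : α → β → Prop)
    (p : α → Prop) (p' : β → Prop) {m₁ m₂ n₁ n₂ : ℕ}
    (h₁ : ∀ a ∈ s, p a → {b | b ∈ t ∧ r a b}.ncard = m₁)
    (h₂ : ∀ a ∈ s, ¬ p a → {b | b ∈ t ∧ r a b}.ncard = m₂)
    (h₃ : ∀ b ∈ t, p' b → {a | a ∈ s ∧ r a b}.ncard = n₁)
    (h₄ : ∀ b ∈ t, ¬ p' b → {a | a ∈ s ∧ r a b}.ncard = n₂) :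
    {a | a ∈ s ∧ p a}.ncard * m₁ + {a | a ∈ s ∧ ¬ p a}.ncard * m₂ =
      {b | b ∈ t ∧ p' b}.ncard * n₁ + {b | b ∈ t ∧ ¬ p' b}.ncard * n₂ := by
  classical
  rw [← sum_two s p _ h₁ h₂, ← sum_two t p' _ h₃ h₄]
  convert Finset.sum_card_bipartiteAbove_eq_sum_card_bipartiteBelow (s := s.toFinite.toFinset)
    (t := t.toFinite.toFinset) r using 2 <;> rw [← Set.ncard_coe_finset] <;> congr 1 <;> ext
  · simp [Finset.bipartiteAbove]
  · simp [Finset.bipartiteBelow]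

variable {F : Type u} [Field F] [Finite F] {V : Type v} [AddCommGroup V] [Module F V]
  [FiniteDimensional F V] {B : LinearMap.BilinForm F V} {K : Subgroup (V ≃ₗ[F] V)} {O : Set V}

theorem card_units' (F : Type u) [Field F] [Finite F] : {a : F | a ≠ 0}.ncard + 1 = Nat.card F := by
  simpa using ncard_ne_zero (⊤ : Submodule F F)

theorem card_ne (F : Type u) [Field F] [Finite F] (V : Type v) [AddCommGroup V] [Module F V]
    [FiniteDimensional F V] : {y : V | y ≠ 0}.ncard + 1 = Nat.card F ^ finrank F V := by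
  simpa using ncard_ne_zero (⊤ : Submodule F V)

theorem rk1 (S : Sy B) {x : V} (hx : x ≠ 0) :
    finrank F (LinearMap.ker (B x)) + 1 = finrank F V :=
  Module.Dual.finrank_ker_add_one_of_ne_zero fun h => hx (S.nd.1 x fun y => by simp [h])

theorem rk2' (S : Sy B) {x w : V} (hx : x ≠ 0) (hw : w ∉ F ∙ x) :
    finrank F ↥(LinearMap.ker (B x) ⊓ LinearMap.ker (B w)) + 2 = finrank F V := by
  obtain ⟨y, h1, h2⟩ := exists_partner S.alt S.nd hw
  have := H62.finrank_le_finrank_inf_ker_add_one (LinearMap.ker (B x)) (B w)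
  have := rk1 S hx
  have := finrank_lt_finrank_of_lt (show LinearMap.ker (B x) ⊓ LinearMap.ker (B w) <
    LinearMap.ker (B x) from inf_lt_left.2 fun h => by
      simpa [h1] using h (h2 x (mem_span_singleton_self x)))
  omega

theorem part1 (S : Sy B) (hn : 6 ≤ finrank F V) (h2 : P2 S.alt K) (hO : ∀ g ∈ K, ∀ x ∈ O, g x ∈ O) :
    ¬ Half F O := fun hf => by
  have := finV F V
  have := finGL F V
  have ex : ∀ (W : Submodule F V) (z z' : V), 2 * finrank F W = finrank F V →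
      ∃ w ∈ W, w ≠ 0 ∧ B z w = 0 ∧ B z' w = 0 := fun W z z' h => by
    obtain ⟨w, h1, h2, h3⟩ := H62.exists_mem_notMem_ker [B z, B z'] (W := W) (Z := ⊥) (by simp; omega)
    exact ⟨w, h1, by simpa using h2, h3 _ (by simp), h3 _ (by simp)⟩
  obtain ⟨c, k, c0, hk, h0, h3, h4⟩ : ∃ c k, 0 < c ∧ 2 * k = finrank F V ∧ 0 ∉ O ∧
      O.ncard + c ≤ c * Nat.card F ^ k ∧
      ∀ z z', c * c ≤ {w | w ∈ O ∧ B z w = 0 ∧ B z' w = 0}.ncard := by
    rcases hf with ⟨W, h1, h3⟩ | ⟨W, W', h1, h1', hd, h3⟩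
    · refine ⟨1, _, one_pos, h1, by simp [h3], ?_, fun z z' => ?_⟩
      · rw [one_mul, ← ncard_ne_zero W, show O = {y | y ∈ W ∧ y ≠ 0} from Set.ext h3]
      · obtain ⟨w, p1, p2, p3⟩ := ex W z z' h1
        exact (Set.ncard_pos (Set.toFinite _)).2 ⟨w, (h3 w).2 ⟨p1, p2⟩, p3⟩
    · refine ⟨2, _, two_pos, h1, by simp [h3], ?_, fun z z' => ?_⟩
      · have e1 := ncard_ne_zero W
        have e2 := ncard_ne_zero W'
        have := Set.ncard_union_le {y | y ∈ W ∧ y ≠ 0} {y | y ∈ W' ∧ y ≠ 0}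
        rw [show finrank F W' = finrank F W by omega] at e2
        rw [show O = {y | y ∈ W ∧ y ≠ 0} ∪ {y | y ∈ W' ∧ y ≠ 0} from Set.ext fun v => by
          simp [h3, or_and_right]]
        omega
      · obtain ⟨w, p1, p2, p3⟩ := ex W z z' h1
        obtain ⟨w', q1, q2, q3⟩ := ex W' z z' h1'
        have n : ∀ w : V, w ≠ 0 → w ≠ -w := fun w hw e => hw (by
          have : (2 : F) • w = 0 := by rw [two_smul]; nth_rw 2 [e]; simp
          simpa [S.two] using this)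
        have d : ∀ u ∈ W, u ≠ 0 → u ∉ W' := fun u hu h0 hu' => h0 (by simpa [hd] using mem_inf.2 ⟨hu, hu'⟩)
        have d1 := d w p1 p2
        have d2 := d _ (neg_mem p1) (neg_ne_zero.2 p2)
        refine le_of_eq_of_le (Set.ncard_eq_four.2 ⟨w, -w, w', -w', n w p2, fun e => d1 (e ▸ q1),
          fun e => d1 (e ▸ neg_mem q1), fun e => d2 (e ▸ q1), fun e => d2 (e ▸ neg_mem q1), n w' q2,
          rfl⟩).symm (Set.ncard_le_ncard ?_)
        rintro _ (rfl | rfl | rfl | rfl) <;> simp [h3, p1, p2, p3, q1, q2, q3]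
  have key := avg (Isom B) (Λ := {y : V | y ≠ 0}) (D := O) (fun x hx e => h0 (e ▸ hx))
    (fun g _ a ha => by simpa using ha) (fun a ha b hb => exists_map S.alt S.nd ha hb) (c := c * c)
    fun g hg => by
      obtain ⟨z, a, z', a', l, hl, rfl⟩ := h2 g hg
      refine (h4 z z').trans (Set.ncard_le_ncard_of_injOn (fun w => l⁻¹ w) (fun w hw => ⟨hO _
        (inv_mem hl) w hw.1, ?_⟩) (l⁻¹).injective.injOn)
      change (ee S.alt z 0 a * ee S.alt z' 0 a' * l) (l⁻¹ w) ∈ O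
      simpa [tv_apply, hw.2.1, hw.2.2] using hw.1
  have e := card_ne F V
  have q2 : 2 ≤ Nat.card F ^ k := (two_le_card F).trans (Nat.le_self_pow (by omega) _)
  rw [← hk, mul_comm 2 k, pow_mul] at e
  generalize Nat.card F ^ k = Q at *
  obtain ⟨Q, rfl⟩ : ∃ R, Q = R + 1 := ⟨Q - 1, by omega⟩
  have h5 : O.ncard ≤ c * Q := by linarith
  have h6 := key.trans (Nat.pow_le_pow_left h5 2)
  rw [mul_pow, pow_two c] at h6
  have := Nat.le_of_mul_le_mul_left h6 (by positivity)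
  nlinarith

theorem part2 (S : Sy B) (h1 : P1 S.alt K)
    (h : ∀ z, z ≠ 0 → Nat.card F ^ finrank F V ≤ K.relIndex (Cz B z)) : PP K := fun x y hx hy => by
  by_contra! hn
  have := finV F V
  have := finGL F V
  have := Fintype.ofFinite F
  obtain ⟨g, hg, e⟩ := exists_map S.alt S.nd hx hy
  obtain ⟨ε, hε⟩ := FiniteField.exists_nonsquare (F := F) fun e => S.two (by
    simpa [e] using (ringChar.spec F 2).2 (e ▸ dvd_rfl))
  have idx : ∀ (z : V) (g : V ≃ₗ[F] V), K.relIndex (Cz B z) =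
      (Set.range fun p : Cz B z => ((g * p : V ≃ₗ[F] V) : (V ≃ₗ[F] V) ⧸ K)).ncard := fun z g =>
    index_eq_ncard _ _ fun p p' => by
      rw [QuotientGroup.eq, Subgroup.mem_subgroupOf]; simp [mul_assoc]
  have a1 := (h y hy).trans_eq (idx y 1)
  have a2 := (h x hx).trans_eq (idx x g)
  have un := Set.ncard_union_eq (s := Set.range fun p : Cz B y => ((1 * p : V ≃ₗ[F] V) : _ ⧸ K))
    (t := Set.range fun p : Cz B x => ((g * p : V ≃ₗ[F] V) : _ ⧸ K)) (Set.disjoint_left.2 (by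
      rintro _ ⟨p, rfl⟩ ⟨p', e'⟩
      refine hn _ (QuotientGroup.eq.1 e'.symm) ?_
      have b1 : p'.1 x = x := p'.2.2
      have b2 : p.1⁻¹ y = y := (inv_mem p.2).2
      simp only [one_mul, LinearEquiv.mul_apply, b1, e, b2]
      exact mem_span_singleton_self y))
  let f : F → V → (V ≃ₗ[F] V) ⧸ K := fun a z => (ee S.alt z 0 a : V ≃ₗ[F] V)
  have cov : ∀ g ∈ Isom B, (g : (V ≃ₗ[F] V) ⧸ K) ∈ Set.range (f 1) ∪ f ε '' {z | z ≠ 0} := by
    intro g hg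
    obtain ⟨z, a, k, hk, rfl⟩ := h1 g hg
    rw [QuotientGroup.mk_mul_of_mem _ hk]
    have sc : ∀ t c : F, ee S.alt (t • z) 0 c = ee S.alt z 0 (t ^ 2 * c) := fun t c => by
      rw [ee_scale S.alt (map_zero _), smul_zero]
    by_cases s : IsSquare a
    · obtain ⟨t, rfl⟩ := s
      exact .inl ⟨t • z, by simp only [f, sc, mul_one, pow_two]⟩
    by_cases z0 : z = 0
    · refine .inl ⟨0, congrArg _ (LinearEquiv.ext fun v => by simp [z0, tv_apply])⟩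
    classical
    have a0 : a ≠ 0 := by rintro rfl; simp at s
    have ε0 : ε ≠ 0 := by rintro rfl; simp at hε
    obtain ⟨t, ht⟩ : IsSquare (a * ε) := by
      rw [← quadraticChar_neg_one_iff_not_isSquare] at s hε
      rw [← quadraticChar_one_iff_isSquare (mul_ne_zero a0 ε0), map_mul, s, hε]; simp
    have t0 : t ≠ 0 := by rintro rfl; simp [a0, ε0] at ht
    refine .inr ⟨(t / ε) • z, by simp [t0, ε0, z0], ?_⟩
    simp only [f, sc]
    congr 2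
    field_simp
    linear_combination -ht
  have le := Set.ncard_le_ncard (s := (Set.range fun p : Cz B y => ((1 * p : V ≃ₗ[F] V) : _ ⧸ K)) ∪
    Set.range fun p : Cz B x => ((g * p : V ≃ₗ[F] V) : _ ⧸ K))
    (t := Set.range (f 1) ∪ f ε '' {z | z ≠ 0}) (by
      rintro _ (⟨p, rfl⟩ | ⟨p, rfl⟩)
      exacts [cov _ (mul_mem (one_mem _) p.2.1), cov _ (mul_mem hg p.2.1)])
  have c1 := Set.ncard_union_le (Set.range (f 1)) (f ε '' {z | z ≠ 0})
  have c2 := Set.ncard_image_le (f := f ε) (s := {z | z ≠ 0})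
  have c3 := Set.ncard_image_le (f := f 1) (s := Set.univ)
  have c4 := card_ne F V
  rw [Set.image_univ, Set.ncard_univ, Module.natCard_eq_pow_finrank (K := F)] at c3
  omega

theorem jobT1b : JobT1b.{u, v} := fun _ _ _ _ _ _ _ _ S _ =>
  ⟨fun hn h2 _ hO => part1 S hn h2 hO, fun _ h1 h => part2 S h1 h⟩

theorem h_const (hK : K ≤ Isom B) (hO : ∀ g ∈ K, ∀ x ∈ O, g x ∈ O) {x x' : V} (hx : x ≠ 0)
    (h : ∃ g ∈ K, g x ∈ F ∙ x') : {y | y ∈ O ∧ B x y = 0}.ncard = {y | y ∈ O ∧ B x' y = 0}.ncard := by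
  obtain ⟨g, hg, e⟩ := h
  obtain ⟨c, hc, e⟩ := exists_coef hx e
  rw [ncard_ker_eq (iff_of_map hO hg) (φ := B x) (ψ := B (c • x')) fun v => e ▸ hK hg x v]
  simp [hc]

/-- the number of transvections moving `x` into `O` -/
theorem tv_count (S : Sy B) {x : V} (hx : x ∈ O) :
    {p : V × F | p ∈ {p : V × F | p.1 ≠ 0 ∧ p.2 ≠ 0} ∧ ee S.alt p.1 0 p.2 x ∈ O}.ncard =
      ({y | y ∈ LinearMap.ker (B x) ∧ y ≠ 0}.ncard + {y | y ∈ O ∧ ¬ B x y = 0}.ncard) *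
        {a : F | a ≠ 0}.ncard := by
  have := finV F V
  rw [← split _ fun p => B p.1 x = 0, add_mul]
  congr 1
  · rw [← Set.ncard_prod]
    congr 1
    ext ⟨z, a⟩
    simp only [Set.mem_ofPred_eq, Set.mem_prod, LinearMap.mem_ker, tv_apply]
    exact ⟨fun h => ⟨⟨S.alt.isRefl _ _ h.2, h.1.1.1⟩, h.1.1.2⟩, fun h =>
      ⟨⟨⟨h.1.2, h.2⟩, by simpa [S.alt.isRefl _ _ h.1.1] using hx⟩, S.alt.isRefl _ _ h.1.1⟩⟩
  refine (mul_one _).symm.trans (dcount _ _ (fun (p : V × F) y => ee S.alt p.1 0 p.2 x = y)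
    (fun p hp => ?_) fun y hy => ?_)
  · rw [Set.ncard_eq_one]
    refine ⟨_, Set.eq_singleton_iff_unique_mem.2 ⟨⟨⟨hp.1.2, ?_⟩, rfl⟩, fun b hb => hb.2.symm⟩⟩
    simp [tv_apply, S.alt.self_eq_zero, hp.1.1.2, hp.2, mt (S.alt.isRefl _ _) hp.2]
  have y0 : B y x ≠ 0 := mt (S.alt.isRefl _ _) hy.2
  have yx : y - x ≠ 0 := fun e => y0 (by rw [sub_eq_zero.1 e, S.alt.self_eq_zero])
  symm
  refine Set.ncard_congr (fun t _ => (t • (y - x), (t ^ 2 * B y x)⁻¹)) (fun t ht => ?_)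
    (fun s t _ _ e => smul_left_injective F yx (Prod.mk.inj e).1) ?_
  · have t0 : t ≠ 0 := ht
    have e : ee S.alt (t • (y - x)) 0 (t ^ 2 * B y x)⁻¹ x = y := by
      simp only [tv_apply, map_smul, map_sub, LinearMap.smul_apply, LinearMap.sub_apply,
        S.alt.self_eq_zero, smul_eq_mul]
      match_scalars <;> field_simp <;> ring
    exact ⟨⟨⟨⟨by simp [t0, yx], by simp [t0, y0]⟩, e.symm ▸ hy.1⟩,
      by simp [t0, y0, S.alt.self_eq_zero]⟩, e⟩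
  · rintro ⟨z, a⟩ ⟨⟨⟨⟨-, a0⟩, -⟩, h0⟩, e⟩
    simp only [tv_apply] at e a0 h0
    refine ⟨(a * B z x)⁻¹, by simp [a0, h0], Prod.ext ?_ ?_⟩
    · change (a * B z x)⁻¹ • (y - x) = z
      rw [← e, add_sub_cancel_left, smul_smul, inv_mul_cancel₀ (mul_ne_zero a0 h0), one_smul]
    · simp only [← e, map_add, map_smul, LinearMap.add_apply, LinearMap.smul_apply,
        S.alt.self_eq_zero, smul_eq_mul]
      field_simp
      ring

theorem jobInt : JobInt.{u, v} := by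
  intro F _ _ V _ _ _ B S K O k hn hk hK T
  have := finV F V
  obtain ⟨x₁, hx₁⟩ := T.ex
  obtain ⟨x₂, x0, hx₂⟩ := T.ex'
  have ne : ∀ x ∈ O, x ≠ 0 := fun x hx e => T.zero (e ▸ hx)
  obtain ⟨h₁, H1⟩ : ∃ h₁, ∀ x ∈ O, {y | y ∈ O ∧ B x y = 0}.ncard = h₁ :=
    ⟨_, fun x hx => h_const hK T.map (ne x hx) (T.tr x hx x₁ hx₁)⟩
  obtain ⟨h₂, H2⟩ : ∃ h₂, ∀ x, x ≠ 0 → x ∉ O → {y | y ∈ O ∧ B x y = 0}.ncard = h₂ :=
    ⟨_, fun x h0 hx => h_const hK T.map h0 (T.tr' x x₂ h0 x0 hx hx₂)⟩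
  obtain ⟨j, rfl⟩ : ∃ j, k = j + 1 := ⟨k - 1, by omega⟩
  obtain ⟨m₁, M1⟩ : ∃ m, ∀ x, x ≠ 0 → {y | y ∈ LinearMap.ker (B x) ∧ y ≠ 0}.ncard = m ∧
      m + 1 = Nat.card F ^ (2 * j + 1) := ⟨Nat.card F ^ (2 * j + 1) - 1, fun x hx => by
    have := ncard_ne_zero (LinearMap.ker (B x))
    rw [show finrank F (LinearMap.ker (B x)) = 2 * j + 1 by have := rk1 S hx; omega] at this
    omega⟩
  obtain ⟨m₂, M2, M2'⟩ : ∃ m, m + 1 = Nat.card F ^ (2 * j) ∧ ∀ x w, x ≠ 0 → w ∉ F ∙ x →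
      {y | y ∈ LinearMap.ker (B x) ⊓ LinearMap.ker (B w) ∧ y ≠ 0}.ncard = m :=
    ⟨Nat.card F ^ (2 * j) - 1, Nat.sub_add_cancel (Nat.one_le_pow _ _ Nat.card_pos), fun x w hx hw => by
      have := ncard_ne_zero (LinearMap.ker (B x) ⊓ LinearMap.ker (B w))
      rw [show finrank F ↥(LinearMap.ker (B x) ⊓ LinearMap.ker (B w)) = 2 * j by
        have := rk2' S hx hw; omega] at this
      omega⟩
  have sy : ∀ x y, B x y = 0 ↔ B y x = 0 := fun x y => ⟨S.alt.isRefl _ _, S.alt.isRefl _ _⟩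
  have E1 := dcount2 {y : V | y ≠ 0} O (fun y w => B y w = 0) (· ∈ O) (fun _ => True)
    (fun y _ hy => H1 y hy) (fun y h0 hy => H2 y h0 hy) (n₂ := 0)
    (fun w hw _ => (by congr 1; ext y; simp [sy y w, and_comm] : _ = _).trans (M1 w (ne w hw)).1)
    fun _ _ h => (h trivial).elim
  have E2 := fun (x : V) (hx : x ≠ 0) => dcount2 {y | y ∈ LinearMap.ker (B x) ∧ y ≠ 0} O
    (fun y w => B y w = 0) (· ∈ O) (· ∈ F ∙ x) (fun y _ hy => H1 y hy) (fun y h0 hy => H2 y h0.2 hy)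
    (fun w _ hw => (by
      obtain ⟨c, rfl⟩ := mem_span_singleton.1 hw
      congr 1; ext y
      exact ⟨fun h => h.1, fun h => ⟨h, by simp [(sy x y).1 h.1]⟩⟩ : _ = _).trans (M1 x hx).1)
    fun w _ hw => (by congr 1; ext y; simp [sy y w]; tauto : _ = _).trans (M2' x w hx hw)
  have s0 := split {y : V | y ≠ 0} (· ∈ O)
  have e0 : {y : V | y ∈ {y : V | y ≠ 0} ∧ y ∈ O} = O := Set.ext fun y => ⟨fun h => h.2, fun h => ⟨ne y h, h⟩⟩
  have e1 : ∀ x, {y | y ∈ {y | y ∈ LinearMap.ker (B x) ∧ y ≠ 0} ∧ y ∈ O} = {y | y ∈ O ∧ B x y = 0} :=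
    fun x => Set.ext fun y => ⟨fun h => ⟨h.2, h.1.1⟩, fun h => ⟨⟨h.2, ne y h.1⟩, h.1⟩⟩
  have s1 := split {y | y ∈ LinearMap.ker (B x₁) ∧ y ≠ 0} (· ∈ O)
  have s2 := split {y | y ∈ LinearMap.ker (B x₂) ∧ y ≠ 0} (· ∈ O)
  have s3 := split O (· ∈ F ∙ x₁)
  have s4 := split O (· ∈ F ∙ x₂)
  have s5 := split O (B x₁ · = 0)
  have E3 := E2 x₁ (ne _ hx₁)
  have E4 := E2 x₂ x0
  have l1 : {y | y ∈ O ∧ y ∈ F ∙ x₁}.ncard + 1 = Nat.card F := by
    have := ncard_ne_zero (F ∙ x₁)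
    rw [finrank_span_singleton (ne _ hx₁), pow_one] at this
    rw [← this]
    congr 2
    ext y
    refine ⟨fun h => ⟨h.2, ne y h.1⟩, fun h => ⟨?_, h.1⟩⟩
    obtain ⟨c, rfl⟩ := mem_span_singleton.1 h.1
    exact T.smul _ hx₁ c fun e => h.2 (by simp [e])
  have l2 : {y | y ∈ O ∧ y ∈ F ∙ x₂}.ncard = 0 := by
    rw [Set.ncard_eq_zero]
    refine Set.eq_empty_of_forall_notMem fun y h => ?_
    obtain ⟨c, rfl⟩ := mem_span_singleton.1 h.2
    have c0 : c ≠ 0 := fun e => ne _ h.1 (by simp [e])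
    exact hx₂ (by simpa [c0] using T.smul _ h.1 c⁻¹ (inv_ne_zero c0))
  have pos : 0 < O.ncard := (Set.ncard_pos (Set.toFinite _)).2 ⟨x₁, hx₁⟩
  have pos' : 0 < {y : V | y ∈ {y : V | y ≠ 0} ∧ ¬ y ∈ O}.ncard :=
    (Set.ncard_pos (Set.toFinite _)).2 ⟨x₂, x0, hx₂⟩
  have cM := card_ne F V
  have cU := card_units' F
  have M1' := (M1 x₂ x0).2
  have q2 := two_le_card F
  rw [e0] at s0 E1
  rw [e1, H1 _ hx₁] at s1 E3
  rw [e1, H2 _ x0 hx₂] at s2 E4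
  rw [(M1 _ (ne _ hx₁)).1] at s1
  rw [(M1 _ x0).1] at s2
  rw [H1 _ hx₁] at s5
  rw [l2] at s4 E4
  simp only [and_true, Set.ofPred_mem_eq, mul_zero, add_zero] at E1
  have tv : ∀ i, (∀ z, z ≠ 0 → ∀ a : F, a ≠ 0 → (O ∩ ee S.alt z 0 a '' O).ncard = i) →
      {y : V | y ≠ 0}.ncard * {a : F | a ≠ 0}.ncard * i =
        O.ncard * ((m₁ + {y | y ∈ O ∧ ¬ B x₁ y = 0}.ncard) * {a : F | a ≠ 0}.ncard) := fun i hi => by
    rw [← Set.ncard_prod]
    refine dcount _ O (fun p x => ee S.alt p.1 0 p.2 x ∈ O) (fun p hp => ?_) fun x hx => ?_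
    · rw [← hi _ hp.1 _ hp.2, ← Set.ncard_image_of_injective _ (ee S.alt p.1 0 p.2).injective]
      congr 1
      ext y
      exact ⟨fun ⟨x, h, e⟩ => ⟨e ▸ h.2, x, h.1, e⟩, fun ⟨h, x, hx, e⟩ => ⟨x, ⟨hx, e ▸ h⟩, e⟩⟩
    · have := split O (B x · = 0)
      rw [H1 x hx] at this
      rw [show {y | y ∈ O ∧ ¬ B x₁ y = 0}.ncard = {y | y ∈ O ∧ ¬ B x y = 0}.ncard by omega,
        ← (M1 x (ne x hx)).1]
      exact tv_count S hx
  rw [hn, show 2 * (j + 1) = (j + 1) * 2 by ring, pow_mul, pow_succ _ j] at cM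
  rw [pow_succ, mul_comm 2, pow_mul] at M1'
  rw [mul_comm 2, pow_mul] at M2
  have P0 : 0 < Nat.card F ^ j := by positivity
  have gq : ∀ ω, gam F (2 * (j + 1)) O O ω =
      (O ∩ ω).ncard - (O.ncard : ℚ) ^ 2 / {y : V | y ≠ 0}.ncard := fun ω => by
    rw [gam, show 2 * (j + 1) = (j + 1) * 2 by ring, pow_mul, pow_succ _ j, eq_sub_of_add_eq
      (show ({y : V | y ≠ 0}.ncard : ℚ) + 1 = ((Nat.card F : ℚ) ^ j * Nat.card F) ^ 2 by
        exact_mod_cast cM)]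
  simp only [gq, Set.inter_self]
  generalize {y : V | y ∈ {y : V | y ≠ 0} ∧ ¬ y ∈ O}.ncard = n₂ at *
  generalize {y | y ∈ {y | y ∈ LinearMap.ker (B x₁) ∧ y ≠ 0} ∧ ¬ y ∈ O}.ncard = a₁ at *
  generalize {y | y ∈ {y | y ∈ LinearMap.ker (B x₂) ∧ y ≠ 0} ∧ ¬ y ∈ O}.ncard = a₂ at *
  generalize {y | y ∈ O ∧ ¬ y ∈ F ∙ x₁}.ncard = b₁ at *
  generalize {y | y ∈ O ∧ ¬ y ∈ F ∙ x₂}.ncard = b₂ at *
  generalize {y | y ∈ O ∧ y ∈ F ∙ x₁}.ncard = c₁ at *
  generalize {y | y ∈ O ∧ ¬ B x₁ y = 0}.ncard = d₁ at *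
  generalize {y : V | y ≠ 0}.ncard = M at *
  have z1 : ((h₁ : ℤ) - h₂) ^ 2 = ((Nat.card F - 1) * Nat.card F ^ j) ^ 2 := by
    zify at s1 s2 s3 s4 E3 E4 l1 M1' M2
    linear_combination E3 - E4 - h₂ * s1 + h₂ * s2 + m₂ * s3 - m₂ * s4 + (m₁ - m₂) * l1 +
      (Nat.card F - 1 : ℤ) * (M1' - M2)
  obtain ⟨ε, hε, z2⟩ : ∃ ε : ℤ, (ε = 1 ∨ ε = -1) ∧
      (h₁ : ℤ) - h₂ = ε * (Nat.card F - 1) * Nat.card F ^ j := by
    rcases sq_eq_sq_iff_eq_or_eq_neg.1 z1 with e | e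
    exacts [⟨1, .inl rfl, by rw [e]; ring⟩, ⟨-1, .inr rfl, by rw [e]; ring⟩]
  have ε2 : ε ^ 2 = 1 := by rcases hε with rfl | rfl <;> simp
  have z3 : (h₂ : ℤ) * ((Nat.card F : ℤ) ^ (j + 1) - ε) = O.ncard * ((Nat.card F : ℤ) ^ j - ε) := by
    refine mul_left_cancel₀ (a := (Nat.card F : ℤ) ^ j * Nat.card F + ε) (by
      have : 2 ≤ Nat.card F ^ j * Nat.card F := le_mul_of_one_le_of_le P0 q2
      zify at this
      omega) ?_
    zify at s0 E1 cM M1'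
    rw [pow_succ]
    linear_combination E1 - h₂ * s0 - O.ncard * z2 - h₂ * cM + O.ncard * M1' +
      (O.ncard - h₂ : ℤ) * ε2
  have M0 : (0 : ℚ) < M := by exact_mod_cast (by omega : 0 < M)
  refine ⟨h₁, h₂, ε, ⟨H1, H2, hε, z2, z3⟩, ?_, fun γ hγ => ?_⟩
  · rw [sub_pos, div_lt_iff₀ M0, pow_two]
    exact_mod_cast Nat.mul_lt_mul_of_pos_left (by omega) pos
  have t := tv _ fun z hz a ha => Nat.cast_injective (R := ℚ) (sub_left_injective
    ((hγ z hz a ha).trans (hγ x₂ x0 1 one_ne_zero).symm))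
  rw [← hγ x₂ x0 1 one_ne_zero]
  generalize (O ∩ ee S.alt x₂ 0 1 '' O).ncard = i at t
  have t' : M * i = O.ncard * (m₁ + d₁) :=
    Nat.eq_of_mul_eq_mul_right (m := {a : F | a ≠ 0}.ncard) (by omega)
      (by rw [mul_right_comm, t, mul_assoc])
  rw [pow_succ] at z3
  rw [Nat.add_sub_cancel, pow_succ]
  qify at t' z2 z3 ε2 s5 M1' cM
  field_simp
  linear_combination ((Nat.card F : ℚ) ^ j * Nat.card F - ε) * (t' + O.ncard * (s5 + M1' - z2)) -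
    O.ncard * z3 - O.ncard * ((Nat.card F : ℚ) ^ j - ε) * cM +
      O.ncard * ((Nat.card F : ℚ) ^ j * Nat.card F - (Nat.card F : ℚ) ^ j) * ε2

end H17.KS
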