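import Cfsg.Agent.H36.NGSpec
import Cfsg.Agent.H30.Counting
import Cfsg.Agent.H87.PrimeSylow

/-! Class multiplication constants for a self-centralizing Sylow subgroup of prime order. -/

set_option autoImplicit false

namespace H17.NGK

open Cfsg H87 H39 H28 H36.NG
open scoped ComplexConjugate

universe u

variable {G : Type*} [Group G]

/-- Conjugation by `c` has no fixed pair, so `p` divides the number of pairs. -/
theorem dvd_card_pairs [Finite G] {p : ℕ} [hp : Fact p.Prime] {u a c : G} (hc : orderOf c = p)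
    (hu : u ≠ 1) (hup : ¬ p ∣ orderOf u)
    (cz : ∀ g : G, g * c = c * g → g ∈ Subgroup.zpowers c) :
    p ∣ Nat.card {q : G × G // IsConj u q.1 ∧ IsConj a q.2 ∧ q.1 * q.2 = c} := by
  classical
  have := Fintype.ofFinite G
  let f : Function.End {q : G × G // IsConj u q.1 ∧ IsConj a q.2 ∧ q.1 * q.2 = c} := fun q =>
    ⟨(c * q.1.1 * c⁻¹, c * q.1.2 * c⁻¹), q.2.1.trans (isConj_iff.2 ⟨c, rfl⟩),
      q.2.2.1.trans (isConj_iff.2 ⟨c, rfl⟩), by
        have h := q.2.2.2
        calc c * q.1.1 * c⁻¹ * (c * q.1.2 * c⁻¹) = c * (q.1.1 * q.1.2) * c⁻¹ := by group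
          _ = c := by rw [h]; group⟩
  have hf : ∀ k : ℕ, ∀ q, ((f ^ k) q).1 = (c ^ k * q.1.1 * (c ^ k)⁻¹, c ^ k * q.1.2 * (c ^ k)⁻¹) := by
    intro k
    induction k with
    | zero => intro q; simp; rfl
    | succ k ih =>
      intro q
      rw [pow_succ' f]
      change (c * ((f ^ k) q).1.1 * c⁻¹, c * ((f ^ k) q).1.2 * c⁻¹) = _
      rw [ih, pow_succ' c]
      congr 1 <;> group
  have hfp : f ^ p ^ 1 = 1 := by
    funext q
    apply Subtype.ext
    rw [pow_one, hf, ← hc, pow_orderOf_eq_one]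
    simp; rfl
  have h1 := Equiv.Perm.card_fixedPoints_modEq hfp
  have h2 : IsEmpty f.fixedPoints := ⟨fun q => by
    have h3 : c * q.1.1.1 * c⁻¹ = q.1.1.1 := congrArg (fun z => z.1.1) q.2
    have h4 := cz q.1.1.1 (by rw [← mul_inv_eq_iff_eq_mul.1 h3])
    have h5 : orderOf q.1.1.1 ∣ p := by
      rw [← hc]; exact orderOf_dvd_of_mem_zpowers h4
    have h6 : orderOf q.1.1.1 = orderOf u := by
      obtain ⟨g, hg⟩ := isConj_iff.1 q.1.2.1
      rw [← hg, ← MulAut.conj_apply, MulEquiv.orderOf_eq]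
    rw [h6] at h5
    rcases (Nat.dvd_prime hp.out).1 h5 with h | h
    · exact hu (orderOf_eq_one_iff.1 h)
    · exact hup h.symm.dvd⟩
  rw [Fintype.card_eq_zero (α := f.fixedPoints)] at h1
  rw [Nat.card_eq_fintype_card]
  exact Nat.modEq_zero_iff_dvd.1 h1

section

variable [Fintype G] {p e t n : ℕ} [hp : Fact p.Prime] {X Y : Finset (IrrCharacter G)}
  {δ : IrrCharacter G → ℤ} {ε : ℤ}

omit hp in
/-- Splitting a sum over the irreducible characters. -/
theorem sum_split (h : Br p e t X Y δ ε) (f : IrrCharacter G → ℂ)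
    (hf : ∀ ψ, ψ ∉ X → ψ ∉ Y → f ψ = 0) : ∑ ψ, f ψ = ∑ χ ∈ X, f χ + ∑ θ ∈ Y, f θ := by
  classical
  rw [← Finset.sum_union h.disj]
  exact (Finset.sum_subset (Finset.subset_univ _) fun ψ _ hψ =>
    hf ψ (fun h1 => hψ (Finset.mem_union_left _ h1))
      fun h1 => hψ (Finset.mem_union_right _ h1)).symm

/-- The general formula. -/
theorem main (h : Br p e t X Y δ ε) (hG : Nat.card G = p * e * (n * p + 1))
    (cz : ∀ z g : G, orderOf z = p → g * z = z * g → g ∈ Subgroup.zpowers z)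
    (out : ∀ ψ : IrrCharacter G, ψ ∉ X → ψ ∉ Y → ∀ g, p ∣ orderOf g → (ψ : G → ℂ) g = 0)
    {u a c : G} (hu : u ≠ 1) (hup : ¬ p ∣ orderOf u) (ha : orderOf a = p) (hc : orderOf c = p)
    {θ : IrrCharacter G} (hθ : θ ∈ Y) {s : ℂ}
    (hs : ∑ ψ : IrrCharacter G, (ψ : G → ℂ) a * conj ((ψ : G → ℂ) c) = s) :
    ∃ k : ℕ, (p * Nat.card (Subgroup.centralizer ({u} : Set G)) * k : ℂ) = e * (n * p + 1) *
      (∑ χ ∈ X, (χ : G → ℂ) u / dg χ + (s - e) * (θ : G → ℂ) u / dg θ) := by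
  obtain ⟨k, hk⟩ := dvd_card_pairs (a := a) hc hu hup fun g => cz c g hc
  refine ⟨k, ?_⟩
  have h1 := H30.card_class_mul_eq_sum u a c
  have hX : ∀ χ ∈ X, (χ : G → ℂ) a * conj ((χ : G → ℂ) c) = 1 := fun χ hχ => by
    rw [h.valX χ hχ a ha.symm.dvd, h.valX χ hχ c hc.symm.dvd, map_intCast, sign_sq (h.sδ χ)]
  rw [sum_split h _ fun ψ h1 h2 => by rw [out ψ h1 h2 a ha.symm.dvd, zero_mul],
    Finset.sum_congr rfl hX, Finset.sum_const, h.cardX, nsmul_eq_mul, mul_one] at hs
  rw [hk, sum_split h _ fun ψ h1 h2 => by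
      rw [out ψ h1 h2 a ha.symm.dvd, mul_zero, zero_mul, zero_div],
    Finset.sum_congr rfl (g := fun χ : IrrCharacter G => (χ : G → ℂ) u / dg χ) fun χ hχ => by
      rw [mul_assoc, hX χ hχ, mul_one, coe_dg],
    Finset.sum_congr (s₁ := Y) rfl
      (g := fun η : IrrCharacter G =>
        (θ : G → ℂ) u / dg θ * ((η : G → ℂ) a * conj ((η : G → ℂ) c))) fun η hη => by
      rw [h.uni hη hθ hup, ← coe_dg, h.dg_eq hη hθ]; ring,
    ← Finset.mul_sum, eq_sub_of_add_eq' hs] at h1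
  have h2 := H30.card_class_mul_card_centralizer u
  have h3 := H30.card_class_mul_card_centralizer a
  have h4 : Subgroup.centralizer ({a} : Set G) = Subgroup.zpowers a := by
    apply le_antisymm
    · intro g hg
      exact cz a g ha (Subgroup.mem_centralizer_singleton_iff.1 hg)
    · rw [Subgroup.zpowers_le]
      exact Subgroup.mem_centralizer_singleton_iff.2 rfl
  rw [h4, Nat.card_zpowers, ha, hG, mul_assoc, mul_comm] at h3
  have h5 := Nat.eq_of_mul_eq_mul_left hp.out.pos h3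
  have h6 : (Nat.card G : ℂ) ≠ 0 := Nat.cast_ne_zero.2 Nat.card_pos.ne'
  rw [h5, div_mul_eq_mul_div, eq_div_iff h6, ← h2] at h1
  have h7 : (Nat.card {x : G // IsConj u x} : ℂ) ≠ 0 := by
    have : Nonempty {x : G // IsConj u x} := ⟨⟨u, IsConj.refl u⟩⟩
    exact Nat.cast_ne_zero.2 Nat.card_pos.ne'
  apply mul_left_cancel₀ h7
  push_cast at h1
  linear_combination h1

end

theorem jobK : JobK.{u} := by
  intro G _ _ p U K n e t h _ P X Y δ ε d x y lam ω A ht u hu hup θ hθ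
  have hb := A.cf.br
  have hP := A.cf.card
  obtain ⟨a, ha, ha1⟩ := exists_ne_one_mem_prime hP
  have hao := orderOf_eq_of_mem_prime hP ha ha1
  obtain ⟨c, hc, hc1, hac⟩ : ∃ c ∈ (P : Subgroup G), c ≠ 1 ∧ ¬ IsConj a c := by
    by_contra hcon
    push Not at hcon
    have h1 := card_isConj_mem_prime hP ha ha1
    have h2 := card_ne_one_mem (P : Subgroup G)
    have h3 : Nat.card {g : G // g ∈ (P : Subgroup G) ∧ g ≠ 1} ≤
        Nat.card {g : G // IsConj a g ∧ g ∈ (P : Subgroup G)} :=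
      Nat.card_le_card_of_injective (fun g => ⟨g.1, hcon g.1 g.2.1 g.2.2, g.2.1⟩)
        fun g g' hg => Subtype.ext (congrArg Subtype.val hg :)
    have h4 := A.cf.he
    have h5 := hb.te
    have h6 := hb.e_pos
    rw [h1, h2, hP, h4] at h3
    have h7 : 2 * e ≤ t * e := Nat.mul_le_mul_right e ht
    omega
  have hco := orderOf_eq_of_mem_prime hP hc hc1
  obtain ⟨k1, hk1⟩ := main hb A.m1.card A.m1.cz A.m1.out hu hup hao hco hθ
    (column_orthogonality_of_not_isConj hac)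
  have h4 : Subgroup.centralizer ({a} : Set G) = Subgroup.zpowers a := by
    apply le_antisymm
    · intro g hg
      exact A.m1.cz a g hao (Subgroup.mem_centralizer_singleton_iff.1 hg)
    · rw [Subgroup.zpowers_le]
      exact Subgroup.mem_centralizer_singleton_iff.2 rfl
  obtain ⟨k2, hk2⟩ := main hb A.m1.card A.m1.cz A.m1.out hu hup hao hao hθ
    (s := p) (by
      rw [column_orthogonality_of_isConj (IsConj.refl a), h4, Nat.card_zpowers, hao])
  refine ⟨k1, k2, ?_, hk2⟩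
  rw [hk1]
  ring

end H17.NGK
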