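import Cfsg.Agent.H74.O11Res

/-! O11 tower, slot B2: in the exceptional configuration the two-point stabiliser is cyclic. -/

set_option autoImplicit false

namespace H17.O11

open Subgroup MulAction H74.O11

universe u

theorem conj_pow_A {G Ω : Type u} [Group G] [MulAction G Ω] {Γ : Geo G Ω} {a : Ω} {u z x : G}
    (hu : u ∈ Γ.A a) (hx : x ∈ Γ.sub a) (h : u * z * u⁻¹ = z * x) (n : ℕ) :
    u ^ n * z * (u ^ n)⁻¹ = z * x ^ n := by
  induction n with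
  | zero => simp
  | succ n ih =>
    have := Γ.mem_A.1 hu _ (pow_mem hx n)
    calc u ^ (n + 1) * z * (u ^ (n + 1))⁻¹ = u * (u ^ n * z * (u ^ n)⁻¹) * u⁻¹ := by
          rw [pow_succ']; group
      _ = u * z * u⁻¹ * (u * x ^ n * u⁻¹) := by rw [ih]; group
      _ = z * x ^ (n + 1) := by rw [h, ← this, pow_succ']; group

theorem inv_of_w {G Ω : Type u} [Group G] [MulAction G Ω] {Γ : Geo G Ω} {a : Ω} {o x : G}
    (ho : o • a = a) (hw : Γ.w o a = -1) (hx : x ∈ Γ.sub a) : o * x * o⁻¹ = x⁻¹ := by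
  rw [Γ.w_spec ho hx, hw, eq_inv_iff_mul_eq_one, ← pow_succ]
  exact Γ.pow_eleven hx

theorem eq_one_of_inv {G : Type u} [Group G] {o z : G} (h11 : z ^ 11 = 1) (h : o * z * o⁻¹ = z⁻¹)
    (hc : o * z = z * o) : z = 1 := by
  have h2 : z * z = 1 := by
    rw [hc, mul_inv_cancel_right] at h
    exact mul_eq_one_iff_eq_inv.2 h
  calc z = (z * z) ^ 5 * z := by rw [h2]; simp
    _ = z ^ 11 := by rw [← pow_two, ← pow_mul, ← pow_succ]
    _ = 1 := h11

theorem jobB2 : JobB2.{u} := by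
  intro G Ω _ _ _ _ Γ h o0 a b c x u d hZ
  have ab := d.ne
  obtain ⟨y, s, f⟩ := h.frame a b ab
  have cZ : Nat.card (Γ.Z a b) = 11 := by rw [hZ, Nat.card_zpowers, d.oc]
  have cH := Γ.Z_le_H a b d.cZ
  have cy : Commute c y := f.cen c cH
  have ocy : orderOf (c * y) = 55 := by
    rw [cy.orderOf_mul_eq_mul_orderOf_of_coprime (by rw [d.oc, f.oy]; norm_num), d.oc, f.oy]
  have cyc : ∀ g ∈ Γ.H a b, orderOf g = Nat.card (Γ.H a b) → IsCyclic (Γ.H a b) := fun g hg e =>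
    isCyclic_of_orderOf_eq_card (⟨g, hg⟩ : Γ.H a b) (by rw [← e, Subgroup.orderOf_mk])
  rcases h.cardH a b ab with ⟨-, e⟩ | ⟨⟨o', ho', wo'⟩, e⟩
  · exact cyc _ (mul_mem cH f.yH) (by rw [ocy, e, cZ])
  have zp : ∀ z ∈ Γ.Z a b, ∃ j : ℕ, c ^ j = z := fun z hz => by
    rw [hZ, ← mem_powers_iff_mem_zpowers] at hz
    exact hz
  have z11 : ∀ z ∈ Γ.Z a b, z ^ 11 = 1 := fun z hz => by
    obtain ⟨j, rfl⟩ := zp z hz
    rw [← pow_mul, mul_comm, pow_mul, d.c11, one_pow]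
  obtain ⟨o, oH, oo, wo⟩ : ∃ o ∈ Γ.H a b, o * o = 1 ∧ Γ.w o a = -1 := by
    refine ⟨o' ^ 11, pow_mem ho' _, ?_, by rw [Γ.w_pow ho'.1, wo']; decide⟩
    rw [← (Commute.refl o').mul_pow]
    exact z11 _ (h.memZ a b _ ab (mul_mem ho' ho').1 (mul_mem ho' ho').2
      (by rw [Γ.w_mul ho'.1 ho'.1, wo']; decide))
  have o1 : o ≠ 1 := fun e => absurd (e ▸ wo : Γ.w 1 a = -1) (by rw [Γ.w_one]; decide)
  by_cases oc : o * c = c * o
  · refine cyc (o * (c * y)) (mul_mem oH (mul_mem cH f.yH)) ?_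
    have o2 : orderOf o = 2 := orderOf_eq_prime (by rw [pow_two, oo]) o1
    rw [(Commute.mul_right oc (f.cen o oH)).orderOf_mul_eq_mul_orderOf_of_coprime
      (by rw [o2, ocy]; norm_num), o2, ocy, e, cZ]
  exfalso
  have oi : o⁻¹ = o := inv_eq_of_mul_eq_one_right oo
  -- `o` inverts `c`
  have oinv : o * c * o⁻¹ = c⁻¹ := by
    obtain ⟨j, hj⟩ := zp _ (mul_mem (conj_H_Z oH d.cZ) d.cZ)
    by_contra hne
    have hj1 : c ^ j ≠ 1 := fun e => hne (eq_inv_of_mul_eq_one_left (hj ▸ e))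
    obtain ⟨i, hi⟩ := zp _ (conj_H_Z oH d.cZ)
    have cc : o * c * o⁻¹ * c = c * (o * c * o⁻¹) := by rw [← hi]; exact (Commute.pow_self c i).eq
    have fx : o * c ^ j = c ^ j * o := by
      calc o * c ^ j = (o * o) * c * (o⁻¹ * o⁻¹) * (o * c * o⁻¹) * o := by rw [hj]; group
        _ = c ^ j * o := by rw [oi, oo, hj, cc, oi]; group
    have : c ∈ zpowers (c ^ j) := by
      rw [eq_of_le_of_card_ge (zpowers_le.2 (pow_mem (mem_zpowers c) j)) ?_]
      · exact mem_zpowers c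
      · have : Fact (Nat.Prime 11) := ⟨by norm_num⟩
        rw [Nat.card_zpowers, Nat.card_zpowers, d.oc,
          orderOf_eq_prime (z11 _ (pow_mem d.cZ j)) hj1]
    obtain ⟨k, hk⟩ := this
    exact oc (by rw [← hk]; exact (Commute.zpow_right fx k).eq)
  have cz1 : ∀ z ∈ Γ.Z a b, o * z = z * o → z = 1 := fun z hz hc => by
    refine eq_one_of_inv (z11 z hz) ?_ hc
    obtain ⟨j, rfl⟩ := zp z hz
    rw [← conj_pow, oinv, inv_pow]
  have zz : ∀ z ∈ Γ.Z a b, ∀ z' ∈ Γ.Z a b, z * z' = z' * z := fun z hz z' hz' => by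
    obtain ⟨i, rfl⟩ := zp z hz
    obtain ⟨j, rfl⟩ := zp z' hz'
    exact (Commute.pow_pow_self c i j).eq
  obtain ⟨-, -, cj, tr, k, hk, cnt⟩ := o0 a b ab (by rw [cZ]; decide) o ⟨oH, oo, o1⟩
  have m11 : (invs (Γ.H a b)).ncard = 11 := by
    rw [← cZ, ← SetLike.coe_sort_coe, Nat.card_coe_set_eq]
    symm
    refine Set.ncard_congr (fun z _ => z * o * z⁻¹) (fun z hz => ⟨?_, ?_, ?_⟩)
      (fun z z' hz hz' e => ?_) fun t ht => ?_
    · exact mul_mem (mul_mem (Γ.Z_le_H a b hz) oH) (inv_mem (Γ.Z_le_H a b hz))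
    · calc _ = z * (o * o) * z⁻¹ := by group
        _ = 1 := by rw [oo]; simp
    · simpa using o1
    · refine (inv_mul_eq_one.1 (cz1 _ (mul_mem (inv_mem hz) hz') ?_))
      calc o * (z⁻¹ * z') = z⁻¹ * (z * o * z⁻¹) * z' := by group
        _ = z⁻¹ * z' * o := by rw [e]; group
    · obtain ⟨z, hz, e⟩ := cj t ht
      exact ⟨z, hz, e.symm⟩
  set C := Γ.A a ⊓ centralizer {o} with hC
  have mC : ∀ g, g ∈ C ↔ g ∈ Γ.A a ∧ g * o = o * g := fun g =>
    and_congr_right fun _ => mem_centralizer_singleton_iff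
  -- `μ = φ - 1`
  have mu : Nat.card C + 1 = {e : Ω | o • e = e}.ncard := by
    have h1 := ncard_mul_card C {e : Ω | e ≠ a ∧ o • e = e} (a := b)
      (fun g hg => ⟨smul_ne (A_fix ((mC g).1 hg).1) ab.symm, by
        rw [← mul_smul, ← ((mC g).1 hg).2, mul_smul, oH.2]⟩)
      fun e he => by
        obtain ⟨g, hg, h2, h3⟩ := tr e he.1 he.2
        exact ⟨g, (mC g).2 ⟨hg, h2⟩, h3⟩
    have h2 : C ⊓ stabilizer G b = ⊥ := (eq_bot_iff_forall _).2 fun g hg =>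
      cz1 g (h.memZ a b g ab (A_fix hg.1.1) hg.2 (A_w hg.1.1)) ((mC g).1 hg.1).2.symm
    rw [h2, card_bot, mul_one] at h1
    rw [← h1, ← Set.ncard_insert_of_notMem (a := a) (by simp)]
    congr 1
    ext e
    exact ⟨fun he => he.elim (fun e => e ▸ oH.1) (·.2), fun he => (em _).imp id fun h => ⟨h, he⟩⟩
  have xc : Commute c x := (d.cx_comm d.xs).symm
  have pw : ∀ j : ℕ, c ^ j ≠ 1 → x ^ j ≠ 1 := fun j hj e => hj (by
    rw [← orderOf_dvd_iff_pow_eq_one, Γ.orderOf_eq d.xs d.x1] at e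
    rwa [← orderOf_dvd_iff_pow_eq_one, d.oc])
  -- `11 ∣ μ`
  have d11 : 11 ∣ Nat.card C := by
    have aub : a ≠ u • b := (smul_ne (A_fix d.uA) ab.symm).symm
    have cx1 : c * x ≠ 1 := by rw [← d.uc]; simpa using fun e => by simpa [e] using d.oc
    have ocx : o * (c * x) * o⁻¹ = (c * x)⁻¹ := by
      rw [xc.eq, mul_inv_rev, ← oinv, ← inv_of_w oH.1 wo d.xs, ← xc.eq]; group
    have on : Γ.On a (u • b) (o • u • b) := (h.fixZ _ _ _ _ aub d.cx_mem cx1).1 (by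
      rw [← mul_smul, show c * x * o = o * (c * x)⁻¹ by rw [← ocx, ← mul_assoc, ← mul_assoc, oo, oi]; group,
        mul_smul, Z_fix (inv_mem d.cx_mem) (Γ.on_right _ _)])
    obtain ⟨e, he, ea, oe, -⟩ := h.lfix a (u • b) o aub oH.1 on (by rw [wo]; decide)
    obtain ⟨g, gA, go, gb⟩ := tr e ea oe
    have h1 := Γ.conj_mem_Z g d.cZ
    rw [A_fix gA, gb, h.Z_eq aub (Γ.on_left _ _) he ea.symm] at h1
    have h2 := Γ.conj_mem_Z u⁻¹ h1
    rw [A_fix (inv_mem d.uA), inv_smul_smul] at h2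
    obtain ⟨j, hj⟩ := zp _ h2
    have j1 : c ^ j ≠ 1 := fun e => by
      rw [e, eq_comm] at hj
      simp only [conj_eq_one_iff] at hj
      simpa [hj] using d.oc
    have h3 : g * c * g⁻¹ = c ^ j * x ^ j := by rw [← xc.mul_pow, ← d.uc, conj_pow, hj]; group
    have g'A : y * g * y⁻¹ ∈ Γ.A a := f.ya ▸ Γ.conj_mem_A y (f.ya.symm ▸ gA)
    have xj := pow_mem d.xs j
    have h4 : y * g * y⁻¹ * c * (y * g * y⁻¹)⁻¹ = c ^ j * (x ^ j) ^ 3 := by
      have := Γ.w_spec f.ya xj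
      rw [f.wy] at this
      calc _ = y * (g * (y⁻¹ * (c * y)) * g⁻¹) * y⁻¹ := by group
        _ = y * c ^ j * y⁻¹ * (y * x ^ j * y⁻¹) := by rw [cy.eq, inv_mul_cancel_left, h3]; group
        _ = _ := by rw [this, ← (cy.pow_left j).eq, mul_inv_cancel_right]; rfl
    have h5 : g⁻¹ * (y * g * y⁻¹) * c * (g⁻¹ * (y * g * y⁻¹))⁻¹ = c * (x ^ j) ^ 2 := by
      calc _ = g⁻¹ * (y * g * y⁻¹ * c * (y * g * y⁻¹)⁻¹) * g := by group
        _ = g⁻¹ * (c ^ j * x ^ j) * ((x ^ j) ^ 2 * g) := by rw [h4]; group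
        _ = _ := by rw [← h3, Γ.mem_A.1 gA _ (pow_mem xj 2)]; group
    have h6 : g⁻¹ * (y * g * y⁻¹) ∈ C := mul_mem (inv_mem ((mC g).2 ⟨gA, go⟩)) ((mC _).2 ⟨g'A, by
      have c1 : Commute y o := (f.cen o oH).symm
      exact ((c1.mul_left go).mul_left c1.inv_left).eq⟩)
    have h7 := conj_pow_A h6.1 (pow_mem xj 2) h5 (Nat.card C)
    rw [show (g⁻¹ * (y * g * y⁻¹)) ^ Nat.card C = 1 from
      congrArg Subtype.val (pow_card_eq_one' (x := (⟨_, h6⟩ : C)))] at h7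
    have h8 : (x ^ j) ^ (2 * Nat.card C) = 1 := by simpa [pow_mul] using h7
    rw [← orderOf_dvd_iff_pow_eq_one, Γ.orderOf_eq xj (pw j j1)] at h8
    omega
  -- free action of `sub a × Z`
  let q : G ⧸ centralizer {o} := (1 : G)
  have st : stabilizer G q = centralizer {o} := stabilizer_quotient _
  have h1 := ncard_mul_card (Γ.A a) {r | ∃ g ∈ Γ.A a, g • q = r} (a := q)
    (fun g hg => ⟨g, hg, rfl⟩) fun _ hr => hr
  have ZA : Γ.Z a b ≤ Γ.A a := Γ.Z_le_A (Γ.on_left a b)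
  let φ : Γ.sub a × Γ.Z a b →* G := (Γ.sub a).subtype.noncommCoprod (Γ.Z a b).subtype
    fun x z => Γ.mem_A.1 (ZA z.2) _ x.2
  let := MulAction.compHom (G ⧸ centralizer {o}) φ
  have h2 := card_dvd_of_free (⊤ : Subgroup (Γ.sub a × Γ.Z a b)) {r | ∃ g ∈ Γ.A a, g • q = r}
    (Set.toFinite _) (by
      rintro p - _ ⟨g, hg, rfl⟩
      exact ⟨φ p * g, mul_mem (mul_mem (Γ.sub_le_A a p.1.2) (ZA p.2.2)) hg, mul_smul _ _ _⟩) (by
      rintro ⟨⟨x', hx'⟩, ⟨z, hz⟩⟩ - _ ⟨g, hg, rfl⟩ hf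
      have h3 : g⁻¹ * (x' * z) * g ∈ centralizer {o} := by
        rw [← st, mem_stabilizer_iff, mul_smul, mul_smul, inv_smul_eq_iff]
        exact hf
      rw [mem_centralizer_singleton_iff] at h3
      by_cases z1 : z = 1
      · subst z1
        rw [mul_one, mul_assoc g⁻¹ x', Γ.mem_A.1 hg _ hx', inv_mul_cancel_left] at h3
        obtain rfl := eq_one_of_inv (Γ.pow_eleven hx') (inv_of_w oH.1 wo hx') h3.symm
        rfl
      exfalso
      obtain ⟨j, rfl⟩ := zp z hz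
      have h4 : u * c ^ j * u⁻¹ = c ^ j * x ^ j := by rw [← conj_pow, d.uc, xc.mul_pow]
      obtain ⟨l, hl⟩ := Γ.exists_pow (pow_mem d.xs j) (pw j z1) hx'
      have h5 := conj_pow_A d.uA (pow_mem d.xs j) h4 l.val
      rw [← hl, ← Γ.mem_A.1 (ZA hz) _ hx'] at h5
      obtain ⟨t, tA, ht⟩ : ∃ t ∈ Γ.A a, t * o * t⁻¹ * c ^ j = c ^ j * (t * o * t⁻¹) := by
        refine ⟨(u ^ l.val)⁻¹ * g, mul_mem (inv_mem (pow_mem d.uA _)) hg, ?_⟩
        calc _ = (u ^ l.val)⁻¹ * g * (o * (g⁻¹ * (u ^ l.val * c ^ j * (u ^ l.val)⁻¹) * g)) * g⁻¹ *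
              u ^ l.val := by group
          _ = _ := by rw [h5, ← h3, ← h5]; group
      have ta : (t * o * t⁻¹) • a = a := by
        rw [mul_smul, mul_smul, A_fix (inv_mem tA), oH.1, A_fix tA]
      have tw : Γ.w (t * o * t⁻¹) a = -1 := by rw [← wo, ← Γ.w_conj t oH.1, A_fix tA]
      obtain ⟨e, he, ea, te, -⟩ := h.lfix a b _ ab ta
        (h.on_of_comm ab hz z1 ht (Γ.on_right a b)) (by rw [tw]; decide)
      obtain ⟨p, hp, pe⟩ := (h.lp a b ab).reg a e b (Γ.on_left a b) he (Γ.on_right a b) ea ab.symm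
      obtain ⟨z, hz', e'⟩ := cj (p * (t * o * t⁻¹) * p⁻¹) ⟨Γ.mem_H.2 ⟨by
          rw [mul_smul, mul_smul, Γ.smul_self (inv_mem hp), ta, Γ.smul_self hp], by
          rw [mul_smul, mul_smul, ← pe, inv_smul_smul, te]⟩, by
        calc _ = p * t * (o * o) * (p * t)⁻¹ := by group
          _ = 1 := by rw [oo]; simp, by simpa using o1⟩
      have c1 : Commute p (c ^ j) := Γ.mem_A.1 (ZA hz) _ hp
      have c2 : Commute z (c ^ j) := zz _ hz' _ hz
      have c3 : Commute (z * o * z⁻¹) (c ^ j) := e' ▸ (c1.mul_left ht).mul_left c1.inv_left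
      have c4 := (c2.inv_left.mul_left c3).mul_left c2
      exact z1 (cz1 _ hz (by simpa [mul_assoc] using c4.eq)))
  rw [st, h.cardA a b ab, cZ] at h1
  rw [card_top, Nat.card_prod, Γ.card, cZ] at h2
  obtain ⟨n, hn⟩ := h2
  obtain ⟨r, hr⟩ := d11
  have pos : 0 < Nat.card C := Nat.card_pos
  have le : {e : Ω | o • e = e}.ncard ≤ Nat.card Ω := Set.ncard_le_card _
  rw [m11] at hk cnt
  rw [hn, ← hC] at h1
  rw [← mu] at cnt le
  rw [Nat.add_sub_cancel] at cnt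
  obtain ⟨v, hv⟩ := Nat.exists_eq_add_of_le le
  rw [hv, Nat.add_sub_cancel_left] at cnt
  rw [hv, show Nat.card C + 1 + v - 1 = Nat.card C + v by omega] at h1
  have : 121 * n = 11 + k * (11 * r + 1) :=
    Nat.eq_of_mul_eq_mul_right pos (by rw [← hr]; linarith)
  rcases hk with rfl | rfl <;> omega

end H17.O11
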