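import Cfsg.Agent.H51.OVSpec

/-! Tower OV, job B1: a Baer involution fixes `m + 1` points of the oval. -/

set_option autoImplicit false

namespace H17.OV

open H51.OV Finset

universe u v w

theorem ncard_setOf {α : Type*} [Fintype α] (p : α → Prop) [DecidablePred p] :
    {x | p x}.ncard = #(univ.filter p) := by
  rw [← Set.ncard_coe_finset]; congr 1; ext; simp

variable {G : Type u} {P : Type v} {L : Type w} [Group G] [MulAction G P] [MulAction G L]
  [Membership P L] {n : ℕ} {O : Set P}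

/-- `l` is tangent at `p` -/
def Tg (O : Set P) (p : P) (l : L) : Prop := p ∈ l ∧ ∀ q ∈ O, q ∈ l → q = p

theorem lines_at [Finite L] (h : Pl G P L n O) {p : P} (hp : p ∈ O) (B : Set L) :
    {l | l ∈ B ∧ p ∈ l}.ncard = {l | l ∈ B ∧ Tg O p l}.ncard +
      {q | q ∈ O ∧ q ≠ p ∧ ∃ l ∈ B, p ∈ l ∧ q ∈ l}.ncard := by
  have k : ∀ l ∈ {l | l ∈ B ∧ p ∈ l ∧ ¬ Tg O p l}, ∃ q ∈ O, q ∈ l ∧ q ≠ p := fun l hl => by
    by_contra c
    exact hl.2.2 ⟨hl.2.1, fun q a b => by_contra fun e => c ⟨q, a, b, e⟩⟩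
  choose f f1 f2 f3 using k
  rw [← Set.ncard_congr (t := {q | q ∈ O ∧ q ≠ p ∧ ∃ l ∈ B, p ∈ l ∧ q ∈ l}) f
    (fun l hl => ⟨f1 l hl, f3 l hl, l, hl.1, hl.2.1, f2 l hl⟩)
    (fun l k hl hk e => (h.uq hl.2.1 (f2 l hl) hk.2.1 (e ▸ f2 k hk)).resolve_left (f3 l hl).symm) ?_,
    ← Set.ncard_union_eq (Set.disjoint_left.2 fun l a b => b.2.2 a.2)]
  · congr 1
    ext l
    refine ⟨fun a => ?_, fun a => a.elim (fun a => ⟨a.1, a.2.1⟩) fun a => ⟨a.1, a.2.1⟩⟩
    by_cases c : Tg O p l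
    exacts [Or.inl ⟨a.1, c⟩, Or.inr ⟨a.1, a.2, c⟩]
  · rintro q ⟨a, b, l, c, d, e⟩
    have hl : l ∈ {l | l ∈ B ∧ p ∈ l ∧ ¬ Tg O p l} := ⟨c, d, fun t => b (t.2 q a e)⟩
    exact ⟨l, hl, ((h.arc l p hp _ (f1 l hl) q a d (f2 l hl) e).resolve_left
      (f3 l hl).symm).resolve_left b.symm⟩

theorem exists_tg [Finite P] [Finite L] (h : Pl G P L n O) {p : P} (hp : p ∈ O) :
    ∃ t : L, ∀ l, Tg O p l ↔ l = t := by
  have a := lines_at h hp Set.univ
  have e : {q | q ∈ O ∧ q ≠ p ∧ ∃ l ∈ (Set.univ : Set L), p ∈ l ∧ q ∈ l} = O \ {p} := by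
    ext q
    exact ⟨fun a => ⟨a.1, a.2.1⟩, fun a => ⟨a.1, a.2, (h.join p q).imp fun l b => ⟨trivial, b⟩⟩⟩
  have b := Set.ncard_sdiff_singleton_add_one hp
  simp only [Set.mem_univ, true_and] at a e
  rw [e, h.lns, ← h.card, ← b, add_comm, add_left_inj] at a
  obtain ⟨t, ht⟩ := Set.ncard_eq_one.1 a.symm
  exact ⟨t, fun l => Set.ext_iff.1 ht l⟩

theorem tg_smul (h : Pl G P L n O) (g : G) {p : P} {l : L} (t : Tg O p l) :
    Tg O (g • p) (g • l) := ⟨(h.coll g p l).2 t.1, fun q a b => by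
  rw [← t.2 (g⁻¹ • q) (h.inv _ q a) ((h.coll g _ l).1 (by rwa [smul_inv_smul])), smul_inv_smul]⟩

theorem jobB1 : JobB1.{u, v, w} := fun G P L _ _ _ _ _ _ _ n O h a m b => by
  classical
  have := Fintype.ofFinite P
  have := Fintype.ofFinite L
  have aa : a * a = 1 := by rw [← pow_two, ← b.ord, pow_orderOf_eq_one]
  have a2 : ∀ p : P, a • a • p = p := fun p => by rw [← mul_smul, aa, one_smul]
  have tg : ∀ p ∈ O, a • p = p → {l : L | a • l = l ∧ Tg O p l}.ncard = 1 := fun p hp e => by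
    obtain ⟨t, ht⟩ := exists_tg h hp
    refine Set.ncard_eq_one.2 ⟨t, Set.ext fun l => ⟨fun c => (ht l).1 c.2, ?_⟩⟩
    rintro rfl
    exact ⟨(ht _).1 (e ▸ tg_smul h a ((ht l).2 rfl)), (ht l).2 rfl⟩
  have fx : ∀ p q : P, p ≠ q → (a • p = p ∧ a • q = q ∨ a • p = q) → ∃ l : L, a • l = l ∧ p ∈ l ∧
      q ∈ l := fun p q ne e => by
    obtain ⟨l, c, d⟩ := h.join p q
    have c' := (h.coll a p l).2 c
    have d' := (h.coll a q l).2 d
    refine ⟨l, ?_, c, d⟩
    rcases e with ⟨e, e'⟩ | rfl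
    · exact (h.uq (e ▸ c') (e' ▸ d') c d).resolve_left ne
    · exact (h.uq (a2 p ▸ d') c' c d).resolve_left ne
  have hf : {p : P | p ∈ O ∧ a • p = p}.ncard = m + 1 := by
    obtain ⟨p, hp, e⟩ : ∃ p ∈ O, a • p = p := by
      by_contra c
      have := h.par a aa
      rw [show {p | p ∈ O ∧ a • p ≠ p} = O from Set.ext fun p =>
        ⟨fun x => x.1, fun x => ⟨x, fun e => c ⟨p, x, e⟩⟩⟩, h.card, b.sq] at this
      obtain ⟨k, rfl | rfl⟩ := Nat.even_or_odd' m <;> ring_nf at this <;> omega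
    have c := lines_at h hp {l | a • l = l}
    have e' : {q | q ∈ O ∧ q ≠ p ∧ ∃ l ∈ {l : L | a • l = l}, p ∈ l ∧ q ∈ l} =
        {p : P | p ∈ O ∧ a • p = p} \ {p} := by
      ext q
      refine ⟨fun ⟨x, y, l, l1, l2, l3⟩ => ⟨⟨x, ?_⟩, y⟩, fun ⟨⟨x, y⟩, z⟩ =>
        ⟨x, z, fx p q (Ne.symm z) (.inl ⟨e, y⟩)⟩⟩
      have l4 : a • q ∈ l := l1 ▸ (h.coll a q l).2 l3
      rcases h.arc l p hp q x _ (h.inv a q x) l2 l3 l4 with r | r | r
      · exact absurd r.symm y
      · exact absurd (by rw [← a2 q, ← r, e]) y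
      · exact r.symm
    rw [e', b.sub.lns p e] at c
    have := tg p hp e
    have d := Set.ncard_sdiff_singleton_add_one (s := {p : P | p ∈ O ∧ a • p = p}) ⟨hp, e⟩
    simp only [Set.mem_ofPred_eq] at c
    omega
  refine ⟨hf, fun l0 h0 => by_contra fun c0 => ?_⟩
  let A : Finset L := univ.filter fun l => a • l = l
  let Q : Finset P := univ.filter fun p => p ∈ O
  have e1 : ∑ l ∈ A, (#(Q.filter fun p => p ∈ l) + #(Q.filter fun p => Tg O p l)) =
      ∑ p ∈ Q, (#(A.filter fun l => p ∈ l) + #(A.filter fun l => Tg O p l)) := by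
    simp only [card_filter, ← sum_add_distrib]
    exact sum_comm
  have e2 : ∑ l ∈ A, (#(Q.filter fun p => p ∈ l) + #(Q.filter fun p => Tg O p l)) <
      ∑ _ ∈ A, 2 := by
    refine sum_lt_sum (fun l _ => ?_) ⟨l0, by simp [A, h0], ?_⟩
    · by_cases c : ∃ p ∈ O, Tg O p l
      · obtain ⟨p, hp, t⟩ := c
        have s : ∀ r : P → Prop, ∀ [DecidablePred r], (∀ q, r q → q ∈ l) → #(Q.filter r) ≤ 1 :=
          fun r _ hr => card_le_one.2 fun x hx y hy => by
            simp only [Q, mem_filter, mem_univ, true_and] at hx hy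
            rw [t.2 x hx.1 (hr x hx.2), t.2 y hy.1 (hr y hy.2)]
        exact add_le_add (s _ fun _ => id) (s _ fun _ x => x.1)
      · rw [filter_eq_empty_iff.2 fun p hp t => c ⟨p, by simpa [Q] using hp, t⟩, card_empty,
          add_zero]
        by_contra d
        obtain ⟨x, hx, y, hy, z, hz, xy, xz, yz⟩ := two_lt_card.1 (not_le.1 d)
        simp only [Q, mem_filter, mem_univ, true_and] at hx hy hz
        rcases h.arc l x hx.1 y hy.1 z hz.1 hx.2 hy.2 hz.2 with r | r | r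
        exacts [xy r, xz r, yz r]
    · rw [filter_eq_empty_iff.2 fun p hp t => c0 ⟨p, by simpa [Q] using hp, t⟩,
        filter_eq_empty_iff.2 fun p hp t => c0 ⟨p, by simpa [Q] using hp, t.1⟩]
      simp
  have e3 : ∑ p ∈ Q, (1 + if a • p = p then m + 1 else 0) ≤
      ∑ p ∈ Q, (#(A.filter fun l => p ∈ l) + #(A.filter fun l => Tg O p l)) :=
    sum_le_sum fun p hp => by
      have hp : p ∈ O := by simpa [Q] using hp
      split_ifs with e
      · have x := b.sub.lns p e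
        have y := tg p hp e
        simp only [Set.mem_ofPred_eq] at x
        rw [ncard_setOf] at x y
        rw [filter_filter, filter_filter, x, y]
        omega
      · obtain ⟨l, x, y, -⟩ := fx p (a • p) (Ne.symm e) (.inr rfl)
        exact le_add_right (card_pos.2 ⟨l, by simp [A, x, y]⟩)
  have cA : #A = m ^ 2 + m + 1 := (ncard_setOf _).symm.trans b.tot
  have cQ : #Q = m ^ 2 + 1 := (ncard_setOf _).symm.trans (b.sq ▸ h.card)
  rw [ncard_setOf, ← filter_filter] at hf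
  rw [sum_add_distrib, ← sum_filter, sum_const, sum_const, cQ, hf] at e3
  rw [sum_const, cA] at e2
  simp only [smul_eq_mul] at e2 e3
  nlinarith

end H17.OV
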