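/- Tower R3: the case of dimension two over the field of scalars. -/
import Cfsg.Agent.H70.R3Spec

set_option autoImplicit false

namespace H17.R3D2

open Cfsg H28 H90 H34.TL H70.R3 Module Subgroup MulAction

universe u

/-- A character of degree at most two is irreducible or a sum of linear characters. -/
theorem irr_or_comm {X : Type*} [Group X] [Finite X] {χ : X → ℂ} (h : IsCharacter X χ) :
    charDegree χ ≤ 2 → IsIrrCharacter X χ ∨ commutator X ≤ charKer χ := by
  refine h.induction (P := fun χ => charDegree χ ≤ 2 → IsIrrCharacter X χ ∨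
    commutator X ≤ charKer χ) (fun _ => .inr fun _ _ _ => rfl) fun φ θ hφ hθ _ hd => ?_
  rw [hφ.isCharacter.charDegree_add hθ] at hd
  have h1 := hφ.charDegree_pos
  by_cases h0 : charDegree θ = 0
  · rw [hθ.charDegree_eq_zero_iff.1 h0, add_zero]
    exact .inl hφ
  · rw [hφ.isCharacter.charKer_add hθ]
    exact .inr (le_inf (hφ.charDegree_eq_one_iff.1 (by omega))
      (hθ.commutator_le_charKer (hθ.charDegree_eq_one_iff.1 (by omega))))

/-- An abelian subgroup `T` centralized by `C`. -/
theorem card_mul_le {G : Type*} [Group G] [Finite G] (T C : Subgroup G)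
    (h : ∀ t ∈ T, ∀ c ∈ C, c * t = t * c) : Nat.card T ≤ cls G * C.index := by
  classical
  have := Fintype.ofFinite G
  have h1 := sum_card_centralizer (G := G)
  have hA : (Finset.univ.filter (· ∈ T)).card = Nat.card T := by
    rw [Nat.card_eq_fintype_card, Fintype.card_subtype]
  refine Nat.le_of_mul_le_mul_right ?_ (Nat.card_pos (α := C))
  rw [mul_assoc, C.index_mul_card, ← h1, ← hA]
  exact (Finset.card_nsmul_le_sum _ _ _ fun g hg => card_le_of_le fun a ha =>
    mem_centralizer_singleton_iff.2 (h g (Finset.mem_filter.1 hg).2 a ha)).trans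
    (Finset.sum_le_sum_of_subset (Finset.filter_subset _ _))

theorem num {p k : ℕ} (hp : 13 ≤ p) (hk : 2 ≤ k) : 60 * (k * k) * p + 1 < p ^ (k * 2) := by
  induction k, hk using Nat.le_induction with
  | base =>
    have h1 : 13 * 13 ≤ p * p := Nat.mul_le_mul hp hp
    have h2 : 13 * 13 * 13 ≤ p * p * p := Nat.mul_le_mul h1 hp
    have h3 : 13 * 13 * 13 * p ≤ p * p * p * p := Nat.mul_le_mul_right p h2
    have h4 : p ^ (2 * 2) = p * p * p * p := by ring
    omega
  | succ k hk ih =>
    have h1 : 13 * 13 ≤ p * p := Nat.mul_le_mul hp hp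
    have h2 : p ^ ((k + 1) * 2) = p ^ (k * 2) * (p * p) := by ring
    have h3 : (k + 1) * (k + 1) ≤ 4 * (k * k) := by nlinarith
    have h4 := Nat.mul_le_mul_left (p ^ (k * 2)) h1
    have h5 := Nat.mul_le_mul_right p h3
    rw [mul_assoc 60] at ih ⊢
    rw [mul_assoc 4] at h5
    omega

theorem card_le {G : Type*} [Group G] [Finite G] (C : Subgroup G) (h : FChr C 2) :
    Nat.card G ≤ 60 * (C.index * C.index) * cls G := by
  obtain ⟨χ, h1, h2, h3⟩ := h
  have hab : ∀ (B : Subgroup C) [IsMulCommutative B], B.index ≤ 2 →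
      Nat.card G ≤ 60 * (C.index * C.index) * cls G := by
    intro B _ hB
    have h4 := card_le_cls_mul (B.map C.subtype)
    have h5 : (B.map C.subtype).index ≤ 2 * C.index := by
      rw [index_map_subtype]
      exact Nat.mul_le_mul_right _ hB
    calc Nat.card G = Nat.card (B.map C.subtype) * (B.map C.subtype).index :=
          (card_mul_index _).symm
      _ ≤ cls G * (2 * C.index) * (2 * C.index) :=
          Nat.mul_le_mul (h4.trans (Nat.mul_le_mul_left _ h5)) h5
      _ = 4 * (C.index * C.index * cls G) := by ring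
      _ ≤ 60 * (C.index * C.index * cls G) := Nat.mul_le_mul_right _ (by norm_num)
      _ = _ := by ring
  have hz : (center C).index ≤ 60 → Nat.card G ≤ 60 * (C.index * C.index) * cls G := by
    intro hB
    have h4 := card_mul_le ((center C).map C.subtype) C (by
      rintro _ ⟨t, ht, rfl⟩ c hc
      exact congrArg Subtype.val (mem_center_iff.1 ht ⟨c, hc⟩))
    have h5 : ((center C).map C.subtype).index ≤ 60 * C.index := by
      rw [index_map_subtype]
      exact Nat.mul_le_mul_right _ hB
    calc Nat.card G = Nat.card ((center C).map C.subtype) * ((center C).map C.subtype).index :=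
          (card_mul_index _).symm
      _ ≤ cls G * C.index * (60 * C.index) := Nat.mul_le_mul h4 h5
      _ = _ := by ring
  rcases irr_or_comm h1 h3 with h4 | h4
  · rcases deg_two h4 h2 h3 with ⟨B, _, _, hB⟩ | ⟨⟨e⟩⟩ | ⟨⟨e⟩⟩ | ⟨⟨e⟩⟩
    · exact hab B hB
    · exact hz (((Nat.card_congr e.toEquiv).trans card_a4).le.trans (by norm_num))
    · exact hz (((Nat.card_congr e.toEquiv).trans card_s4).le.trans (by norm_num))
    · exact hz ((Nat.card_congr e.toEquiv).trans card_a5).le
  · rw [h2, le_bot_iff, commutator_def, commutator_eq_bot_iff_le_centralizer] at h4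
    have := le_centralizer_iff_isMulCommutative.1 h4
    exact hab ⊤ (by simp)

theorem jobD2 : JobD2.{u} := by
  intro G V _ _ _ _ _ _ p n v₁ v₂ A E _ _ _ k hB hn hF hd hχ
  have := hB.toTwo.nontrivial
  obtain ⟨D⟩ := hF.fd
  have h1 := hF.mul
  rw [hd] at h1
  have hk : 2 ≤ k := by omega
  have hp := hB.ge13 (by omega)
  have h2 := Nat.le_of_dvd hF.pos (D.index_centralizer_dvd hB.prime hF.card)
  have h3 := (card_le _ hχ).trans
    (Nat.mul_le_mul_right _ (Nat.mul_le_mul_left 60 (Nat.mul_le_mul h2 h2)))
  have h4 := hB.toTwo.le_card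
  have h5 := num hp hk
  have h6 := Nat.mul_le_mul_left (60 * (k * k)) hB.lt.le
  rw [h1] at h5
  rw [mul_left_comm] at h6
  omega

end H17.R3D2
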