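/- STD-R (S3323, blueprints/STDR.md): jobs F3 (relations of the short `A₂`) and F5 (glue). -/
import Cfsg.Agent.H65.SRDW
import Cfsg.Agent.S1054

set_option autoImplicit false
set_option linter.unusedSectionVars false

open Subgroup H63.Oc H64.SG H65.SR
open scoped commutatorElement

universe u v

namespace H17.SRF

attribute [-simp] Subgroup.mem_map

variable {K : Type v} [Field K] [Fintype K] [CharP K 2] {T : TF K} {G : Type u} [Group G]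
  [Finite G] {A : AD T G} {t : G}

theorem a2r_of {z : Fin 6 → K → G} {w n : G} (add : ∀ i a b, z i (a + b) = z i a * z i b)
    (hw : ∀ i a, w * z i a * w⁻¹ = z (i + 3) a) (n0 : ∀ a, n * z 0 a * n⁻¹ = z 1 a)
    (n1 : ∀ a, n * z 1 a * n⁻¹ = z 0 a) (n2 : ∀ a, n * z 2 a * n⁻¹ = z 5 a)
    (h01 : ∀ a b, Commute (z 0 a) (z 1 b)) (h12 : ∀ a b, Commute (z 1 a) (z 2 b))
    (h02 : ∀ a b, ⁅z 0 a, z 2 b⁆ = z 1 (a * b)) (h13 : ∀ a b, ⁅z 1 a, z 3 b⁆ = z 2 (a * b)) :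
    A2R z := by
  have w1 : ∀ {i j a b}, Commute (z i a) (z j b) → Commute (z (i + 3) a) (z (j + 3) b) :=
    fun h => by rw [← hw, ← hw]; exact h.conj w
  have w2 : ∀ {i j l a b c}, ⁅z i a, z j b⁆ = z l c → ⁅z (i + 3) a, z (j + 3) b⁆ = z (l + 3) c :=
    fun h => by rw [← hw, ← hw, ← hw, ← h, conjugate_commutatorElement]
  have h50 : ∀ a b, Commute (z 5 a) (z 0 b) := fun a b => by
    rw [← n1, ← n2]; exact (h12 b a).symm.conj n
  have h51 : ∀ a b, ⁅z 5 a, z 1 b⁆ = z 0 (a * b) := fun a b => by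
    have : z 0 (a * b) * z 0 (a * b) = 1 := by
      rw [← add, CharTwo.add_self_eq_zero]
      simpa using (add 0 0 0).symm
    rw [← n0, ← n2, ← conjugate_commutatorElement, ← commutatorElement_inv, h02, ← conj_inv, n1,
      mul_comm b, inv_eq_of_mul_eq_one_right this]
  refine ⟨add, fun i a b => ?_, fun i a b => ?_⟩ <;> fin_cases i
  exacts [h01 a b, h12 a b, w1 (h50 a b), w1 (h01 a b), w1 (h12 a b), h50 a b,
    h02 a b, h13 a b, w2 (h51 a b), w2 (h02 a b), w2 (h13 a b), h51 a b]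

variable {P : Par A t (K × K)} {π : G → K × K} {ys : K → G} {k k' n g : G} {c : G → G}
  {w w' v v' : K × K}

theorem eq_zero {r : K × K} (h : w * r = r) (h1 : w.1 ≠ 1) (h2 : w.2 ≠ 1) : r = 0 :=
  Prod.ext (by simpa [h1] using mul_left_eq_self₀.1 (congrArg Prod.fst h))
    (by simpa [h2] using mul_left_eq_self₀.1 (congrArg Prod.snd h))

theorem killB (h : DB P k c w) (hc : ∀ g, c g = n * g * n⁻¹) (h1 : w.1 ≠ 1) (h2 : w.2 ≠ 1)
    (hg : g ∈ cjs n (B5 A t)) (e : k * g * k⁻¹ = g) : g = 1 := by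
  obtain ⟨y, hy, rfl⟩ := mem_cjs'.1 hg
  obtain ⟨r, rfl⟩ := (P.b_mem _).1 hy
  rw [← hc, h, hc, hc, mul_left_inj, mul_right_inj] at e
  simp [eq_zero (P.b_inj e) h1 h2, P.b_zero]

theorem killU (rp : RP P π) (h : DU P π k c w v) (h' : DU P π k' c w' v')
    (hc : ∀ g, c g = n * g * n⁻¹) (h1 : w.1 ≠ 1) (h2 : w.2 ≠ 1) (h3 : v'.1 ≠ 1) (h4 : v'.2 ≠ 1)
    (hg : g ∈ cjs n (U4s A t)) (e : k * g * k⁻¹ = g) (e' : k' * g * k'⁻¹ = g) : g = 1 := by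
  obtain ⟨y, hy, rfl⟩ := mem_cjs'.1 hg
  obtain ⟨y', -, e1, e2⟩ := h.2 y hy
  rw [← hc, e1, hc, hc, mul_left_inj, mul_right_inj] at e
  obtain ⟨r, rfl⟩ := (P.a_mem _).1 ((rp.ker y hy).1 (eq_zero (e ▸ e2).symm h1 h2))
  rw [← hc, h'.1, hc, hc, mul_left_inj, mul_right_inj] at e'
  simp [eq_zero (P.a_inj e') h3 h4, P.a_zero]

/-- the unit `(x, y)` -/
def un (x y : Kˣ) : (K × K)ˣ := ⟨(x, y), (x⁻¹, y⁻¹), by ext <;> simp, by ext <;> simp⟩

theorem disj (ht : Inv2 t) {X X' : Subgroup (Co T)} {Y Y' : Subgroup G} (f : Fr t (A.im X) Y)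
    (f' : Fr t (A.im X') Y') (hX : ∀ c ∈ X, c ∈ X' → c = 1) (h : g ∈ Y) (h' : g ∈ Y') : g = 1 := by
  refine mem_bot.1 (triv_of (Y := Y ⊓ Y') ht f.two.to_inf_left (ns_inf f.tY f'.tY)
    (fun y hy hc => ?_) ▸ mem_inf.2 ⟨h, h'⟩)
  obtain ⟨c, hc1, rfl⟩ := f.mem hy.1 hc
  rw [hX c hc1 ((ι_mem_im A).1 (f'.mem hy.2 hc)), map_one]

theorem gen (h : H8 P true π) {D : Subgroup G} {s : K} (hs : s ≠ 1) {a : K × K}
    (ha : a = (1, s) ∨ a = (s, 1)) (hD : D ≤ Cs A.h.range) (hk : k ∈ D) (hk' : k' ∈ D)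
    (d : Dg P true π k 1 (1, s)) (d' : Dg P true π k' a 1) (g1 : g ∈ I27 A t) (g2 : g ∈ Cs D) :
    ∃ y ∈ U4s A t, g = c2 A y := by
  have s1 : T.σ s ≠ 1 := fun e => hs (sig_inj T (by rw [e, map_one]))
  suffices I27 A t ⊓ Cs D ≤ U2s A t by
    obtain ⟨y, hy, e⟩ := mem_cjs'.1 ((U2s_eq (A := A) (t := t)).le (this ⟨g1, g2⟩))
    exact ⟨y, hy, e.trans (cj_c2 y).symm⟩
  refine (h.su.hgen _ (inf_le_left.trans (h.I27_Qs.trans h.Qs_Us)) fun k hk =>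
    ns_inf (h.H27 hk) (ns_cs (cs_le_ns (cs_symm hD hk)))).trans (iSup_le fun i g hg => ?_)
  obtain ⟨⟨g1, g2⟩, g3⟩ := hg
  have e := cj_eq_of_cs' g2 hk
  have e' := cj_eq_of_cs' g2 hk'
  have o : g = 1 → g ∈ U2s A t := fun e => e ▸ one_mem _
  rcases i with _ | _ | _ | _ | _ | _ | _ | _ | i
  · exact o (h.U8s_Qs g3 g1.1)
  · exact o (disj h.cf.inv h.fr27 h.frB1 (fun c h1 h2 => by ext <;> simp_all) g1 g3)
  · exact g3
  · exact o (killB d.d3 c3_eq (by simpa [wt, th_true]) (by simpa [wt, th_true, CharTwo.neg_eq]) g3 e)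
  · refine o (killU h.rp d.d4 d'.d4 cj_id (by simpa [wt, th_true]) (by simpa [wt, th_true]) ?_ ?_
      ((cjs_one _).ge g3) e e') <;> rcases ha with rfl | rfl <;>
      simpa [wt, th_true, T.sq, CharTwo.neg_eq]
  · exact o (killB d.d5 cj_id (by simpa [wt, th_true, CharTwo.neg_eq])
      (by simpa [wt, th_true, CharTwo.neg_eq]) ((cjs_one _).ge g3) e)
  · refine o (killU h.rp d.d6 d'.d6 c6_eq (by simpa [wt, th_true]) (by simpa [wt, th_true]) ?_ ?_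
      g3 e e') <;> rcases ha with rfl | rfl <;> simpa [wt, th_true, T.sq]
  · exact o (killB d.d7 cj_c7 (by simpa [wt, th_true]) (by simpa [wt, th_true, CharTwo.neg_eq])
      (B7_eq.le g3) e)
  · exact o (h.U8s_Qs g3 g1.1)

theorem mem_cs_cl {S : Set G} (hS : ∀ k ∈ S, k * g * k⁻¹ = g) : g ∈ Cs (Subgroup.closure S) :=
  mem_Cs.2 fun _ hk => mem_Cz.1 ((closure_le (Cz g)).2
    (fun k hk => mem_Cz.2 (mul_inv_eq_iff_eq_mul.1 (hS k hk))) hk)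

theorem c8_mul (a b : G) : c8 A (a * b) = c8 A a * c8 A b := by
  simp only [c8_eq, c3_mul, c6_mul]

theorem jobF3 : JobF3.{u, v} := by
  intro _ K _ _ _ T G _ _ A t P π ys h sy
  obtain ⟨s, hs⟩ := exists_s (T := T) h.cf.card
  have s0 : s ≠ 0 := by rintro rfl; simp at hs
  have s1 : s ≠ 1 := by rintro rfl; simp at hs
  obtain ⟨k, d⟩ := h.tor (un 1 1) (un 1 (Units.mk0 s s0))
  obtain ⟨k₁, d₁⟩ := h.tor (un 1 (Units.mk0 s s0)) (un 1 1)
  obtain ⟨k₂, d₂⟩ := h.tor (un (Units.mk0 s s0) 1) (un 1 1)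
  have r2 : ∀ y ∈ U4s A t, ∀ r, c2 A y * P.b r * (c2 A y)⁻¹ = P.b r * P.a (π y * r) :=
    fun y hy r => by
      have : c2 A y * c3 A (c3 A (P.b r)) * (c2 A y)⁻¹ = c3 A (c3 A (P.b r) * P.a (π y * r)) :=
        cj_inv2 A.n8_sq (h.rp.R3 y hy r)
      rwa [c3_mul, c3_c3, h.c3_A4 (P.ma _)] at this
  have r8 : ∀ y ∈ U4s A t, ∀ r, c8 A y * P.b r * (c8 A y)⁻¹ = P.b r * c6 A (P.a (π y * r)) :=
    fun y hy r => by
      have : c8 A y * c6 A (P.b r) * (c8 A y)⁻¹ = c6 A (P.b r * P.a (π y * r)) :=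
        cj_inv2 A.n1_sq (r2 y hy r)
      rwa [c6_mul, h.c6_B5 (P.mb _)] at this
  have nT : A.n1 ∈ Ns (Cs (T2 P true π)) := ns_cs (mem_ns_of fun g hg =>
    (closure_le ((T2 P true π).comap (MulAut.conj A.n1).toMonoidHom)).2 (by
      rintro k ⟨a, b, d, e1, e2⟩
      change A.n1 * k * A.n1⁻¹ ∈ T2 P true π
      rw [n1_inv]
      refine Subgroup.subset_closure ⟨_, _, h.dw.n1 d, ?_, by simp [e1, e2]⟩
      simpa only [Prod.fst_mul, e1, one_mul, Prod.fst_one] using congrArg Prod.fst a.mul_inv) hg)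
  have t8 : ∀ x, c8 A (ys x) ∈ Cs (T2 P true π) := fun x => mem_cs_cl (by
    rintro k ⟨a, b, d, -, e⟩
    rw [sy.tor d, e, one_mul])
  have key : ∀ g ∈ I27 A t, g ∈ Cs (T2 P true π) → ∃ y ∈ U4s A t, g = c2 A y := fun g =>
    gen h.toH8 s1 (.inl rfl) ((closure_le _).2 (by rintro k ⟨a, b, d, -⟩; exact d.1.cH))
      (Subgroup.subset_closure ⟨_, _, d, rfl, rfl⟩) (Subgroup.subset_closure ⟨_, _, d₁, rfl, rfl⟩)
      d.1 d₁.1
  have ww : ∀ g, w0 A * (w0 A * g * (w0 A)⁻¹) * (w0 A)⁻¹ = g := fun g => by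
    rw [← cj_cj, h.dw.wf.sq, one_mul, inv_one, mul_one]
  refine ⟨a2r_of (w := w0 A) (n := A.n1) (fun i a b => ?_) (fun i a => ?_)
    (fun a => (c6_eq _).symm.trans (c6_c6 _)) (fun a => (c6_eq _).symm) (fun a => (c6_eq _).symm)
    (fun a b => ?_) (fun a b => ?_) (fun a b => ?_) fun a b => ?_, fun x y => ?_⟩
  · have e := P.b_add (a, 0) (b, 0)
    rw [Prod.mk_add_mk, add_zero] at e
    have e8 := (congrArg (c8 A) (sy.add a b)).trans (c8_mul _ _)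
    have e1 := (congrArg (c1 A) e).trans (c1_mul _ _)
    have e0 := (congrArg (c3 A) e8).trans (c3_mul _ _)
    fin_cases i
    exacts [e8, (congrArg (c2 A) (sy.add a b)).trans (c2_mul _ _), e1, e0,
      (congrArg (c6 A) e0).trans (c6_mul _ _), (congrArg (c6 A) e1).trans (c6_mul _ _)]
  · have e0 := h.dw.wf.c0 _ (sy.mem a)
    have e1 := h.dw.wf.c10 _ (sy.mem a)
    have e2 := h.dw.wf.c9 _ (P.mb (a, 0))
    fin_cases i
    exacts [e0, e1, e2, (congrArg (w0 A * · * (w0 A)⁻¹) e0.symm).trans (ww _),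
      (congrArg (w0 A * · * (w0 A)⁻¹) e1.symm).trans (ww _),
      (congrArg (w0 A * · * (w0 A)⁻¹) e2.symm).trans (ww _)]
  · change Commute (c8 A (ys a)) (c2 A (ys b))
    have m := (h.c82 (c8_mem8 (sy.mem a))).2 _ (c2_mem2 (sy.mem b))
    obtain ⟨y, hy, e⟩ := key _ (h.I37_I27 m) (comm_mem_left (le_normalizer (t8 a))
      (c6_c6 (A := A) (c2 A (ys b)) ▸ ns1 A nT (t8 b)))
    exact commutatorElement_eq_one_iff_commute.1 (disj h.cf.inv h.fr37 h.fr2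
      (fun c h1 h2 => by ext <;> simp_all) m (e ▸ c2_mem2 hy))
  · change Commute (c2 A (ys a)) (c1 A (P.b (b, 0)))
    rw [cj_c2, c1_eq, ← c2_eq, cj_c2]
    exact Commute.conj (mem_Cs.1 (h.U4s_cV (sy.mem a)) _ (h.le3 (P.mb3 _))).symm _
  · change ⁅c8 A (ys a), c1 A (P.b (b, 0))⁆ = c2 A (ys (a * b))
    have m : ⁅c8 A (ys a), c1 A (P.b (b, 0))⁆ ∈ Cs (T2 P true π) :=
      comm_mem_left (le_normalizer (t8 a)) (mem_cs_cl (by
        rintro k ⟨a, b, d, e, -⟩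
        rw [d.1.d1]
        simp [wt, Prod.mul_def, e]))
    obtain ⟨y, hy, e⟩ := key _ ((h.c81 (c8_mem8 (sy.mem a))).2 _ (P.mb1 _)) m
    obtain ⟨x, rfl⟩ := sy.chr y hy (ns1 A nT (e ▸ m))
    have m8 := c8_mem8 (sy.mem a)
    have a6 := cj_eq_of_cs (h.U8s_c6 m8) (P.ma6 (a, 0))
    have sq := h.db6.sq1 (P.ma6 (a, 0))
    have c5 := h.sl.c5 (mem_sup_left (P.mb1 (b, 0)))
    have e1 := r8 _ (sy.mem a) 1
    have e2 := r2 _ hy 1
    rw [sy.pi, mul_one] at e1 e2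
    have e3 : (c8 A (ys a))⁻¹ * P.b 1 * (c8 A (ys a))⁻¹⁻¹ = P.b 1 * c6 A (P.a (a, 0)) := by
      rw [mul_inv_eq_iff_eq_mul, inv_mul_eq_iff_eq_mul, ← mul_assoc, ← conj_mul, e1, a6, mul_assoc,
        sq, mul_one]
    rw [← e, commutatorElement_def, cj_cj, cj_cj, cj_cj, cj_eq_of_cs (inv_mem c5) (P.mb 1), e3,
      ← conj_mul (b := c1 A _), cj_eq_of_cs c5 (P.mb 1), P.R1, ← conj_mul, ← conj_mul, e1, a6,
      cj_eq_of_cs (h.U8s_c4 m8) (P.ma _), mul_assoc, ← mul_assoc (c6 A _), sq, one_mul,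
      mul_right_inj] at e2
    rw [e, mul_comm a]
    exact congrArg (fun x => c2 A (ys x)) (congrArg Prod.fst (P.a_inj e2)).symm
  · change ⁅c2 A (ys a), c0 A (ys b)⁆ = c1 A (P.b (a * b, 0))
    have := congrArg (c1 A) (h.rp.b46 _ (sy.mem a) _ (sy.mem b))
    rwa [sy.pi, sy.pi, Prod.mk_mul_mk, mul_zero, c1_eq, c3_comm, c6_comm, c3_comm,
      h.c3_U4s (sy.mem a)] at this
  · let D := Subgroup.closure {k | ∃ a b : (K × K)ˣ, Dg2 P true π k a b ∧ (a : K × K).2 = 1 ∧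
      (b : K × K).1 = 1}
    have m : k ∈ D := Subgroup.subset_closure ⟨_, _, d, rfl, rfl⟩
    have m₂ : k₂ ∈ D := Subgroup.subset_closure ⟨_, _, d₂, rfl, rfl⟩
    have hc : ⁅c8 A (ys y), c1 A (P.b (0, x))⁆ ∈ Cs D :=
      comm_mem_left (le_normalizer (mem_cs_cl (by
        rintro k ⟨a, b, d, -, e⟩
        rw [sy.tor d, e, one_mul]))) (mem_cs_cl (by
        rintro k ⟨a, b, d, e, -⟩
        rw [d.1.d1]
        simp [wt, Prod.mul_def, e]))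
    obtain ⟨z, hz, e1⟩ := gen (D := D) h.toH8 s1 (.inr rfl)
      ((closure_le _).2 (by rintro k ⟨a, b, d, -⟩; exact d.1.cH)) m m₂ d.1 d₂.1
      ((h.c81 (c8_mem8 (sy.mem y))).2 _ (P.mb1 _)) hc
    have e := cj_eq_of_cs' hc (mul_mem m m₂)
    have d₃ := (h.dw.mul d d₂).1.d2
    have := mt (nu_eq_one (T := T)) s1
    exact (commutatorElement_eq_one_iff_commute.1 (killU h.rp d₃ d₃ cj_c2 (by simpa [wt, un])
      (by simpa [wt, un]) (by simpa [wt, un, th_true]) (by simpa [wt, un, th_true])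
      (U2s_eq.le (e1 ▸ c2_mem2 hz)) e e)).symm

theorem jobF5 : JobF5.{u, v} := by
  intro ct _ K _ _ _ T G _ _ A t P π ys h sy hC h20
  have ht := h.cf.inv
  have tt : ∀ g, t * (t * g * t) * t = g := fun g => by
    rw [← mul_assoc, ← mul_assoc, ht.1, one_mul, mul_assoc, ht.1, mul_one]
  have ct' : ∀ {a b : G}, Commute a b → Commute (t * a * t) (t * b * t) := fun e => by
    simpa only [H65.SR.Inv2.inv_eq ht] using e.conj t
  have t8 : ∀ g, c8 A (t * g * t) = t * c8 A g * t := fun g => by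
    rw [c8_eq, c8_eq, h.c6_t, h.c3_t, h.c6_t]
  have t1 : ∀ x, t * c1 A (P.b (x, 0)) * t = c1 A (P.b (0, x)) := fun x => by
    rw [← h.c1_t, P.t_b, h.sp.bar]; rfl
  have t9 : ∀ x, t * c9 A (P.b (x, 0)) * t = c9 A (P.b (0, x)) := fun x => by
    rw [c9_eq, c9_eq, ← t1, h.c6_t]
  have wf := h.dw.wf
  have h29 : ∀ x y, Commute (c9 A (P.b (0, x))) (c8 A (ys y)) := fun x y => by
    rw [c9_eq, c6_eq, c1_eq, ← c2_eq, cj_c2, ← cj_cj, cj_c8]
    exact Commute.conj (mem_Cs.1 (h.U4s_cV (sy.mem y)) _ (h.le3 (P.mb3 _))) _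
  have h22 : ∀ r s, Commute (c1 A (P.b r)) (c1 A (P.b s)) := fun r s => by
    rw [Commute, SemiconjBy, ← c1_mul, ← c1_mul, ← P.b_add, ← P.b_add, add_comm]
  have w9 : ∀ r, w0 A * c9 A (P.b r) * (w0 A)⁻¹ = c1 A (P.b r) := fun r => by
    rw [← wf.c9 _ (P.mb r), ← cj_cj, wf.sq, one_mul, inv_one, mul_one]
  have hc : ∀ i ∈ ({2, 5} : Set (Fin 6)), ∀ j ∈ ({0, 2, 3, 5} : Set (Fin 6)), ∀ x y,
      Commute (t * zC P ys i x * t) (zC P ys j y) := by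
    have e19 : ∀ x y, Commute (c1 A (P.b (0, x))) (c9 A (P.b (y, 0))) := fun x y => by
      rw [← t1, ← tt (c9 A _), t9]; exact ct' (h.rp.c19 x y)
    rintro _ (rfl | rfl) _ (rfl | rfl | rfl | rfl) x y
    all_goals
      have e1 := (h29 x y).conj (w0 A)
      have e2 := (h20 x y).conj (w0 A)
      have e3 := (h22 (0, x) (y, 0)).conj (w0 A)
      simp only [w9, wf.c0 _ (sy.mem y), wf.c9 _ (P.mb _)] at e1 e2 e3
    exacts [t1 x ▸ h20 x y, t1 x ▸ h22 _ _, t1 x ▸ e1, t1 x ▸ e19 x y, t9 x ▸ h29 x y,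
      t9 x ▸ (h.rp.c19 y x).symm, t9 x ▸ e2, t9 x ▸ e3]
  obtain ⟨e⟩ := ct K T G (fun i x => t * zC P ys i x * t) (zC P ys) (zB P ys) h.cf.card
    ⟨fun i a b => by rw [hC.add, cj_mul2 _ ht.1], fun i a b => ct' (hC.c1 i a b),
      fun i a b => by rw [← cj_comm2 ht.1, hC.c2]⟩ hC sy.b2 (funext fun x => (t8 _).symm)
    (funext fun x => ((congrArg (c3 A) (t8 _)).trans (h.c3_t _)).symm) rfl rfl
    (fun i hi j hj x y => ⟨hc i hi j hj x y, by simpa only [tt] using ct' (hc i hi j hj x y)⟩)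
    fun e => by
      have : t * ys 1 * t = 1 := c6_inj (c3_inj (c6_inj (e.trans (by rw [c6_one, c3_one, c6_one]))))
      have e1 := h.rp.pit _ (sy.mem 1)
      rw [this, (h.rp.ker 1 (one_mem _)).2 (one_mem _), sy.pi] at e1
      simpa using congrArg Prod.snd e1
  set G₀ := Subgroup.closure {g | (∃ i x, g = t * zC P ys i x * t) ∨ (∃ i x, g = zC P ys i x) ∨
    ∃ i x, g = zB P ys i x}
  have mA : ∀ i x, t * zC P ys i x * t ∈ G₀ := fun i x => Subgroup.subset_closure (.inl ⟨i, x, rfl⟩)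
  have mC : ∀ i x, zC P ys i x ∈ G₀ := fun i x => Subgroup.subset_closure (.inr (.inl ⟨i, x, rfl⟩))
  have mB : ∀ i x, zB P ys i x ∈ G₀ := fun i x => Subgroup.subset_closure (.inr (.inr ⟨i, x, rfl⟩))
  have sp : ∀ r : K × K, r = (r.1, 0) + (0, r.2) := fun r => by simp
  have m1 : ∀ g ∈ B1 A t, g ∈ G₀ ∧ c6 A g ∈ G₀ := fun g hg => by
    obtain ⟨r, e⟩ := (P.b_mem _).1 (mem_B1.1 hg)
    rw [← c1_c1 (A := A) g, e, sp r, P.b_add, c1_mul, c6_mul, ← c9_eq, ← c9_eq, ← t1, ← t9]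
    exact ⟨mul_mem (mC 2 _) (mA 2 _), mul_mem (mC 5 _) (mA 5 _)⟩
  have m8 : ∀ g ∈ U8s A t, g ∈ G₀ ∧ c3 A g ∈ G₀ := fun g hg => by
    obtain ⟨y, hy, rfl⟩ := mem_cjs'.1 (U8s_eq.le hg)
    have m := t_mem ht h.fr4.tY (sy.mem (π y).2)
    obtain ⟨r, e⟩ := (P.a_mem _).1 (h.rp.eq (mul_mem (sy.mem (π y).1) m) hy (by
      rw [h.rp.mul _ (sy.mem _) _ m, h.rp.pit _ (sy.mem _), sy.pi, sy.pi]; simp))
    rw [← cj_c8, mul_inv_eq_iff_eq_mul.1 e, sp r, P.a_add, c8_mul, c8_mul, c8_mul, c3_mul, c3_mul,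
      c3_mul]
    exact ⟨mul_mem (mul_mem (mB 1 _) (mB 2 _)) (mul_mem (mB 3 _) (mB 0 _)),
      mul_mem (mul_mem (mB 5 _) (mB 6 _)) (mul_mem (mB 7 _) (mB 4 _))⟩
  have le : A.G0 ≤ G₀ := by
    rw [h.la.genL]
    refine sup_le (sup_le (fun g hg => (m1 g (h.frB1.le hg)).1) fun g hg => ?_)
      (sup_le (fun g hg => (m8 g (h.fr8.le hg)).1) fun g hg => ?_)
    · exact c6_c6 (A := A) g ▸ (m1 _ (h.frB1.le ((mem_cjs1 A).1 hg))).2
    · exact c3_c3 (A := A) g ▸ (m8 _ (h.fr8.le ((mem_cjs8 A).1 hg))).2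
  refine ⟨G₀, le, fun N hN hn => ?_, .inl ⟨e⟩⟩
  have := (Cfsg.Agent.S1054.result (F := K) Cfsg.Lie.chevF4 (by simp)).1
  have := e.isSimpleGroup
  refine subgroupOf_eq_top.1 (((normal_subgroupOf_of_le_normalizer hn).eq_bot_or_eq_top).resolve_left
    fun e => ?_)
  have : (⟨_, le (ι_mem A (x4 T 1))⟩ : G₀) ∈ N.subgroupOf G₀ := hN (ι_mem A _)
  rw [e, mem_bot] at this
  simpa using congrArg Co.a4 ((ι_eq_one A).1 (congrArg Subtype.val this))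

end H17.SRF
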