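/- STD-R (S3323, blueprints/STDR.md): job LA, facts on `L`. -/
import Cfsg.Agent.H65.SRAux
import Cfsg.Agent.H78.ParId
import Cfsg.Agent.H14.OcBC
import Cfsg.Agent.H19.ParTYB
import Cfsg.Agent.H55.OcC
import Cfsg.Agent.H67.OcRig
import Cfsg.Agent.H2.PrimeCore

set_option autoImplicit false
set_option linter.unusedSectionVars false

open Subgroup H63.Oc H64.SG H65.SR
open scoped commutatorElement

universe u v

namespace H17.SRL

theorem exists_cfix {G : Type*} [Group G] [Finite G] {N Z : Subgroup G} (hN : IsPGroup 2 N)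
    (hd : 2 ∣ Nat.card Z) (hn : N ≤ Ns Z) : ∃ z ∈ Z, z ≠ 1 ∧ N ≤ Cz z := by
  let _ : MulAction N Z :=
    { smul := fun g x => ⟨g * x * (g : G)⁻¹, cj_mem (hn g.2) x.2⟩
      one_smul := fun x => Subtype.ext (by change ((1 : N) : G) * x * _ = _; simp)
      mul_smul := fun g h x => Subtype.ext (by
        change ((g * h : N) : G) * x * _ = (g : G) * (h * x * (h : G)⁻¹) * (g : G)⁻¹
        simp [mul_assoc]) }
  obtain ⟨b, hb, hb1⟩ := hN.exists_fixed_point_of_prime_dvd_card_of_fixed_point Z hd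
    (a := (1 : Z)) (fun g => Subtype.ext (by
      change (g : G) * ((1 : Z) : G) * (g : G)⁻¹ = ((1 : Z) : G); simp))
  exact ⟨b, b.2, fun e => hb1 (Subtype.ext e.symm), fun g hg =>
    mem_Cz.2 (mul_inv_eq_iff_eq_mul.1 (congrArg Subtype.val (hb ⟨g, hg⟩)))⟩

theorem eq_of_ns {G : Type*} [Group G] [Finite G] {P Q : Subgroup G} (hP : IsPGroup 2 P)
    (h : Q ≤ P) (hn : P ⊓ Ns Q ≤ Q) : P = Q := by
  have := hP.isNilpotent
  by_contra hne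
  obtain ⟨⟨w, hwP⟩, hw, hw0⟩ := SetLike.exists_of_lt
    (Group.normalizerCondition_of_isNilpotent (G := P) (Q.subgroupOf P)
      (lt_top_iff_ne_top.2 fun e => hne (le_antisymm (subgroupOf_eq_top.1 e) h)))
  exact hw0 (hn ⟨hwP, mem_ns_of fun y hy => (mem_normalizer_iff.1 hw ⟨y, h hy⟩).1 hy⟩)

variable {K : Type v} [Field K] [Fintype K] [CharP K 2] {T : TF K} {G : Type u} [Group G]
  [Finite G] {A : AD T G}

theorem cl4 (A : AD T G) {a : K} (ha : a ≠ 0) :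
    ∃ p, A.h p * A.ι (x4 T a) * (A.h p)⁻¹ = A.ι (x4 T 1) := by
  refine ⟨((Units.mk0 a ha)⁻¹ ^ 2, Units.mk0 a ha), ?_⟩
  rw [h_x4]
  congr 2
  have := sig_ne (T := T) ha
  simp only [Units.val_pow_eq_pow_val, Units.val_inv_eq_inv_val, Units.val_mk0, map_pow, map_inv₀]
  field_simp

theorem cz1 (A : AD T G) (hb : A.Braid) : ∀ g ∈ A.G0, g ∈ Cz (A.ι (x4 T 1)) → g ∈ A.C :=
  fun g hg h => (H78.Par.jobId.{u, v, u} H14.Oc.jobEq K T G A (H14.Oc.jobBC K T G _) hb).1 g hg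
    (mem_Cz.1 h)

theorem n45 (bs : Bs A) : ∀ g ∈ A.G0, g * A.ι (x4 T 1) * g⁻¹ ≠ A.ι (x5 T 1) := by
  intro g hg e
  let A' := mapAD A A.G0 le_rfl (MonoidHom.id _) fun c h => (ι_eq_one A).1 (congrArg Subtype.val h)
  have bc := H14.Oc.jobBC K T _ A'.toCS
  have h0 : A'.G0 = ⊤ := by rw [mapAD_G0, subgroupOf_self, map_id]
  have hc : Cz A'.τ = A'.C := le_antisymm
    (fun x hx => cz1 A' (mapAD_braid _ _ _ _ _ bs.braid) x (h0 ▸ mem_top x) hx)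
    fun x hx => mem_Cz.2 (bc.cenZ x hx 1)
  refine (H55.Oc.fu_of bc (H19.ParTY.jobTY K T _ _ bc) ⟨fun x hx => le_normalizer
    (hc ▸ mem_Cz.2 hx), ?_, ?_⟩).n5 (isConj_iff.2 ⟨⟨g, hg⟩, Subtype.ext e⟩)
  · obtain ⟨P⟩ : Nonempty (Sylow 2 A.G0) := inferInstance
    obtain ⟨k, hk, h⟩ := bs.syl ((P : Subgroup A.G0).map A.G0.subtype) (map_subtype_le _)
      (P.isPGroup'.map _)
    have : cjs ⟨k, hk⟩ (P : Subgroup A.G0) ≤ A'.C := by
      rintro _ ⟨x, hx, rfl⟩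
      obtain ⟨c, hc⟩ := h x ⟨x, hx, rfl⟩
      convert A'.ι_mem c using 1
      exact Subtype.ext hc.symm
    refine Odd.of_dvd_nat ?_ (index_dvd_of_le this)
    rw [index_map_of_bijective (MulAut.conj _).bijective]
    exact Nat.odd_iff.2 (Nat.two_dvd_ne_zero.1 P.not_dvd_index)
  · let N := (Cfsg.oddCore (Cz A'.τ)).map (Cz A'.τ).subtype
    have o : ∀ x ∈ N, x ∈ A'.S → x = 1 := fun x hx hS =>
      eq_one_of_odd (is2_of_mem H55.Oc.pgroup_S hS) (((H2.odd_card_oddCore _).of_dvd_nat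
        (card_map_dvd _ _)).of_dvd_nat (orderOf_dvd_natCard _ hx))
    have hZ : N ≤ A'.im (sZ T) := by
      by_contra hn
      have := o _ (bc.nsub N (hc ▸ map_subtype_le _) (hc ▸ by
        rw [← normal_subgroupOf_iff_le_normalizer (map_subtype_le _), subgroupOf,
          comap_map_eq_self_of_injective (subtype_injective _)]
        infer_instance) hn ⟨x4 T 1, by simp, rfl⟩) ⟨_, rfl⟩
      simpa using congrArg Co.a4 ((ι_eq_one A').1 this)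
    exact (map_eq_bot_iff_of_injective _ (subtype_injective _)).1
      (eq_bot_iff.2 fun x hx => o x hx (im_le_S A' _ (hZ hx)))

theorem o5 (A : AD T G) (g : G) : g ∈ A.im (sT5 T) ⊓ Cs (A.im (sT5 T)) ↔
    ∃ a b, g = A.ι (x4 T a * x5 T b) := by
  constructor
  · rintro ⟨⟨c, ⟨h1, h2⟩, rfl⟩, h⟩
    have h := (ι_mem_cs A).1 h
    have a1 : c.a1 = 0 := by simpa using congrArg Co.a4 (h (x6 T 1) (by simp))
    have a8 : c.a8 = 0 := by simpa [h2] using congrArg Co.a5 (h (x2 T 1) (by simp))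
    have a7 : c.a7 = 0 := by simpa [h2, a8] using congrArg Co.a4 (h (x2 T 1) (by simp))
    have a2 : c.a2 = 0 := by simpa [a1, h1, add_comm] using congrArg Co.a5 (h (x8 T 1) (by simp))
    have a3 : c.a3 = 0 := by
      simpa [a1, h1, h2, a2, add_comm] using congrArg Co.a6 (h (x8 T 1) (by simp))
    have b6 : c.b6 = 0 := by simpa [h2, a8, add_comm] using congrArg Co.a4 (h (x3 T 1) (by simp))
    have b4 : c.b4 = 0 := by simpa [a1, h1, add_comm] using congrArg Co.a6 (h (x7 T 1) (by simp))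
    have a6 : c.a6 = 0 := by
      simpa [h2, a8, a7, b6, b4] using congrArg Co.a4 (h (x1 T 1) (by simp))
    exact ⟨c.a4, c.a5, congrArg A.ι (by ext <;> simp [*])⟩
  · rintro ⟨a, b, rfl⟩
    refine ⟨(ι_mem_im A).2 (by simp), (ι_mem_cs A).2 fun d hd => ?_⟩
    ext <;> simp [hd.1, hd.2, add_comm]

theorem com4 : x6 T 1 * ⁅x6 T 1, x1 T 1⁆ = ⁅x6 T 1, x1 T 1⁆ * x6 T 1 ∧
    x1 T 1 * ⁅x6 T 1, x1 T 1⁆ = ⁅x6 T 1, x1 T 1⁆ * x1 T 1 ∧ x4 T 1 = ⁅x6 T 1, x1 T 1⁆ := by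
  have : ⁅x6 T 1, x1 T 1⁆ = x4 T 1 := by
    rw [commutatorElement_def, mul_inv_eq_iff_eq_mul, mul_inv_eq_iff_eq_mul]
    ext <;> simp
  rw [this]
  refine ⟨?_, ?_, rfl⟩ <;> ext <;> simp

theorem com5 : y6 T 1 * ⁅y6 T 1, y4 T 1⁆ = ⁅y6 T 1, y4 T 1⁆ * y6 T 1 ∧
    y4 T 1 * ⁅y6 T 1, y4 T 1⁆ = ⁅y6 T 1, y4 T 1⁆ * y4 T 1 ∧ x5 T 1 = ⁅y6 T 1, y4 T 1⁆ := by
  have : ⁅y6 T 1, y4 T 1⁆ = x5 T 1 := by
    rw [commutatorElement_def, mul_inv_eq_iff_eq_mul, mul_inv_eq_iff_eq_mul]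
    ext <;> simp
  rw [this]
  refine ⟨?_, ?_, rfl⟩ <;> ext <;> simp

theorem jobLA : JobLA.{u, v} := by
  intro hS kit K _ _ _ T G _ _ A t bs lb
  have bc := lb.bc
  have ty := lb.ty
  have cz : ∀ c : K, c ≠ 0 → A.G0 ⊓ Cz (A.ι (x4 T c)) = A.C := fun c hc => by
    refine le_antisymm (fun g hg => ?_) (le_inf (C_le A) fun g hg => mem_Cz.2 (bc.cenZ g hg c))
    obtain ⟨p, hp⟩ := cl4 A hc
    refine (mem_normalizer_iff.1 (lb.hC ⟨p, rfl⟩) g).2 (cz1 A bs.braid _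
      (mul_mem (mul_mem (h_mem A p) hg.1) (inv_mem (h_mem A p))) (mem_Cz.2 ?_))
    rw [← hp, conj_mul, conj_mul, mem_Cz.1 hg.2]
  have cl5 : ∀ a b : K, b ≠ 0 → ∃ g ∈ A.G0, g * A.ι (x4 T a * x5 T b) * g⁻¹ = A.ι (x5 T 1) :=
    fun a b hb => by
      obtain ⟨s, p, h⟩ := ty.clsA (x4 T a * x5 T b) (by simp) (by simp [hb])
      exact ⟨_, C_le A (mul_mem (A.ι_mem s) (A.h0_mem p)), h⟩
  have cls : ∀ x ∈ A.G0, Inv2 x →
      ∃ g ∈ A.G0, g * x * g⁻¹ = A.ι (x4 T 1) ∨ g * x * g⁻¹ = A.ι (x5 T 1) := by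
    let R : G → Prop := fun x => ∃ g ∈ A.G0, g * x * g⁻¹ = A.ι (x4 T 1) ∨ g * x * g⁻¹ = A.ι (x5 T 1)
    have r : ∀ {x : G}, ∀ g ∈ A.G0, R (g * x * g⁻¹) → R x := fun g hg ⟨k, hk, h⟩ =>
      ⟨k * g, mul_mem hk hg, by simpa only [mul_inv_rev, mul_assoc] using h⟩
    have r1 : ∀ {x : G}, R (A.n1 * x * A.n1) → R x := fun h => r _ (n1_mem A) (by rwa [n1_inv])
    have r8 : ∀ {x : G}, R (A.n8 * x * A.n8) → R x := fun h => r _ (n8_mem A) (by rwa [n8_inv])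
    have r5 : R (A.ι (x5 T 1)) := ⟨1, one_mem _, .inr (by simp)⟩
    have r6 : R (A.ι (x6 T 1)) := r1 (n1_x6 A 1 ▸ ⟨1, one_mem _, .inl (by simp)⟩)
    intro x hx h2
    obtain ⟨g, hg, h⟩ := bs.syl _ (zpowers_le.2 hx) (two_zp h2.1)
    obtain ⟨k, hk, h⟩ := ty.cls _ (S_le_C A (h x (mem_zpowers x))) (by rw [conj_mul, h2.1]; simp)
    refine r g hg (r k (C_le A hk) ?_)
    rcases h with ⟨a, h⟩ | h | h | h | ⟨a, h⟩
    · obtain ⟨p, hp⟩ := cl4 A (a := a) (by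
        rintro rfl
        rw [x4_zero, map_one, conj_eq_one_iff, conj_eq_one_iff] at h
        exact h2.2 h)
      exact h ▸ ⟨_, h_mem A p, .inl hp⟩
    · exact h ▸ r6
    · exact h ▸ r5
    · exact h ▸ r1 (n1_x7 A 1 ▸ r8 (n8_x3 A 1 ▸ r5))
    · have e : A.n1 * A.ι (x4 T a * x8 T 1) * A.n1 = A.ι (x2 T 1 * x6 T a) := by
        rw [A.n1_conj _ (by simp)]; congr 1; ext <;> simp [Co.nu1]
      refine h ▸ r1 (e ▸ ?_)
      by_cases ha : a = 0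
      · rw [ha, x6_zero, mul_one]
        exact r8 (n8_x2 A 1 ▸ r6)
      · obtain ⟨l, hl, e⟩ := ty.cls26 a ha
        exact r l (C_le A hl) (e ▸ r5)
  have cQ : ∀ g ∈ A.G0, g ∈ Cs (A.im (sQ T)) → g ∈ A.im (sZ T) := fun g hg h =>
    bc.cenQ g (cz1 A bs.braid g hg (mem_Cz.2 (mem_Cs.1 h _ ((ι_mem_im A).2 (by simp))).symm))
      fun c hc => (mem_Cs.1 h _ ((ι_mem_im A).2 hc)).symm
  have zU : A.G0 ⊓ Cs A.S = A.im (sZ T) :=
    le_antisymm (fun g hg => cQ g hg.1 (cs_anti (im_le_S A _) hg.2))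
      (le_inf (im_le A _) (cs_symm ((S_le_C A).trans lb.CZ)))
  refine { lb with
    rig := (H67.Oc.jobRig K T G _ bc ty).1
    cz := cz
    cls := cls
    n45 := n45 bs
    cl4 := fun a => cl4 A
    cl5 := cl5
    com := fun x hx h2 => ?_
    syl5 := fun P hP h1 h2 => eq_of_ns hP h1 ?_
    o5 := o5 A
    zU := zU
    cen := eq_bot_iff.2 fun g hg => ?_
    rigL := fun g hg ho hQ => ?_
    semi := hS kit K T G A t bs.card lb }
  · obtain ⟨g, hg, a, b, h1, h3, e⟩ : ∃ g ∈ A.G0, ∃ a b : Co T, a * ⁅a, b⁆ = ⁅a, b⁆ * a ∧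
        b * ⁅a, b⁆ = ⁅a, b⁆ * b ∧ g * x * g⁻¹ = A.ι ⁅a, b⁆ := by
      obtain ⟨g, hg, h | h⟩ := cls x hx h2
      · exact ⟨g, hg, _, _, com4.1, com4.2.1, h.trans (congrArg _ com4.2.2)⟩
      · exact ⟨g, hg, _, _, com5.1, com5.2.1, h.trans (congrArg _ com5.2.2)⟩
    obtain rfl : x = g⁻¹ * A.ι ⁅a, b⁆ * g⁻¹⁻¹ := by rw [← e]; group
    have m : ∀ c, g⁻¹ * A.ι c * g⁻¹⁻¹ ∈ A.G0 := fun c =>
      mul_mem (mul_mem (inv_mem hg) (ι_mem A c)) (inv_mem (inv_mem hg))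
    refine ⟨_, m a, _, m b, mem_Cz.2 ?_, mem_Cz.2 ?_,
      (lb.twoU.map (MulAut.conj g⁻¹).toMonoidHom).to_le ((closure_le _).2 ?_), ?_⟩
    · rw [conj_mul, conj_mul, ← map_mul, ← map_mul, h1]
    · rw [conj_mul, conj_mul, ← map_mul, ← map_mul, h3]
    · rintro _ (rfl | rfl) <;> exact cj_mem_cjs ⟨_, rfl⟩
    · rw [← ι_comm, conjugate_commutatorElement]
  · have nz : P ⊓ Ns (A.im (sT5 T)) ≤ Ns (A.im (sZ T)) := fun g hg => mem_ns_of (by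
      rintro _ ⟨c, hc, rfl⟩
      obtain ⟨a, rfl⟩ : ∃ a, c = x4 T a := ⟨_, eq_x4 hc⟩
      obtain ⟨a', b, e⟩ := (o5 A _).1 (cj_mem (ns_inf hg.2 (ns_cs hg.2))
        ((o5 A _).2 ⟨a, 0, by rw [x5_zero, mul_one]⟩))
      by_cases hb : b = 0
      · rw [e, hb]
        exact (ι_mem_im A).2 (by simp)
      by_cases ha : a = 0
      · simp [ha, x4_zero]
      obtain ⟨k, hk, e1⟩ := cl5 a' b hb
      obtain ⟨p, e2⟩ := cl4 A ha
      refine absurd ?_ (n45 bs (k * g * (A.h p)⁻¹)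
        (mul_mem (mul_mem hk (h2 hg.1).1) (inv_mem (h_mem A p))))
      rw [← e1, ← e, ← e2]
      group)
    obtain ⟨_, ⟨c, hc, rfl⟩, c1, h⟩ := exists_cfix hP.to_inf_left (by
      obtain ⟨m, -, hm, -⟩ := bs.iso
      rw [lb.cardZ, hm]
      exact dvd_pow_self 2 (by omega)) nz
    obtain ⟨a, rfl⟩ : ∃ a, c = x4 T a := ⟨_, eq_x4 hc⟩
    have ha : a ≠ 0 := by
      rintro rfl
      exact c1 (map_one _)
    exact fun g hg => (ty.c5 g (cz a ha ▸ mem_inf.2 ⟨(h2 hg.1).1, h hg⟩)).1 (mem_Cz.1 (h2 hg.1).2)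
  · obtain ⟨c, hc, rfl⟩ : g ∈ A.im (sZ T) := zU ▸ mem_inf.2 ⟨hg.1, cs_anti (S_le A) hg.2⟩
    obtain ⟨a, rfl⟩ : ∃ a, c = x4 T a := ⟨_, eq_x4 hc⟩
    have := n1_x4 A a
    rw [mem_Cs.1 hg.2 _ (n1_mem A), mul_assoc, A.n1_sq, mul_one, ι_inj] at this
    rw [show a = 0 from congrArg Co.a4 this]
    exact map_one A.ι
  · have key : ∀ {X : Subgroup G} {y : G}, g ∈ Cs X → y ∈ A.G0 → y ∈ Ns X →
        ⁅g, y⁆ ∈ A.G0 ∧ ⁅g, y⁆ ∈ Cs X := fun h1 h2 h3 =>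
      ⟨comm_mem_left hg h2, comm_mem_right (ns_cs h3) h1⟩
    have c1 : g ∈ Cs A.C := kit.stab (lb.two_im (sZ T)) ho
      (cs_anti (im_mono A fun c hc => by simp_all) hQ) fun y hy =>
        have := key hQ (C_le A hy) (lb.CN (by simp) hy)
        cQ _ this.1 this.2
    have c2 : g ∈ Cs (A.G0 ⊓ Ns (A.im (sQ1 T))) := kit.stab (lb.two_im (sQ1 T)) ho
      (cs_anti (im_le_C A _) c1) fun y hy =>
        have := key (cs_anti (im_le_C A (sQ1 T)) c1) hy.1 hy.2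
        (ty.c6 _ (cz1 A bs.braid _ this.1 (mem_Cz.2 (mem_Cs.1 this.2 _
          ((ι_mem_im A).2 (by simp))).symm))).1 (mem_Cs.1 this.2 _ ((ι_mem_im A).2 (by simp))).symm
    have : A.G0 ≤ Cz g := (closure_le _).2 (by
      rintro _ ((⟨c, rfl⟩ | ⟨p, rfl⟩) | rfl | rfl)
      · exact mem_Cz.2 (mem_Cs.1 c1 _ (A.ι_mem c))
      · exact mem_Cz.2 (mem_Cs.1 c2 _ ⟨h_mem A p, lb.hN _ (by simp) ⟨p, rfl⟩⟩)
      · exact mem_Cz.2 (mem_Cs.1 c2 _ ⟨n1_mem A, ns_of_cjs_eq (cjs1_Q1 A)⟩)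
      · exact mem_Cz.2 (mem_Cs.1 c1 _ A.n8_mem))
    exact mem_Cs.2 fun y hy => mem_Cz.1 (this hy)

end H17.SRL
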