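/- Tower SIM: elements of odd order in `GL₂(2)`. -/
import Cfsg.Agent.H53.SimXASpec

set_option autoImplicit false

namespace H17.SimC22

open Matrix H0.Sim H53.XA

theorem two : ∀ m m' : Matrix (Fin 2) (Fin 2) (ZMod 2), m.det ≠ 0 → m'.det ≠ 0 → m * m ≠ 1 →
    (m' * m' = 1 → m' = 1) → ∃ a c : ZMod 2, m' = a • (1 : Matrix (Fin 2) (Fin 2) (ZMod 2)) + c • m := by
  intro m m'
  rw [Matrix.eta_fin_two m, Matrix.eta_fin_two m']
  generalize m 0 0 = a, m 0 1 = b, m 1 0 = c, m 1 1 = d, m' 0 0 = a', m' 0 1 = b', m' 1 0 = c',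
    m' 1 1 = d'
  simp only [Matrix.det_fin_two_of, Matrix.mul_fin_two, Matrix.one_fin_two, ← Matrix.ext_iff, Ne,
    Fin.forall_fin_two, Matrix.add_apply, Matrix.smul_apply, Matrix.of_apply, Matrix.cons_val',
    Matrix.cons_val_zero, Matrix.cons_val_one, Matrix.cons_val_fin_one, smul_eq_mul]
  revert a b c d a' b' c' d'
  decide +kernel

theorem job : C22 := by
  intro F _ _ d d' hF h h' h1
  have : Fact (Nat.Prime 2) := ⟨Nat.prime_two⟩
  let e : ZMod 2 ≃+* F := FiniteField.ringEquivOfCardEq (by rw [ZMod.card, hF])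
  have hc : ringChar F = 2 := by
    have : CharP F 2 := charP_of_injective_ringHom (f := e.toRingHom) e.injective 2
    exact ringChar.eq F 2
  have sq : ∀ x : GL (Fin 2) F, Rp x → (x : Mt 2 F) * x = 1 → x = 1 := fun x hx e1 => by
    have h2 : x ^ 2 = 1 := Units.ext (by rw [pow_two, Units.val_mul, e1, Units.val_one])
    rw [Rp, hc] at hx
    exact orderOf_eq_one_iff.1 (hx.eq_one_of_dvd (orderOf_dvd_of_pow_eq_one h2))
  have dt : ∀ x : GL (Fin 2) F, (e.symm.mapMatrix (x : Mt 2 F)).det ≠ 0 := fun x => by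
    rw [← RingEquiv.map_det, map_ne_zero]
    exact x.det_ne_zero
  obtain ⟨a, c, hac⟩ := two (e.symm.mapMatrix (d : Mt 2 F)) (e.symm.mapMatrix (d' : Mt 2 F))
    (dt d) (dt d') (fun e1 => h1 (sq d h (by rwa [← map_mul, EmbeddingLike.map_eq_one_iff] at e1)))
    (fun e1 => by
      rw [sq d' h' (by rwa [← map_mul, EmbeddingLike.map_eq_one_iff] at e1), Units.val_one, map_one])
  refine ⟨e a, e c, ?_⟩
  ext i j
  have := congrArg e (congrFun (congrFun hac i) j)
  simpa [Matrix.one_apply, apply_ite e] using this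

end H17.SimC22
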