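/- Tower SIM: the divisibility in the linear Singer case. -/
import Cfsg.Agent.H42.SimXBSpec

set_option autoImplicit false

namespace H17.SimNL

open Finset

theorem geom_mod (m n : ℕ) : ∃ k, ∑ i ∈ range n, (m + 1) ^ i = n + k * m := by
  induction n with
  | zero => exact ⟨0, by simp⟩
  | succ n ih =>
    obtain ⟨k, hk⟩ := ih
    refine ⟨k + ∑ i ∈ range n, (m + 1) ^ i, ?_⟩
    rw [sum_range_succ, ← geom_sum_mul_add m n, add_mul]
    omega

theorem core {m p : ℕ} (hp : p.Prime) (hm : 1 ≤ m) (h : ∑ i ∈ range p, (m + 1) ^ i ∣ m ^ 3) :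
    p = 2 ∧ (m = 2 ∨ m = 6) := by
  obtain ⟨k, hk⟩ := geom_mod m p
  have h1 : ∑ i ∈ range p, (m + 1) ^ i ∣ p ^ 3 := by
    have h2 : ∑ i ∈ range p, (m + 1) ^ i ∣ p ^ 3 + (k * m) ^ 3 :=
      hk ▸ Odd.nat_add_dvd_pow_add_pow p (k * m) (by decide)
    exact (Nat.dvd_add_left (by rw [mul_pow]; exact h.mul_left _)).1 h2
  have h2 := hp.two_le
  have h3 : p ∣ m := by
    obtain ⟨j, -, hj⟩ := (Nat.dvd_prime_pow hp).1 h1
    refine hp.dvd_of_dvd_pow (Dvd.dvd.trans ?_ h)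
    rw [hj]
    refine dvd_pow_self p fun e => ?_
    rw [e, pow_zero, hk] at hj
    omega
  have h4 := Nat.le_of_dvd hm h3
  have h5 := Nat.le_of_dvd (pow_pos hp.pos 3) h1
  have h6 : p < 4 := by
    by_contra h6
    have h7 : (m + 1) ^ 3 ≤ ∑ i ∈ range p, (m + 1) ^ i :=
      single_le_sum (f := fun i => (m + 1) ^ i) (fun _ _ => Nat.zero_le _)
        (mem_range.2 (by omega))
    have h8 : p ^ 3 < (m + 1) ^ 3 := Nat.pow_lt_pow_left (by omega) (by decide)
    omega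
  interval_cases p
  · simp only [sum_range_succ, range_zero, sum_empty, pow_zero, pow_one] at h1 h5
    refine ⟨rfl, ?_⟩
    have h7 : m ≤ 6 := by omega
    interval_cases m <;> simp_all
  · simp only [sum_range_succ, range_zero, sum_empty] at h1 h5
    have h7 : m ≤ 3 := by nlinarith
    interval_cases m
    simp at h1

theorem jobNL : H42.SX.JobNL := by
  intro q d p hp hq hd h
  have h1 : 1 < q ^ d := Nat.one_lt_pow (by omega) hq
  obtain ⟨m, hm⟩ : ∃ m, q ^ d = m + 1 := ⟨q ^ d - 1, by omega⟩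
  have h2 : q - 1 ∣ m := by
    have := Nat.sub_dvd_pow_sub_pow q 1 d
    rwa [one_pow, hm, Nat.add_sub_cancel] at this
  rw [pow_mul, hm, ← geom_sum_mul_add m p, Nat.add_sub_cancel, Nat.add_sub_cancel] at h
  have h3 : (∑ i ∈ range p, (m + 1) ^ i) * m ∣ m ^ 3 * m :=
    h.trans (by rw [mul_comm]; exact mul_dvd_mul_left _ h2)
  obtain ⟨h4, h5⟩ := core hp (by omega) (Nat.dvd_of_mul_dvd_mul_right (by omega) h3)
  refine ⟨h4, ?_⟩
  rcases h5 with rfl | rfl
  · have := (Nat.Prime.pow_eq_iff (p := 3) (by norm_num)).1 hm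
    exact ⟨this.2, .inl this.1⟩
  · have := (Nat.Prime.pow_eq_iff (p := 7) (by norm_num)).1 hm
    exact ⟨this.2, .inr this.1⟩

end H17.SimNL
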