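import Cfsg.Agent.H2.SpSpec

/-! S4578, tower SPIN: the exceptional covers of `A₆` and `A₇` (`GSmall`). -/

set_option autoImplicit false

namespace H17.SpSmall

open Subgroup Cfsg Equiv H2.Sp

universe u

variable {G : Type*} [Group G] [Finite G] {p : ℕ} [hp : Fact p.Prime]

omit [Finite G] in
theorem center_dvd (h : Nat.card G = p ^ 3) (hn : ¬ IsMulCommutative G) : Nat.card (center G) ∣ p := by
  obtain ⟨k, hk, e⟩ := (Nat.dvd_prime_pow hp.out).1 (h ▸ card_subgroup_dvd_card (center G))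
  rw [e]
  refine (pow_dvd_pow p (not_lt.1 fun k1 => hn ?_)).trans (pow_one p).dvd
  have e2 := card_eq_card_quotient_mul_card_subgroup (center G)
  have : IsCyclic (G ⧸ center G) := isCyclic_of_card_dvd_prime (p := p) (by
    refine Nat.dvd_of_mul_dvd_mul_right (pow_pos hp.out.pos 2) ?_
    rw [← pow_succ', ← h, e2, e]
    exact Nat.mul_dvd_mul_left _ (pow_dvd_pow p k1))
  exact isMulCommutative_of_isCyclic_quotient_center_self G

theorem nab_perfect (h : Group.IsPerfect G) (hz : p ∣ Nat.card (center G)) {D : Subgroup G}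
    (hD : ¬ p ∣ D.index) : ¬ IsMulCommutative D := fun hc => by
  obtain ⟨z, ho⟩ := exists_prime_orderOf_dvd_card' p hz
  let _ : CommGroup D := { (inferInstance : Group D) with mul_comm := hc.is_comm.comm }
  have e := MonoidHom.transfer_eq_pow (MonoidHom.id D) (z : G) fun k g _ => by
    rw [mul_assoc, ← mem_center_iff.1 (pow_mem z.2 k) g, inv_mul_cancel_left]
  rw [Abelianization.commutator_subset_ker _ (Group.IsPerfect.mem_commutator (g := (z : G)))] at e
  exact hD (by
    rw [← ho, ← orderOf_coe]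
    exact orderOf_dvd_of_pow_eq_one (congrArg Subtype.val e).symm)

theorem nab_two {a b : G} (ha : a ^ 2 ^ 2 = 1) (hb : b ^ 2 ^ 1 = 1) (h : b * a * b⁻¹ = a⁻¹)
    (hn : a * b ≠ b * a) (P : Sylow 2 G) : ¬ IsMulCommutative P := fun hc => by
  obtain ⟨Q, hQ⟩ := ((H98.isPGroup_zpowers hb).to_sup_of_normal_right' (H98.isPGroup_zpowers ha)
    (zpowers_le.2 (mem_normalizer_fintype (by
      rintro _ ⟨k, rfl⟩
      exact ⟨-k, by simp only [← conj_zpow, h, inv_zpow']⟩)))).exists_le_sylow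
  have e := Sylow.equiv Q P
  exact hn (congrArg Subtype.val (e.injective (a₁ := ⟨a, hQ (mem_sup_right (mem_zpowers a))⟩ *
    ⟨b, hQ (mem_sup_left (mem_zpowers b))⟩) (a₂ := ⟨b, hQ (mem_sup_left (mem_zpowers b))⟩ *
    ⟨a, hQ (mem_sup_right (mem_zpowers a))⟩) (by rw [map_mul, map_mul]; exact hc.is_comm.comm _ _)))

theorem nab_alt {n : ℕ} (hn : n = 6 ∨ n = 7) (P : Sylow 2 (alternatingGroup (Fin n))) :
    ¬ IsMulCommutative P := by
  rcases hn with rfl | rfl <;>
  refine nab_two (a := ⟨swap 0 1 * swap 1 2 * swap 2 3 * swap 4 5, by simp⟩)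
    (b := ⟨swap 0 2 * swap 4 5, by simp⟩) ?_ ?_ ?_ ?_ P <;> decide +kernel

theorem jobGSmall : GSmall.{u} := by
  intro H _ _ hH n hn e p hp hz M hM B hB D hD χ hχ
  have := hM.2.1
  have hc := H36.card_of_isDefectGroup hM hB hD
  by_cases hd : blockDefect p B ≤ 2
  · exact fin2 hM hB hD hχ (hc ▸ pow_dvd_pow p hd)
  have : Nontrivial (Fin n) := Fin.nontrivial_iff_two_le.2 (by omega)
  have c1 : 2 * Nat.card (H ⧸ center H) = n.factorial := by
    rw [Nat.card_congr e.toEquiv, two_mul_nat_card_alternatingGroup, Nat.card_perm, Nat.card_fin]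
  have c2 := card_eq_card_quotient_mul_card_subgroup (center H)
  have c3 := D.card_mul_index
  have c4 : p ^ 3 ∣ Nat.card H := (pow_dvd_pow p (by omega)).trans (hc ▸ card_subgroup_dvd_card D)
  have c5 : Nat.card H = 1080 ∨ Nat.card H = 7560 ∨ (Nat.card H = 2160 ∨ Nat.card H = 15120) ∧ p ≠ 2 := by
    rcases hn with rfl | rfl <;> rcases hz with hz | ⟨hz, h2⟩ <;> rw [hz] at c2 <;>
      simp only [Nat.factorial] at c1 <;> omega
  have c6 : p ≤ 24 := by
    by_contra h
    have := Nat.pow_le_pow_left (show 25 ≤ p by omega) 3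
    have := Nat.le_of_dvd Nat.card_pos c4
    omega
  have c7 : (p = 2 ∨ p = 3) ∧ ¬ p ^ 4 ∣ Nat.card H := by
    have := hp.out
    rcases c5 with h | h | ⟨h | h, h2⟩ <;> rw [h] at c4 ⊢ <;> interval_cases p <;>
      first | decide | exact absurd c4 (by decide) | exact absurd this (by decide) | exact absurd rfl h2
  have d3 : blockDefect p B = 3 := le_antisymm (not_lt.1 fun h =>
    c7.2 ((pow_dvd_pow p h).trans (hc ▸ card_subgroup_dvd_card D))) (by omega)
  rw [d3] at hc
  have hi : ¬ p ∣ D.index := fun h => c7.2 (by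
    rw [← c3, hc, pow_succ p 3]; exact Nat.mul_dvd_mul_left _ h)
  refine fin3 hM hB hD hχ (center_dvd hc ?_)
  rcases c7.1 with rfl | rfl
  · intro hc'
    refine nab_alt hn (((IsPGroup.of_card hc).toSylow hi).mapSurjective
      (f := e.toMonoidHom.comp (QuotientGroup.mk' _)) (e.surjective.comp (QuotientGroup.mk'_surjective _))) ⟨⟨?_⟩⟩
    rintro ⟨_, x, hx, rfl⟩ ⟨_, y, hy, rfl⟩
    exact Subtype.ext ((map_mul _ _ _).symm.trans ((congrArg _ (congrArg Subtype.val
      (hc'.is_comm.comm (⟨x, hx⟩ : D) ⟨y, hy⟩))).trans (map_mul _ _ _)))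
  · exact nab_perfect hH (by rcases hz with h | ⟨h, -⟩ <;> rw [h] <;> decide) hi

end H17.SpSmall
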